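import Mathlib

/-!
# Group theory for the Janko–Ree centralizer set-up

A simple group with an abelian Sylow `2`-subgroup `T = ⟨t⟩ × ⟨u₁, u₂⟩` with an element `f` fixing `t` and
cycling the involutions of `⟨u₁, u₂⟩`: central extensions by `2`-groups and automorphisms.
-/

set_option autoImplicit false

namespace Cfsg.Agent.Lib.PSL2.JankoRee

open Subgroup

variable {G : Type*} [Group G] [Finite G]

open scoped IsMulCommutative in
/-- No nontrivial element of an abelian Sylow `2`-subgroup of a nonabelian simple group is central in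
its normalizer. -/
theorem exists_normalizer_move [IsSimpleGroup G] (hG : ¬ IsMulCommutative G) (T : Sylow 2 G)
    (hT : IsMulCommutative (T : Subgroup G)) {x : G} (hxT : x ∈ (T : Subgroup G)) (hx1 : x ≠ 1) :
    ∃ w ∈ normalizer ((T : Subgroup G) : Set G), w * x * w⁻¹ ≠ x := by
  by_contra hcon
  push Not at hcon
  have hcon' : ∀ w ∈ normalizer ((T : Subgroup G) : Set G), w⁻¹ * x * w = x := by
    intro w hw
    have := hcon w hw
    calc w⁻¹ * x * w = w⁻¹ * (w * x * w⁻¹) * w := by rw [this]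
      _ = x := by group
  haveI : IsMulCommutative ((T : Sylow 2 G) : Subgroup G) := hT
  let τ : G →* (T : Subgroup G) := MonoidHom.transfer (MonoidHom.id (T : Subgroup G))
  have key : ∀ (k : ℕ) (g₀ : G), g₀⁻¹ * x ^ k * g₀ ∈ (T : Subgroup G) →
      g₀⁻¹ * x ^ k * g₀ = x ^ k := by
    intro k g₀ hg
    have hxk : x ^ k ∈ (T : Subgroup G) := pow_mem hxT k
    obtain ⟨n, hn, h⟩ := T.conj_eq_normalizer_conj_of_mem (x ^ k) g₀ hxk hg
    rw [h]
    have h1 : n⁻¹ * x ^ k * n = (n⁻¹ * x * n) ^ k := by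
      simpa using (conj_pow (a := n⁻¹) (b := x) (i := k)).symm
    rw [h1, hcon' n hn]
  have hτ : τ x = ⟨x ^ (T : Subgroup G).index, MonoidHom.transfer_eq_pow_aux x key⟩ :=
    MonoidHom.transfer_eq_pow _ x key
  have hne : τ x ≠ 1 := by
    rw [hτ]
    intro h
    have h1 : x ^ (T : Subgroup G).index = 1 := congrArg Subtype.val h
    obtain ⟨n, hn⟩ := T.2 ⟨x, hxT⟩
    have h2 : x ^ 2 ^ n = 1 := congrArg Subtype.val hn
    have h3 : Nat.Coprime (2 ^ n) (T : Subgroup G).index :=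
      Nat.Coprime.pow_left n ((Nat.Prime.coprime_iff_not_dvd Nat.prime_two).2 T.not_dvd_index)
    have h4 := orderOf_dvd_of_pow_eq_one h1
    have h5 := orderOf_dvd_of_pow_eq_one h2
    have h6 : orderOf x = 1 := Nat.eq_one_of_dvd_coprimes h3 h5 h4
    exact hx1 (orderOf_eq_one_iff.1 h6)
  rcases (inferInstance : IsSimpleGroup G).eq_bot_or_eq_top_of_normal τ.ker inferInstance with h | h
  · apply hG
    refine ⟨⟨fun a b => ?_⟩⟩
    have hinj : Function.Injective τ := (MonoidHom.ker_eq_bot_iff τ).1 h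
    apply hinj
    rw [map_mul, map_mul, mul_comm]
  · exact hne (MonoidHom.mem_ker.1 (by rw [h]; exact mem_top x))

lemma mem_normalizer_of_conj_mem {T : Subgroup G} {g : G} (h : ∀ x ∈ T, g * x * g⁻¹ ∈ T) :
    g ∈ normalizer (T : Set G) := by
  classical
  have hinj : Function.Injective (fun x : T => (⟨g * x * g⁻¹, h x x.2⟩ : T)) := by
    intro x y hxy
    have h1 : g * (x : G) * g⁻¹ = g * y * g⁻¹ := congrArg Subtype.val hxy
    exact Subtype.ext (by simpa using h1)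
  have hsurj := Finite.surjective_of_injective hinj
  rw [mem_normalizer_iff]
  intro x
  refine ⟨h x, fun hx => ?_⟩
  obtain ⟨y, hy⟩ := hsurj ⟨g * x * g⁻¹, hx⟩
  have h1 : g * (y : G) * g⁻¹ = g * x * g⁻¹ := congrArg Subtype.val hy
  have h2 : (y : G) = x := by simpa using h1
  rw [← h2]
  exact y.2

section Ext

variable {L : Type*} [Group L] [Finite L]

open scoped IsMulCommutative in
/-- The extension part. -/
theorem central_ext_trivial (T : Sylow 2 G) {t u₁ u₂ f : G}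
    (hT2 : ∀ x ∈ (T : Subgroup G), x * x = 1)
    (hTc : ∀ x ∈ (T : Subgroup G), ∀ y ∈ (T : Subgroup G), x * y = y * x)
    (ht : t ∈ (T : Subgroup G)) (hu₁ : u₁ ∈ (T : Subgroup G)) (hu₂ : u₂ ∈ (T : Subgroup G))
    (hft : f * t * f⁻¹ = t) (hfu₁ : f * u₁ * f⁻¹ = u₂) (hfu₂ : f * u₂ * f⁻¹ = u₁ * u₂)
    (hgen : ∀ x ∈ (T : Subgroup G), ∃ (i a b : Fin 2), x = t ^ (i : ℕ) * u₁ ^ (a : ℕ) * u₂ ^ (b : ℕ))
    (w : G) (hw : w ∈ normalizer ((T : Subgroup G) : Set G)) (hwt : w * t * w⁻¹ ≠ t)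
    (π : L →* G) (hπ : Function.Surjective π) (Z : Subgroup L) (hZ : π.ker = Z)
    (hZc : Z ≤ center L) (hZ2 : IsPGroup 2 Z) (hperf : commutator L = ⊤) : Z = ⊥ := by
  classical
  have ht1 : t ≠ 1 := by
    rintro rfl
    apply hwt
    simp
  let H : Subgroup L := (T : Subgroup G).comap π
  have memH : ∀ y : L, y ∈ H ↔ π y ∈ (T : Subgroup G) := fun y => Iff.rfl
  have hZH : ∀ z ∈ Z, z ∈ H := by
    intro z hz
    rw [← hZ] at hz
    rw [memH, MonoidHom.mem_ker.1 hz]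
    exact one_mem _
  have hcen : ∀ z ∈ Z, ∀ y : L, z * y = y * z := fun z hz y =>
    (Subgroup.mem_center_iff.1 (hZc hz) y).symm
  have memZ : ∀ y : L, π y = 1 → y ∈ Z := fun y hy => by
    rw [← hZ]
    exact MonoidHom.mem_ker.2 hy
  have hfN : f ∈ normalizer ((T : Subgroup G) : Set G) := by
    apply mem_normalizer_of_conj_mem
    intro x hx
    obtain ⟨i, a, b, rfl⟩ := hgen x hx
    have : f * (t ^ (i : ℕ) * u₁ ^ (a : ℕ) * u₂ ^ (b : ℕ)) * f⁻¹ =
        t ^ (i : ℕ) * u₂ ^ (a : ℕ) * (u₁ * u₂) ^ (b : ℕ) := by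
      have e : (MulAut.conj f) (t ^ (i : ℕ) * u₁ ^ (a : ℕ) * u₂ ^ (b : ℕ)) =
          ((MulAut.conj f) t) ^ (i : ℕ) * ((MulAut.conj f) u₁) ^ (a : ℕ) *
            ((MulAut.conj f) u₂) ^ (b : ℕ) := by
        simp only [map_mul, map_pow]
      simp only [MulAut.conj_apply] at e
      rw [hft, hfu₁, hfu₂] at e
      exact e
    rw [this]
    exact mul_mem (mul_mem (pow_mem ht _) (pow_mem hu₂ _)) (pow_mem (mul_mem hu₁ hu₂) _)
  obtain ⟨xl, hxl⟩ := hπ t
  obtain ⟨p₁, hp₁⟩ := hπ u₁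
  obtain ⟨p₂, hp₂⟩ := hπ u₂
  obtain ⟨fl, hfl⟩ := hπ f
  obtain ⟨wl, hwl⟩ := hπ w
  have hxlH : xl ∈ H := by rw [memH, hxl]; exact ht
  have hp₁H : p₁ ∈ H := by rw [memH, hp₁]; exact hu₁
  have hp₂H : p₂ ∈ H := by rw [memH, hp₂]; exact hu₂
  have conjH : ∀ g : L, π g ∈ normalizer ((T : Subgroup G) : Set G) → ∀ y ∈ H, g * y * g⁻¹ ∈ H := by
    intro g hg y hy
    rw [memH, map_mul, map_mul, map_inv]
    exact (mem_normalizer_iff.1 hg _).1 hy
  -- the commutator map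
  let c : L → L := fun y => xl * y * xl⁻¹ * y⁻¹
  have cZ : ∀ y ∈ H, c y ∈ Z := by
    intro y hy
    apply memZ
    simp only [c, map_mul, map_inv, hxl]
    rw [hTc t ht (π y) hy]
    group
  have c_mul : ∀ y ∈ H, ∀ y' ∈ H, c (y * y') = c y * c y' := by
    intro y hy y' hy'
    have h1 : c (y * y') = (xl * y * xl⁻¹) * c y' * y⁻¹ := by
      simp only [c]
      group
    rw [h1, mul_assoc, hcen _ (cZ y' hy'), ← mul_assoc]
  have c_congr : ∀ y ∈ H, ∀ y' ∈ H, π y = π y' → c y = c y' := by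
    intro y hy y' hy' h
    have hz : y⁻¹ * y' ∈ Z := by
      apply memZ
      rw [map_mul, map_inv, h, inv_mul_cancel]
    have h2 : y' = y * (y⁻¹ * y') := by group
    have h3 : c (y⁻¹ * y') = 1 := by
      simp only [c]
      have := hcen _ hz xl⁻¹
      calc xl * (y⁻¹ * y') * xl⁻¹ * (y⁻¹ * y')⁻¹ = xl * ((y⁻¹ * y') * xl⁻¹) * (y⁻¹ * y')⁻¹ := by group
        _ = xl * (xl⁻¹ * (y⁻¹ * y')) * (y⁻¹ * y')⁻¹ := by rw [this]
        _ = 1 := by group
    have h4 := c_mul y hy _ (hZH _ hz)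
    rw [h3, mul_one, ← h2] at h4
    exact h4.symm
  have c_conj : ∀ y ∈ H, c (fl * y * fl⁻¹) = c y := by
    intro y hy
    have hxf : xl⁻¹ * (fl * xl * fl⁻¹) ∈ Z := by
      apply memZ
      simp only [map_mul, map_inv, hfl, hxl]
      rw [hft, inv_mul_cancel]
    set z₀ := xl⁻¹ * (fl * xl * fl⁻¹) with hz₀
    have e1 : fl * xl * fl⁻¹ = xl * z₀ := by rw [hz₀]; group
    have e2 : fl * c y * fl⁻¹ = c y := by
      rw [← hcen _ (cZ y hy) fl]
      group
    rw [← e2]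
    set Y := fl * y * fl⁻¹ with hY
    have e3 : fl * c y * fl⁻¹ = (fl * xl * fl⁻¹) * Y * (fl * xl * fl⁻¹)⁻¹ * Y⁻¹ := by
      simp only [c, hY]
      group
    have e4 : z₀ * Y = Y * z₀ := hcen _ hxf Y
    rw [e3, e1]
    simp only [c]
    calc xl * Y * xl⁻¹ * Y⁻¹ = xl * (Y * z₀) * z₀⁻¹ * xl⁻¹ * Y⁻¹ := by group
      _ = xl * (z₀ * Y) * z₀⁻¹ * xl⁻¹ * Y⁻¹ := by rw [e4]
      _ = xl * z₀ * Y * (xl * z₀)⁻¹ * Y⁻¹ := by group
  have hfl' : π fl ∈ normalizer ((T : Subgroup G) : Set G) := by rw [hfl]; exact hfN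
  have hwl' : π wl ∈ normalizer ((T : Subgroup G) : Set G) := by rw [hwl]; exact hw
  have hu1 : u₁ * u₁ = 1 := hT2 _ hu₁
  have hu2 : u₂ * u₂ = 1 := hT2 _ hu₂
  have hucomm : u₁ * u₂ = u₂ * u₁ := hTc _ hu₁ _ hu₂
  have hf12 : f * (u₁ * u₂) * f⁻¹ = u₁ := by
    have e : f * (u₁ * u₂) * f⁻¹ = (f * u₁ * f⁻¹) * (f * u₂ * f⁻¹) := by group
    rw [e, hfu₁, hfu₂, ← mul_assoc, ← hucomm, mul_assoc, hu2, mul_one]
  -- `xl` commutes with the lifts
  have h21 : c p₂ = c p₁ := by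
    have h1 := c_congr (fl * p₁ * fl⁻¹) (conjH fl hfl' _ hp₁H) p₂ hp₂H (by
      simp only [map_mul, map_inv, hfl, hp₁, hp₂, hfu₁])
    rw [← h1, c_conj p₁ hp₁H]
  have h12 : c (p₁ * p₂) = c p₂ := by
    have h1 := c_congr (fl * p₂ * fl⁻¹) (conjH fl hfl' _ hp₂H) (p₁ * p₂) (mul_mem hp₁H hp₂H) (by
      simp only [map_mul, map_inv, hfl, hp₁, hp₂, hfu₂])
    rw [← h1, c_conj p₂ hp₂H]
  have hc1 : c p₁ = 1 := by
    have h3 := c_mul p₁ hp₁H p₂ hp₂H
    rw [h12] at h3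
    exact (mul_eq_right.1 h3.symm)
  have hc2 : c p₂ = 1 := by rw [h21, hc1]
  have comm_of_c : ∀ y : L, c y = 1 → Commute y xl := by
    intro y hy
    simp only [c] at hy
    show y * xl = xl * y
    calc y * xl = (xl * y * xl⁻¹ * y⁻¹)⁻¹ * (xl * y) := by group
      _ = xl * y := by rw [hy]; group
  have hdec : ∀ q₀ q₁ q₂ : L, π q₀ = t → π q₁ = u₁ → π q₂ = u₂ → ∀ y ∈ H, ∃ (i a b : Fin 2),
      ∃ z ∈ Z, y = q₀ ^ (i : ℕ) * q₁ ^ (a : ℕ) * q₂ ^ (b : ℕ) * z := by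
    intro q₀ q₁ q₂ h0 h1 h2 y hy
    obtain ⟨i, a, b, h⟩ := hgen (π y) hy
    refine ⟨i, a, b, (q₀ ^ (i : ℕ) * q₁ ^ (a : ℕ) * q₂ ^ (b : ℕ))⁻¹ * y, ?_, by group⟩
    apply memZ
    rw [map_mul, map_inv, map_mul, map_mul, map_pow, map_pow, map_pow, h0, h1, h2, h, inv_mul_cancel]
  let Y : Subgroup L := centralizer (H : Set L)
  have memY : ∀ y : L, y ∈ Y ↔ ∀ h ∈ H, h * y = y * h := fun y => by
    simp only [Y, mem_centralizer_iff]
    rfl
  have hZY : ∀ z ∈ Z, z ∈ Y := fun z hz => (memY z).2 fun h _ => (hcen z hz h).symm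
  have hxlY : xl ∈ Y := by
    rw [memY]
    intro h hh
    obtain ⟨i, a, b, z, hz, rfl⟩ := hdec xl p₁ p₂ hxl hp₁ hp₂ h hh
    have c1 : Commute (p₁ ^ (a : ℕ)) xl := (comm_of_c p₁ hc1).pow_left _
    have c2 : Commute (p₂ ^ (b : ℕ)) xl := (comm_of_c p₂ hc2).pow_left _
    have c3 : Commute z xl := hcen z hz xl
    have c4 : Commute (xl ^ (i : ℕ)) xl := (Commute.refl xl).pow_left _
    exact ((c4.mul_left c1).mul_left c2).mul_left c3
  have hconjY : ∀ g : L, π g ∈ normalizer ((T : Subgroup G) : Set G) → ∀ y ∈ Y, g * y * g⁻¹ ∈ Y := by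
    intro g hg y hy
    rw [memY]
    intro h hh
    have h1 := conjH g⁻¹ (by rw [map_inv]; exact inv_mem hg) h hh
    have h2 := (memY y).1 hy _ h1
    simp only [inv_inv] at h2
    calc h * (g * y * g⁻¹) = g * (g⁻¹ * h * g * y) * g⁻¹ := by group
      _ = g * (y * (g⁻¹ * h * g)) * g⁻¹ := by rw [h2]
      _ = g * y * g⁻¹ * h := by group
  have hwT : w * t * w⁻¹ ∈ (T : Subgroup G) := (mem_normalizer_iff.1 hw t).1 ht
  obtain ⟨i, a, b, hi⟩ := hgen _ hwT
  have hy₁ : wl * xl * wl⁻¹ ∈ Y := hconjY wl hwl' xl hxlY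
  set y₂ := (xl ^ (i : ℕ))⁻¹ * (wl * xl * wl⁻¹) with hy₂
  have hy₂Y : y₂ ∈ Y := mul_mem (inv_mem (pow_mem hxlY _)) hy₁
  have hπy₂ : π y₂ = u₁ ^ (a : ℕ) * u₂ ^ (b : ℕ) := by
    rw [hy₂, map_mul, map_inv, map_pow, hxl, map_mul, map_mul, map_inv, hwl, hxl, hi]
    group
  have hF : ∀ q : L, q ∈ Y → fl * q * fl⁻¹ ∈ Y := fun q hq => hconjY fl hfl' q hq
  have hπF : ∀ q : L, π (fl * q * fl⁻¹) = f * π q * f⁻¹ := fun q => by
    rw [map_mul, map_mul, map_inv, hfl]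
  have hq : ∃ q₁ ∈ Y, ∃ q₂ ∈ Y, π q₁ = u₁ ∧ π q₂ = u₂ := by
    have hi2 : ∀ j : Fin 2, (j : ℕ) = 0 ∨ (j : ℕ) = 1 := fun j => by omega
    rcases hi2 a with ha | ha <;> rcases hi2 b with hb | hb
    · exfalso
      rw [ha, hb, pow_zero, pow_zero, mul_one, mul_one] at hi
      rcases hi2 i with hi' | hi'
      · rw [hi', pow_zero] at hi
        apply ht1
        have h5 : t = w⁻¹ * (w * t * w⁻¹) * w := by group
        rw [h5, hi]
        group
      · rw [hi', pow_one] at hi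
        exact hwt hi
    · rw [ha, hb, pow_zero, pow_one, one_mul] at hπy₂
      refine ⟨fl * (fl * y₂ * fl⁻¹) * fl⁻¹, hF _ (hF _ hy₂Y), y₂, hy₂Y, ?_, hπy₂⟩
      rw [hπF, hπF, hπy₂, hfu₂, hf12]
    · rw [ha, hb, pow_one, pow_zero, mul_one] at hπy₂
      refine ⟨y₂, hy₂Y, fl * y₂ * fl⁻¹, hF _ hy₂Y, hπy₂, ?_⟩
      rw [hπF, hπy₂, hfu₁]
    · rw [ha, hb, pow_one, pow_one] at hπy₂
      refine ⟨fl * y₂ * fl⁻¹, hF _ hy₂Y, fl * (fl * y₂ * fl⁻¹) * fl⁻¹, hF _ (hF _ hy₂Y), ?_, ?_⟩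
      · rw [hπF, hπy₂, hf12]
      · rw [hπF, hπF, hπy₂, hf12, hfu₁]
  obtain ⟨q₁, hq₁, q₂, hq₂, hπq₁, hπq₂⟩ := hq
  have hHY : ∀ h ∈ H, h ∈ Y := by
    intro h hh
    obtain ⟨i, a, b, z, hz, rfl⟩ := hdec xl q₁ q₂ hxl hπq₁ hπq₂ h hh
    exact mul_mem (mul_mem (mul_mem (pow_mem hxlY _) (pow_mem hq₁ _)) (pow_mem hq₂ _)) (hZY z hz)
  -- the transfer
  haveI hHc : IsMulCommutative H := ⟨⟨fun x y => Subtype.ext ((memY _).1 (hHY x x.2) y y.2).symm⟩⟩
  let τ : L →* H := MonoidHom.transfer (MonoidHom.id H)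
  have hτ1 : ∀ g, τ g = 1 := by
    intro g
    have hg : g ∈ commutator L := by rw [hperf]; exact mem_top g
    have hle : commutator L ≤ τ.ker := by
      rw [_root_.commutator_def, commutator_le]
      intro a _ b _
      rw [MonoidHom.mem_ker, map_commutatorElement, commutatorElement_eq_one_iff_commute]
      exact mul_comm _ _
    exact MonoidHom.mem_ker.1 (hle hg)
  rw [eq_bot_iff_forall]
  intro z hz
  have key : ∀ (k : ℕ) (g₀ : L), g₀⁻¹ * z ^ k * g₀ ∈ H → g₀⁻¹ * z ^ k * g₀ = z ^ k := by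
    intro k g₀ _
    have := hcen _ (pow_mem hz k) g₀
    rw [mul_assoc, this]
    group
  have hτz : τ z = ⟨z ^ H.index, MonoidHom.transfer_eq_pow_aux z key⟩ :=
    MonoidHom.transfer_eq_pow _ z key
  rw [hτ1 z] at hτz
  have h1 : z ^ H.index = 1 := (congrArg Subtype.val hτz).symm
  have hidx : H.index = (T : Subgroup G).index := Subgroup.index_comap_of_surjective _ hπ
  obtain ⟨n, hn⟩ := hZ2 ⟨z, hz⟩
  have h2 : z ^ 2 ^ n = 1 := congrArg Subtype.val hn
  have h3 : Nat.Coprime (2 ^ n) H.index := by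
    rw [hidx]
    exact Nat.Coprime.pow_left n ((Nat.Prime.coprime_iff_not_dvd Nat.prime_two).2 T.not_dvd_index)
  have h6 : orderOf z = 1 :=
    Nat.eq_one_of_dvd_coprimes h3 (orderOf_dvd_of_pow_eq_one h2) (orderOf_dvd_of_pow_eq_one h1)
  exact orderOf_eq_one_iff.1 h6

end Ext

section Complements

/-- Two complements of an elementary abelian subgroup, of odd order, are conjugate. -/
theorem exists_conj_of_complements (T K K' : Subgroup G)
    (hT2 : ∀ x ∈ T, x * x = 1) (hTc : ∀ x ∈ T, ∀ y ∈ T, x * y = y * x)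
    (hKN : K ≤ normalizer (T : Set G)) (hodd : Odd (Nat.card K))
    (hex : ∀ k ∈ K, ∃ τ ∈ T, τ * k ∈ K') (huniq : ∀ τ ∈ T, τ ∈ K' → τ = 1) :
    ∃ s ∈ T, ∀ k ∈ K, s * k * s⁻¹ ∈ K' := by
  classical
  cases nonempty_fintype K
  letI : CommGroup T := { (inferInstance : Group T) with
    mul_comm := fun x y => Subtype.ext (hTc x x.2 y y.2) }
  choose δ₀ hδ₀T hδ₀ using fun k : K => hex k k.2
  let δ : K → T := fun k => ⟨δ₀ k, hδ₀T k⟩
  have hδ : ∀ k : K, (δ k : G) * k ∈ K' := hδ₀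
  have hunique : ∀ (k : K) (τ : G), τ ∈ T → τ * k ∈ K' → τ = δ k := by
    intro k τ hτ h
    have h1 : τ * k * ((δ k : G) * k)⁻¹ ∈ K' := mul_mem h (inv_mem (hδ k))
    have h2 : τ * k * ((δ k : G) * k)⁻¹ = τ * (δ k : G)⁻¹ := by group
    rw [h2] at h1
    have h3 := huniq _ (mul_mem hτ (inv_mem (δ k).2)) h1
    exact mul_inv_eq_one.1 h3
  -- conjugation on `T`
  let ch : K → (T →* T) := fun h =>
    { toFun := fun x => ⟨(h : G) * x * (h : G)⁻¹, (mem_normalizer_iff.1 (hKN h.2) x).1 x.2⟩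
      map_one' := Subtype.ext (by simp)
      map_mul' := fun x y => Subtype.ext (by
        show (h : G) * (x * y) * (h : G)⁻¹ = ((h : G) * x * (h : G)⁻¹) * ((h : G) * y * (h : G)⁻¹)
        group) }
  have hcoc : ∀ h k : K, δ (h * k) = δ h * ch h (δ k) := by
    intro h k
    apply Subtype.ext
    symm
    apply hunique (h * k)
    · exact mul_mem (δ h).2 (ch h (δ k)).2
    · have e : ((δ h : G) * ((h : G) * (δ k : G) * (h : G)⁻¹)) * ((h * k : K) : G) =
          ((δ h : G) * h) * ((δ k : G) * k) := by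
        push_cast
        group
      exact e ▸ mul_mem (hδ h) (hδ k)
  let s₀ : T := ∏ k : K, δ k
  have hs₀ : ∀ h : K, s₀ = δ h * ch h s₀ := by
    intro h
    have h1 : s₀ = ∏ k : K, δ (h * k) := (Equiv.prod_comp (Equiv.mulLeft h) δ).symm
    have hsq : (δ h) * (δ h) = 1 := Subtype.ext (hT2 _ (δ h).2)
    have h2 : (δ h) ^ Nat.card K = δ h := by
      obtain ⟨m, hm⟩ := hodd
      rw [hm, pow_succ, pow_mul, pow_two, hsq, one_pow, one_mul]
    calc s₀ = ∏ k : K, δ (h * k) := h1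
      _ = ∏ k : K, (δ h * ch h (δ k)) := by simp only [hcoc]
      _ = δ h * ch h s₀ := by
        rw [Finset.prod_mul_distrib, Finset.prod_const, Finset.card_univ, ← Nat.card_eq_fintype_card, h2,
          ← map_prod]
  refine ⟨s₀, s₀.2, fun k hk => ?_⟩
  have h1 := congrArg Subtype.val (hs₀ ⟨k, hk⟩)
  have h2 : (s₀ : G) = (δ ⟨k, hk⟩ : G) * (k * s₀ * k⁻¹) := h1
  have h3 : (s₀ : G) * k * (s₀ : G)⁻¹ = (δ ⟨k, hk⟩ : G) * k := by
    calc (s₀ : G) * k * (s₀ : G)⁻¹ = ((δ ⟨k, hk⟩ : G) * (k * s₀ * k⁻¹)) * k * (s₀ : G)⁻¹ := by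
          rw [← h2]
      _ = (δ ⟨k, hk⟩ : G) * k := by group
  rw [h3]
  exact hδ ⟨k, hk⟩

/-- A function with iterate the identity, on a set of odd size, has a fixed point. -/
lemma exists_fixed_of_iterate {X : Type*} [Finite X] (g : X → X) (m : ℕ) (hg : g^[2 ^ m] = id)
    (hodd : Odd (Nat.card X)) : ∃ x, g x = x := by
  classical
  cases nonempty_fintype X
  haveI : Fact (Nat.Prime 2) := ⟨Nat.prime_two⟩
  let f : Function.End X := g
  have hf : f ^ 2 ^ m = 1 :=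
    (hom_coe_pow (fun g : Function.End X ↦ (g : X → X)) rfl (fun _ _ ↦ rfl) f (2 ^ m)).trans hg
  have h1 := Equiv.Perm.card_fixedPoints_modEq (p := 2) (n := m) hf
  by_contra hcon
  push Not at hcon
  have h2 : Fintype.card f.fixedPoints = 0 := by
    rw [Fintype.card_eq_zero_iff]
    exact ⟨fun x => hcon x.1 x.2⟩
  rw [h2] at h1
  rw [Nat.card_eq_fintype_card] at hodd
  have h3 : Fintype.card X % 2 = 0 := h1
  rcases hodd with ⟨c, hc⟩
  omega

/-- The action of an automorphism fixing `T` pointwise on the normalizer. -/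
lemma conj_eq_of_fix {φ : MulAut G} {T : Subgroup G} (hfix : ∀ x ∈ T, φ x = x) {x y : G}
    (hx : x ∈ normalizer (T : Set G)) (hy : y ∈ T) : φ x * y * (φ x)⁻¹ = x * y * x⁻¹ := by
  have h1 : x * y * x⁻¹ ∈ T := (mem_normalizer_iff.1 hx y).1 hy
  have h2 := hfix _ h1
  rw [map_mul, map_mul, map_inv, hfix y hy] at h2
  exact h2

lemma map_mem_normalizer {φ : MulAut G} {T : Subgroup G} (hfix : ∀ x ∈ T, φ x = x) {x : G}
    (hx : x ∈ normalizer (T : Set G)) : φ x ∈ normalizer (T : Set G) := by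
  apply mem_normalizer_of_conj_mem
  intro y hy
  rw [conj_eq_of_fix hfix hx hy]
  exact (mem_normalizer_iff.1 hx y).1 hy

lemma inv_fix {φ : MulAut G} {T : Subgroup G} (hfix : ∀ x ∈ T, φ x = x) : ∀ x ∈ T, φ⁻¹ x = x := by
  intro x hx
  calc φ⁻¹ x = φ⁻¹ (φ x) := by rw [hfix x hx]
    _ = x := MulAut.inv_apply_self G φ x

/-- After multiplying by an inner automorphism by an element of `T`, every coset of the centralizer of
`T` in its normalizer has a fixed point. -/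
theorem exists_fix (T : Subgroup G) (hT2 : ∀ x ∈ T, x * x = 1) (hTc : ∀ x ∈ T, ∀ y ∈ T, x * y = y * x)
    (hodd : Odd T.index) (hT2p : IsPGroup 2 T) (φ : MulAut G) (k : ℕ) (hφ : φ ^ (2 ^ k) = 1)
    (hfix : ∀ x ∈ T, φ x = x) :
    ∃ s ∈ T, ∀ x ∈ normalizer (T : Set G), ∃ y ∈ normalizer (T : Set G),
      s⁻¹ * φ y * s = y ∧ ∀ z ∈ T, y * z * y⁻¹ = x * z * x⁻¹ := by
  classical
  let W : Subgroup G := normalizer (T : Set G)
  let TW : Subgroup W := T.subgroupOf W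
  haveI : TW.Normal := Subgroup.normal_subgroupOf_of_le_normalizer le_rfl
  have hTW2 : IsPGroup 2 TW := hT2p.comap_subtype
  have hidx : ¬ 2 ∣ TW.index := by
    have h1 : T.relIndex W ∣ T.index := relIndex_dvd_index_of_le le_normalizer
    intro h2
    have h3 : 2 ∣ T.index := h2.trans h1
    exact (Nat.not_even_iff_odd.2 hodd) (even_iff_two_dvd.2 h3)
  have hcop : Nat.Coprime (Nat.card TW) TW.index := by
    obtain ⟨n, hn⟩ := IsPGroup.iff_card.1 hTW2
    rw [hn]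
    exact Nat.Coprime.pow_left n ((Nat.Prime.coprime_iff_not_dvd Nat.prime_two).2 hidx)
  obtain ⟨KW, hKW⟩ := Subgroup.exists_right_complement'_of_coprime hcop
  let K : Subgroup G := KW.map W.subtype
  have hKN : K ≤ W := Subgroup.map_subtype_le _
  have hKcard : Odd (Nat.card K) := by
    have h1 : Nat.card K = Nat.card KW := Subgroup.card_map_of_injective W.subtype_injective
    rw [h1, ← hKW.symm.index_eq_card]
    exact Nat.not_even_iff_odd.1 fun h => hidx (even_iff_two_dvd.1 h)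
  have hdec : ∀ x ∈ W, ∃ τ ∈ T, ∃ k' ∈ K, x = τ * k' := by
    intro x hx
    obtain ⟨⟨a, b⟩, hab, -⟩ := hKW.existsUnique ⟨x, hx⟩
    refine ⟨(a : W), a.2, (b : W), ⟨b, b.2, rfl⟩, ?_⟩
    exact (congrArg Subtype.val hab).symm
  have hTK : ∀ τ ∈ T, τ ∈ K → τ = 1 := by
    rintro τ hτ ⟨b, hb, rfl⟩
    have h1 : b ∈ TW := hτ
    have h2 := Subgroup.disjoint_def.1 hKW.disjoint h1 hb
    rw [h2]
    rfl
  let K' : Subgroup G := K.map φ.toMonoidHom
  have hex : ∀ k' ∈ K, ∃ τ ∈ T, τ * k' ∈ K' := by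
    intro k' hk'
    have h1 : φ⁻¹ k' ∈ W := map_mem_normalizer (inv_fix hfix) (hKN hk')
    obtain ⟨τ, hτ, k₁, hk₁, h2⟩ := hdec _ h1
    refine ⟨τ⁻¹, inv_mem hτ, ⟨k₁, hk₁, ?_⟩⟩
    have h3 : k' = φ (τ * k₁) := by rw [← h2]; exact (MulAut.apply_inv_self G φ k').symm
    rw [map_mul, hfix τ hτ] at h3
    rw [h3]
    show φ k₁ = τ⁻¹ * (τ * φ k₁)
    group
  have huniq : ∀ τ ∈ T, τ ∈ K' → τ = 1 := by
    rintro τ hτ ⟨k₀, hk₀, rfl⟩
    have h1 : φ⁻¹ (φ k₀) = φ k₀ := inv_fix hfix _ hτ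
    have h2 : k₀ = φ k₀ := (MulAut.inv_apply_self G φ k₀).symm.trans h1
    have h3 : k₀ ∈ T := by rw [h2]; exact hτ
    have h4 := hTK k₀ h3 hk₀
    show φ k₀ = 1
    rw [h4, map_one]
  obtain ⟨s, hsT, hs⟩ := exists_conj_of_complements T K K' hT2 hTc hKN hKcard hex huniq
  have hcardK' : Nat.card K' = Nat.card K := Subgroup.card_map_of_injective φ.injective
  let m : K → K' := fun k' => ⟨s * k' * s⁻¹, hs k' k'.2⟩
  have hminj : Function.Injective m := by
    intro a b hab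
    have h1 : s * (a : G) * s⁻¹ = s * b * s⁻¹ := congrArg Subtype.val hab
    exact Subtype.ext (by simpa using h1)
  have hmbij : Function.Bijective m := (Nat.bijective_iff_injective_and_card m).2 ⟨hminj, hcardK'.symm⟩
  let ψ : MulAut G := MulAut.conj s⁻¹ * φ
  have hψ : ∀ y, ψ y = s⁻¹ * φ y * s := fun y => by
    simp [ψ, MulAut.mul_apply]
  have hψK : ∀ k' ∈ K, ψ k' ∈ K := by
    intro k' hk'
    obtain ⟨k₁, hk₁⟩ := hmbij.2 ⟨φ k', ⟨k', hk', rfl⟩⟩
    have h1 : s * (k₁ : G) * s⁻¹ = φ k' := congrArg Subtype.val hk₁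
    rw [hψ, ← h1]
    have h2 : s⁻¹ * (s * (k₁ : G) * s⁻¹) * s = k₁ := by group
    rw [h2]
    exact k₁.2
  have hψfix : ∀ z ∈ T, ψ z = z := by
    intro z hz
    rw [hψ, hfix z hz, mul_assoc, hTc z hz s hsT]
    group
  have hcomm : Commute (MulAut.conj s⁻¹) φ := by
    ext y
    simp [MulAut.mul_apply, map_mul, map_inv, hfix s hsT]
  have hψpow : ψ ^ (2 ^ (k + 1)) = 1 := by
    rw [show ψ = MulAut.conj s⁻¹ * φ from rfl, hcomm.mul_pow, pow_succ 2 k, mul_comm (2 ^ k) 2,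
      pow_mul φ 2, pow_mul (MulAut.conj s⁻¹) 2, ← map_pow, pow_two, ← pow_mul, mul_comm 2 (2 ^ k), pow_mul φ, hφ, one_pow, mul_one]
    have h1 : s⁻¹ * s⁻¹ = 1 := by
      have := hT2 s hsT
      rw [← mul_inv_rev, this, inv_one]
    rw [h1, map_one, one_pow]
  refine ⟨s, hsT, fun x hx => ?_⟩
  obtain ⟨τ, hτ, k₀, hk₀, rfl⟩ := hdec x hx
  let CK : Subgroup G := K ⊓ centralizer (T : Set G)
  have hk₀W : k₀ ∈ W := hKN hk₀
  have hcK : ∀ c : CK, (c : G) ∈ K := fun c => (Subgroup.mem_inf.1 c.2).1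
  have hcC : ∀ c : CK, (c : G) ∈ centralizer (T : Set G) := fun c => (Subgroup.mem_inf.1 c.2).2
  have hgmem : ∀ c : CK, k₀⁻¹ * ψ (k₀ * c) ∈ CK := by
    intro c
    refine Subgroup.mem_inf.2 ⟨mul_mem (inv_mem hk₀) (hψK _ (mul_mem hk₀ (hcK c))), ?_⟩
    rw [mem_centralizer_iff]
    intro z hz
    have h1 : k₀ * (c : G) ∈ W := mul_mem hk₀W (hKN (hcK c))
    have h2 := conj_eq_of_fix hψfix h1 hz
    have h3 : (c : G) * z * (c : G)⁻¹ = z := by
      have := (mem_centralizer_iff.1 (hcC c)) z hz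
      rw [← this]
      group
    have h4 : ψ (k₀ * c) * z * (ψ (k₀ * c))⁻¹ = k₀ * z * k₀⁻¹ := by
      rw [h2]
      calc k₀ * (c : G) * z * (k₀ * (c : G))⁻¹ = k₀ * ((c : G) * z * (c : G)⁻¹) * k₀⁻¹ := by group
        _ = _ := by rw [h3]
    calc z * (k₀⁻¹ * ψ (k₀ * c)) = k₀⁻¹ * (k₀ * z * k₀⁻¹) * ψ (k₀ * c) := by group
      _ = k₀⁻¹ * (ψ (k₀ * c) * z * (ψ (k₀ * c))⁻¹) * ψ (k₀ * c) := by rw [h4]
      _ = k₀⁻¹ * ψ (k₀ * c) * z := by group
  let g : CK → CK := fun c => ⟨k₀⁻¹ * ψ (k₀ * c), hgmem c⟩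
  have hiter : ∀ (n : ℕ) (c : CK), ((g^[n] c : CK) : G) = k₀⁻¹ * (ψ ^ n) (k₀ * c) := by
    intro n c
    induction n with
    | zero => simp
    | succ n ih =>
      rw [Function.iterate_succ_apply']
      show k₀⁻¹ * ψ (k₀ * ((g^[n] c : CK) : G)) = _
      rw [ih, mul_inv_cancel_left, pow_succ']
      rfl
  have hgid : g^[2 ^ (k + 1)] = id := by
    funext c
    apply Subtype.ext
    rw [hiter, hψpow]
    simp
  have hCKodd : Odd (Nat.card CK) := by
    have h1 : Nat.card CK ∣ Nat.card K := Subgroup.card_dvd_of_le inf_le_left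
    exact Odd.of_dvd_nat hKcard h1
  obtain ⟨c, hc⟩ := exists_fixed_of_iterate g (k + 1) hgid hCKodd
  have hc' : k₀⁻¹ * ψ (k₀ * c) = c := congrArg Subtype.val hc
  have hfixy : ψ (k₀ * c) = k₀ * c :=
    (mul_inv_cancel_left k₀ _).symm.trans (congrArg (k₀ * ·) hc')
  refine ⟨k₀ * c, mul_mem hk₀W (hKN (hcK c)), ?_, ?_⟩
  · rw [← hψ, hfixy]
  · intro z hz
    have h3 : (c : G) * z * (c : G)⁻¹ = z := by
      have := (mem_centralizer_iff.1 (hcC c)) z hz
      rw [← this]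
      group
    have h4 : k₀ * z * k₀⁻¹ ∈ T := (mem_normalizer_iff.1 hk₀W z).1 hz
    have h5 := hTc τ hτ _ h4
    calc k₀ * (c : G) * z * (k₀ * (c : G))⁻¹ = k₀ * ((c : G) * z * (c : G)⁻¹) * k₀⁻¹ := by group
      _ = k₀ * z * k₀⁻¹ := by rw [h3]
      _ = τ * (k₀ * z * k₀⁻¹) * τ⁻¹ := by rw [h5]; group
      _ = τ * k₀ * z * (τ * k₀)⁻¹ := by group

end Complements

section Main

/-- The automorphism part. -/
theorem aut_inner [IsSimpleGroup G] (hG : ¬ IsMulCommutative G) (T : Sylow 2 G) {t u₁ u₂ f : G}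
    (hT2 : ∀ x ∈ (T : Subgroup G), x * x = 1)
    (hTc : ∀ x ∈ (T : Subgroup G), ∀ y ∈ (T : Subgroup G), x * y = y * x)
    (ht : t ∈ (T : Subgroup G)) (ht1 : t ≠ 1) (hu₁ : u₁ ∈ (T : Subgroup G)) (hu₂ : u₂ ∈ (T : Subgroup G))
    (hu₁1 : u₁ ≠ 1) (hu₂1 : u₂ ≠ 1) (hu₁₂ : u₁ ≠ u₂)
    (hfN : f ∈ normalizer ((T : Subgroup G) : Set G))
    (hft : f * t * f⁻¹ = t) (hfu₁ : f * u₁ * f⁻¹ = u₂) (hfu₂ : f * u₂ * f⁻¹ = u₁ * u₂)
    (hmax : IsCoatom (centralizer ({t} : Set G)))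
    (hL : ∀ (ψ : MulAut G) (m : ℕ), ψ ^ (2 ^ m) = 1 → (∀ x ∈ (T : Subgroup G), ψ x = x) →
      ∃ v : G, (v = 1 ∨ v = u₁ ∨ v = u₂ ∨ v = u₁ * u₂) ∧
        ∀ x ∈ centralizer ({t} : Set G), ψ x = v * x * v⁻¹)
    (φ : MulAut G) (k : ℕ) (hφ : φ ^ (2 ^ k) = 1) (hfix : ∀ x ∈ (T : Subgroup G), φ x = x) :
    ∃ g : G, ∀ x : G, φ x = g * x * g⁻¹ := by
  classical
  obtain ⟨w, hw, hwt⟩ := exists_normalizer_move hG T
    (⟨⟨fun a b => Subtype.ext (hTc a a.2 b b.2)⟩⟩) ht ht1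
  have hodd : Odd (T : Subgroup G).index := Nat.not_even_iff_odd.1 fun h => T.not_dvd_index (even_iff_two_dvd.1 h)
  obtain ⟨s, hsT, hs⟩ := exists_fix (T : Subgroup G) hT2 hTc hodd T.2 φ k hφ hfix
  let ψ : MulAut G := MulAut.conj s⁻¹ * φ
  have hψ : ∀ y, ψ y = s⁻¹ * φ y * s := fun y => by
    simp [ψ, MulAut.mul_apply]
  have hψfix : ∀ z ∈ (T : Subgroup G), ψ z = z := by
    intro z hz
    rw [hψ, hfix z hz, mul_assoc, hTc z hz s hsT]
    group
  have hcomm : Commute (MulAut.conj s⁻¹) φ := by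
    ext y
    simp [MulAut.mul_apply, map_mul, map_inv, hfix s hsT]
  have hψpow : ψ ^ (2 ^ (k + 1)) = 1 := by
    rw [show ψ = MulAut.conj s⁻¹ * φ from rfl, hcomm.mul_pow, pow_succ 2 k, mul_comm (2 ^ k) 2,
      pow_mul φ 2, pow_mul (MulAut.conj s⁻¹) 2, ← map_pow, pow_two, ← pow_mul, mul_comm 2 (2 ^ k), pow_mul φ, hφ, one_pow, mul_one]
    have h1 : s⁻¹ * s⁻¹ = 1 := by
      have := hT2 s hsT
      rw [← mul_inv_rev, this, inv_one]
    rw [h1, map_one, one_pow]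
  obtain ⟨v, hv, hvC⟩ := hL ψ (k + 1) hψpow hψfix
  obtain ⟨yf, -, hyf, hyfT⟩ := hs f hfN
  obtain ⟨yw, -, hyw, hywT⟩ := hs w hw
  have hyf' : ψ yf = yf := by rw [hψ, hyf]
  have hyw' : ψ yw = yw := by rw [hψ, hyw]
  have hyfC : yf ∈ centralizer ({t} : Set G) := by
    rw [mem_centralizer_iff]
    intro z hz
    rw [Set.mem_singleton_iff.1 hz]
    have := hyfT t ht
    rw [hft] at this
    calc t * yf = (yf * t * yf⁻¹) * yf := by rw [this]
      _ = yf * t := by group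
  have hv1 : v = 1 := by
    have h1 := hvC yf hyfC
    rw [hyf'] at h1
    -- `v` is fixed by `f`
    have hvT : v ∈ (T : Subgroup G) := by
      rcases hv with rfl | rfl | rfl | rfl
      · exact one_mem _
      · exact hu₁
      · exact hu₂
      · exact mul_mem hu₁ hu₂
    have h2 := hyfT v hvT
    have h3 : yf * v * yf⁻¹ = v := by
      have h4 : yf * v = v * yf := by
        calc yf * v = (v * yf * v⁻¹) * v := by rw [← h1]
          _ = v * yf := by group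
      rw [h4]
      group
    rw [h3] at h2
    have hu2 : u₂ * u₂ = 1 := hT2 _ hu₂
    rcases hv with rfl | rfl | rfl | rfl
    · rfl
    · exfalso
      rw [hfu₁] at h2
      exact hu₁₂ h2
    · exfalso
      rw [hfu₂] at h2
      exact hu₁1 (mul_eq_right.1 h2.symm)
    · exfalso
      have e : f * (u₁ * u₂) * f⁻¹ = (f * u₁ * f⁻¹) * (f * u₂ * f⁻¹) := by group
      rw [e, hfu₁, hfu₂, ← mul_assoc, hTc _ hu₂ _ hu₁, mul_assoc, hu2, mul_one] at h2
      exact hu₂1 (mul_eq_left.1 h2)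
  subst hv1
  have hψC : ∀ x ∈ centralizer ({t} : Set G), ψ x = x := fun x hx => by
    rw [hvC x hx]
    group
  -- the fixed points
  let Fx : Subgroup G :=
    { carrier := {x | ψ x = x}
      mul_mem' := fun {a b} ha hb => by
        show ψ (a * b) = a * b
        rw [map_mul, show ψ a = a from ha, show ψ b = b from hb]
      one_mem' := map_one ψ
      inv_mem' := fun {a} ha => by
        show ψ a⁻¹ = a⁻¹
        rw [map_inv, show ψ a = a from ha] }
  have hle : centralizer ({t} : Set G) ≤ Fx := fun x hx => hψC x hx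
  have hyw_not : yw ∉ centralizer ({t} : Set G) := by
    intro h
    have h1 := (mem_centralizer_iff.1 h) t rfl
    have h2 := hywT t ht
    apply hwt
    rw [← h2, ← h1]
    group
  have hlt : centralizer ({t} : Set G) < Fx := lt_of_le_of_ne hle (by
    intro e
    exact hyw_not (by rw [e]; exact hyw'))
  have htop : Fx = ⊤ := hmax.2 _ hlt
  have hψ1 : ∀ y, ψ y = y := fun y => by
    have : y ∈ Fx := by rw [htop]; exact mem_top y
    exact this
  refine ⟨s, fun x => ?_⟩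
  have h1 := hψ1 x
  rw [hψ] at h1
  calc φ x = s * (s⁻¹ * φ x * s) * s⁻¹ := by group
    _ = s * x * s⁻¹ := by rw [h1]

/-- The local analysis: an automorphism fixing `T` pointwise acts on the centralizer of `t` as
conjugation by an element of `T ∩ N'`. -/
theorem local_aut (T : Sylow 2 G) {t : G} {N' : Subgroup G} (ht : t ∈ (T : Subgroup G))
    (hTc : ∀ x ∈ (T : Subgroup G), ∀ y ∈ (T : Subgroup G), x * y = y * x)
    (hN'C : ∀ n ∈ N', t * n = n * t)
    (hnorm : ∀ c ∈ centralizer ({t} : Set G), ∀ n ∈ N', c * n * c⁻¹ ∈ N')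
    (hcent : ∀ c ∈ centralizer ({t} : Set G), (∀ n ∈ N', c * n = n * c) → c = 1 ∨ c = t)
    (htt : t * t = 1) [hsimple : IsSimpleGroup N'] (hcard : 2 < Nat.card N')
    (hAut : ∀ (α : MulAut N') (m : ℕ), α ^ (2 ^ m) = 1 → (∀ v : N', (v : G) ∈ (T : Subgroup G) → α v = v) →
      ∃ v : N', (v : G) ∈ (T : Subgroup G) ∧ α = MulAut.conj v)
    (φ : MulAut G) (k : ℕ) (hφ : φ ^ (2 ^ k) = 1) (hfix : ∀ x ∈ (T : Subgroup G), φ x = x) :
    ∃ v ∈ N', v ∈ (T : Subgroup G) ∧ ∀ x ∈ centralizer ({t} : Set G), φ x = v * x * v⁻¹ := by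
  classical
  have memC : ∀ x : G, x ∈ centralizer ({t} : Set G) ↔ t * x = x * t := by
    intro x
    rw [mem_centralizer_iff]
    simp
  have hTC : ∀ x ∈ (T : Subgroup G), x ∈ centralizer ({t} : Set G) := fun x hx =>
    (memC x).2 (hTc t ht x hx)
  have hN'le : ∀ n ∈ N', n ∈ centralizer ({t} : Set G) := fun n hn => (memC n).2 (hN'C n hn)
  have hφt : φ t = t := hfix t ht
  have hφit : φ⁻¹ t = t := inv_fix hfix t ht
  have hφC : ∀ x ∈ centralizer ({t} : Set G), φ x ∈ centralizer ({t} : Set G) := by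
    intro x hx
    rw [memC] at hx ⊢
    have := congrArg φ hx
    rwa [map_mul, map_mul, hφt] at this
  have hφiC : ∀ x ∈ centralizer ({t} : Set G), φ⁻¹ x ∈ centralizer ({t} : Set G) := by
    intro x hx
    rw [memC] at hx ⊢
    have := congrArg (fun y => (φ⁻¹ : MulAut G) y) hx
    simp only [map_mul, hφit] at this
    exact this
  -- `N'` is invariant
  let N₂ : Subgroup G := N'.map φ.toMonoidHom
  have hN₂C : ∀ x ∈ N₂, x ∈ centralizer ({t} : Set G) := by
    rintro _ ⟨n, hn, rfl⟩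
    exact hφC n (hN'le n hn)
  have hN₂norm : ∀ c ∈ centralizer ({t} : Set G), ∀ n₂ ∈ N₂, c * n₂ * c⁻¹ ∈ N₂ := by
    rintro c hc _ ⟨n, hn, rfl⟩
    refine ⟨φ⁻¹ c * n * (φ⁻¹ c)⁻¹, hnorm _ (hφiC c hc) n hn, ?_⟩
    show φ (φ⁻¹ c * n * (φ⁻¹ c)⁻¹) = c * φ n * c⁻¹
    rw [map_mul, map_mul, map_inv, MulAut.apply_inv_self]
  have hN₂eq : N₂ = N' := by
    haveI hnormal : (N₂.subgroupOf N').Normal :=
      ⟨fun h hh g => by
        rw [Subgroup.mem_subgroupOf] at hh ⊢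
        exact hN₂norm _ (hN'le _ g.2) _ hh⟩
    have hcardN₂ : Nat.card N₂ = Nat.card N' := Subgroup.card_map_of_injective φ.injective
    rcases hsimple.eq_bot_or_eq_top_of_normal _ hnormal with h | h
    · exfalso
      rw [Subgroup.subgroupOf_eq_bot] at h
      have hall : ∀ x ∈ N₂, x = 1 ∨ x = t := by
        intro x hx
        apply hcent x (hN₂C x hx)
        intro n hn
        have h1 : x * n * x⁻¹ * n⁻¹ ∈ N' :=
          mul_mem (hnorm x (hN₂C x hx) n hn) (inv_mem hn)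
        have h2 : x * n * x⁻¹ * n⁻¹ ∈ N₂ := by
          have h3 : n * x⁻¹ * n⁻¹ ∈ N₂ := hN₂norm n (hN'le n hn) _ (inv_mem hx)
          have h4 : x * n * x⁻¹ * n⁻¹ = x * (n * x⁻¹ * n⁻¹) := by group
          rw [h4]
          exact mul_mem hx h3
        have h5 := Subgroup.disjoint_def.1 h h2 h1
        calc x * n = (x * n * x⁻¹ * n⁻¹) * (n * x) := by group
          _ = n * x := by rw [h5, one_mul]
      have hsub : (N₂ : Set G) ⊆ {1, t} := fun x hx => by
        rcases hall x hx with h1 | h1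
        · exact Or.inl h1
        · exact Or.inr h1
      have hle : Set.ncard (N₂ : Set G) ≤ Set.ncard ({1, t} : Set G) :=
        Set.ncard_le_ncard hsub (Set.toFinite _)
      have hpair : Set.ncard ({1, t} : Set G) ≤ 2 := by
        have := Set.ncard_insert_le (1 : G) ({t} : Set G)
        rwa [Set.ncard_singleton] at this
      have h3 : Nat.card N₂ = Set.ncard (N₂ : Set G) := Nat.card_coe_set_eq _
      omega
    · have hle : N' ≤ N₂ := by
        rw [Subgroup.subgroupOf_eq_top] at h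
        exact h
      exact (Subgroup.eq_of_le_of_card_ge hle hcardN₂.le).symm
  have hφN : ∀ n ∈ N', φ n ∈ N' := fun n hn => by
    rw [← hN₂eq]
    exact ⟨n, hn, rfl⟩
  have hφiN : ∀ n ∈ N', φ⁻¹ n ∈ N' := fun n hn => by
    rw [← hN₂eq] at hn
    obtain ⟨n₀, hn₀, rfl⟩ := hn
    show φ⁻¹ (φ n₀) ∈ N'
    rw [MulAut.inv_apply_self]
    exact hn₀
  let α : MulAut N' :=
    { toFun := fun n => ⟨φ (n : G), hφN n n.2⟩
      invFun := fun n => ⟨φ⁻¹ (n : G), hφiN n n.2⟩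
      left_inv := fun n => Subtype.ext (MulAut.inv_apply_self G φ (n : G))
      right_inv := fun n => Subtype.ext (MulAut.apply_inv_self G φ (n : G))
      map_mul' := fun a b => Subtype.ext (map_mul φ (a : G) (b : G)) }
  have hαapp : ∀ n : N', ((α n : N') : G) = φ n := fun _ => rfl
  have hαpow : ∀ (m : ℕ) (n : N'), (((α ^ m) n : N') : G) = (φ ^ m) n := by
    intro m
    induction m with
    | zero => intro n; rfl
    | succ m ih =>
      intro n
      rw [pow_succ', pow_succ', MulAut.mul_apply, MulAut.mul_apply, hαapp, ih]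
  have hα1 : α ^ (2 ^ k) = 1 := by
    ext n
    rw [hαpow, hφ]
    rfl
  obtain ⟨v, hvT, hv⟩ := hAut α k hα1 (fun n hn => Subtype.ext (hfix _ hn))
  have hφn : ∀ n ∈ N', φ n = v * n * (v : G)⁻¹ := by
    intro n hn
    have h1 : α ⟨n, hn⟩ = MulAut.conj v ⟨n, hn⟩ := by rw [hv]
    have h2 := congrArg Subtype.val h1
    exact h2
  let φ₁ : MulAut G := MulAut.conj (v : G)⁻¹ * φ
  have hφ₁ : ∀ y, φ₁ y = (v : G)⁻¹ * φ y * v := fun y => by
    simp [φ₁, MulAut.mul_apply]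
  have hφ₁N : ∀ n ∈ N', φ₁ n = n := by
    intro n hn
    rw [hφ₁, hφn n hn]
    group
  have hφ₁T : ∀ x ∈ (T : Subgroup G), φ₁ x = x := by
    intro x hx
    rw [hφ₁, hfix x hx, mul_assoc, hTc x hx v hvT]
    group
  have hvC : (v : G) ∈ centralizer ({t} : Set G) := hN'le _ v.2
  have hφ₁C : ∀ x ∈ centralizer ({t} : Set G), φ₁ x ∈ centralizer ({t} : Set G) := by
    intro x hx
    rw [hφ₁]
    exact mul_mem (mul_mem (inv_mem hvC) (hφC x hx)) hvC
  have hd : ∀ x ∈ centralizer ({t} : Set G), φ₁ x = x ∨ φ₁ x = x * t := by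
    intro x hx
    have h1 : x⁻¹ * φ₁ x ∈ centralizer ({t} : Set G) := mul_mem (inv_mem hx) (hφ₁C x hx)
    have h2 : ∀ n ∈ N', (x⁻¹ * φ₁ x) * n = n * (x⁻¹ * φ₁ x) := by
      intro n hn
      have h3 := hφ₁N _ (hnorm x hx n hn)
      rw [map_mul, map_mul, map_inv, hφ₁N n hn] at h3
      calc (x⁻¹ * φ₁ x) * n = x⁻¹ * (φ₁ x * n * (φ₁ x)⁻¹) * φ₁ x := by group
        _ = x⁻¹ * (x * n * x⁻¹) * φ₁ x := by rw [h3]
        _ = n * (x⁻¹ * φ₁ x) := by group
    rcases hcent _ h1 h2 with h3 | h3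
    · left
      exact (inv_mul_eq_one.1 h3).symm
    · right
      rw [← h3]
      group
  let Fx : Subgroup G :=
    { carrier := {x | φ₁ x = x}
      mul_mem' := fun {a b} ha hb => by
        show φ₁ (a * b) = a * b
        rw [map_mul, show φ₁ a = a from ha, show φ₁ b = b from hb]
      one_mem' := map_one φ₁
      inv_mem' := fun {a} ha => by
        show φ₁ a⁻¹ = a⁻¹
        rw [map_inv, show φ₁ a = a from ha] }
  have htcen : ∀ x ∈ centralizer ({t} : Set G), t * x = x * t := fun x hx => (memC x).1 hx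
  have hφ₁t : φ₁ t = t := hφ₁T t ht
  have hrel : Fx.relIndex (centralizer ({t} : Set G)) ∣ 2 := by
    rw [Subgroup.relIndex_dvd_two_iff]
    by_cases hall : ∀ x ∈ centralizer ({t} : Set G), φ₁ x = x
    · exact ⟨1, one_mem _, fun b hb => Or.inr (hall b hb)⟩
    · push Not at hall
      obtain ⟨a, ha, ha1⟩ := hall
      have ha2 := (hd a ha).resolve_left ha1
      refine ⟨a, ha, fun b hb => ?_⟩
      rcases hd b hb with h1 | h1
      · exact Or.inr h1
      · left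
        show φ₁ (b * a) = b * a
        rw [map_mul, h1, ha2]
        calc b * t * (a * t) = b * (t * a) * t := by group
          _ = b * (a * t) * t := by rw [htcen a ha]
          _ = b * a * (t * t) := by group
          _ = b * a := by rw [htt, mul_one]
  have hTFx : (T : Subgroup G) ≤ Fx := fun x hx => hφ₁T x hx
  have hTCle : (T : Subgroup G) ≤ centralizer ({t} : Set G) := fun x hx => hTC x hx
  have h1 : Fx.relIndex (centralizer ({t} : Set G)) ∣ (T : Subgroup G).index :=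
    (Subgroup.relIndex_dvd_of_le_left _ hTFx).trans (Subgroup.relIndex_dvd_index_of_le hTCle)
  have h2 : Fx.relIndex (centralizer ({t} : Set G)) = 1 := by
    rcases (Nat.dvd_prime Nat.prime_two).1 hrel with h3 | h3
    · exact h3
    · exfalso
      rw [h3] at h1
      exact T.not_dvd_index h1
  have h3 : centralizer ({t} : Set G) ≤ Fx := Subgroup.relIndex_eq_one.1 h2
  refine ⟨v, v.2, hvT, fun x hx => ?_⟩
  have h4 : φ₁ x = x := h3 hx
  rw [hφ₁] at h4
  calc φ x = v * ((v : G)⁻¹ * φ x * v) * (v : G)⁻¹ := by group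
    _ = v * x * (v : G)⁻¹ := by rw [h4]

/-- The size of `K : H ∩ K` divides the index of `H`, for `K` normal. -/
lemma relIndex_dvd_index_of_normal' {X : Type*} [Group X] [Finite X] (H K : Subgroup X) [K.Normal] :
    H.relIndex K ∣ H.index := by
  have card_rel : ∀ A B : Subgroup X, A ≤ B → A.relIndex B * Nat.card A = Nat.card B := by
    intro A B hAB
    have e1 := relIndex_mul_index hAB
    have e2 := A.index_mul_card
    have e3 := B.index_mul_card
    have hB : 0 < B.index := Nat.pos_of_ne_zero index_ne_zero_of_finite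
    apply Nat.eq_of_mul_eq_mul_left hB
    calc B.index * (A.relIndex B * Nat.card A) = (A.relIndex B * B.index) * Nat.card A := by ring
      _ = B.index * Nat.card B := by rw [e1, e2, e3]
  set M := H ⊔ K with hM
  have h1 : K.relIndex M = K.relIndex H := relIndex_sup_right H K
  have r1 : (H ⊓ K).relIndex K = H.relIndex K := inf_relIndex_right H K
  have r2 : (H ⊓ K).relIndex H = K.relIndex H := inf_relIndex_left H K
  have c1 := card_rel (H ⊓ K) K inf_le_right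
  have c2 := card_rel (H ⊓ K) H inf_le_left
  have c3 := card_rel K M le_sup_right
  have c4 := card_rel H M le_sup_left
  rw [r1] at c1
  rw [r2] at c2
  rw [h1] at c3
  have hpos : 0 < K.relIndex H * Nat.card (H ⊓ K : Subgroup X) := by
    rw [c2]
    exact Nat.card_pos
  have h2 : H.relIndex K = H.relIndex M := by
    apply Nat.eq_of_mul_eq_mul_right hpos
    calc H.relIndex K * (K.relIndex H * Nat.card (H ⊓ K : Subgroup X))
        = K.relIndex H * (H.relIndex K * Nat.card (H ⊓ K : Subgroup X)) := by ring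
      _ = H.relIndex M * (K.relIndex H * Nat.card (H ⊓ K : Subgroup X)) := by
        rw [c1, c3, c2, c4]
  rw [h2]
  exact relIndex_dvd_index_of_le le_sup_left

/-- The version inside a subgroup normalizing `K`. -/
lemma relIndex_dvd_of_normal_in {H K C : Subgroup G} (hK : K ≤ C)
    (hn : ∀ c ∈ C, ∀ n ∈ K, c * n * c⁻¹ ∈ K) : H.relIndex K ∣ H.relIndex C := by
  haveI : (K.subgroupOf C).Normal :=
    ⟨fun n hn' g => by
      rw [Subgroup.mem_subgroupOf] at hn' ⊢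
      exact hn g g.2 n hn'⟩
  have h1 := relIndex_dvd_index_of_normal' (H.subgroupOf C) (K.subgroupOf C)
  rwa [Subgroup.relIndex_subgroupOf hK] at h1

end Main

end Cfsg.Agent.Lib.PSL2.JankoRee
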