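import Cfsg.Agent.Lib.PSL2.MaxOdd2

/-!
# Maximal subgroups of `PSL(2, F)`, `F` of odd order: subfield subgroups and dihedral groups
-/

set_option autoImplicit false
set_option linter.unusedSectionVars false
set_option linter.unusedSimpArgs false
set_option linter.unusedVariables false
set_option linter.style.haveILetI false

namespace Cfsg.Agent.Lib.PSL2.MaxOdd

open Matrix Matrix.SpecialLinearGroup Subgroup
open scoped MatrixGroups Quaternion
open Cfsg.Agent.Lib.PSL2.Basic Cfsg.Agent.Lib.PSL2.Conj Cfsg.Agent.Lib.PSL2.Members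
open Cfsg.Agent.Lib.PSL2.FourGroup Cfsg.Agent.Lib.PSL2.KleinPairs Cfsg.Agent.Lib.PSL2.Icosian
open Cfsg.Agent.Lib.PSL2.A5Gen Cfsg.Agent.Lib.PSL2.FieldEmbed
open Cfsg.Agent.Lib.PSL2.DicksonCor Cfsg.Agent.Lib.PSL2.Overgroups Cfsg.Agent.Lib.PSL2.Position
open Cfsg.Agent.Lib.PSL2.MinimalSimple Cfsg.Agent.Lib.PSL2.DihedralMax Cfsg.Agent.Lib.PSL2.Solubilizer
open Cfsg.Agent.Lib.PSL2.BorelMax Cfsg.Agent.Lib.PSL2.Reduction
open Cfsg.Agent.Lib.PSL2.Order168 (mem_normalizer_of_forall)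

section Pos

variable {F : Type*} [Field F] [Fintype F]

theorem pos_case (p : ℕ) [hpf : Fact p.Prime] [CharP F p] (hodd : Odd (Fintype.card F)) {M : Subgroup PSL(2, F)} (hM : IsCoatom M) (hP : PosCase M) :
    Goal4 M ∨ Goal5 M := by
  obtain ⟨g₁, c₁, hc₁, K, iK, iF, ι, m, hm, hle, h⟩ := hP
  set Φ : MulAut (PSL(2, F)) := frameP g₁ c₁ hc₁ with hΦ
  have hM' := isCoatom_map Φ hM
  have hq2 := card_ge_two K
  have hq2F := card_ge_two F
  have hm0 : m ≠ 0 := by
    rintro rfl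
    rw [pow_zero] at hm
    omega
  have hoddK : Odd (Fintype.card K) := by
    rcases Nat.even_or_odd (Fintype.card K) with h' | h'
    · exfalso
      rw [← hm] at hodd
      exact (Nat.not_odd_iff_even.2 (h'.pow_of_ne_zero hm0)) hodd
    · exact h'
  rcases h with heq | ⟨hr, hc⟩
  · right
    exact goal5_of_eq ι hoddK hm Φ hM' heq
  · left
    have hcc : Nat.card (M.map Φ.toMonoidHom) = Fintype.card K * (Fintype.card K ^ 2 - 1) := by
      rw [← hc]
      exact (Nat.card_congr (Φ.subgroupMap M).toEquiv).symm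
    have hx : ∀ t : K, mkP (x (ι t)) ∈ M.map Φ.toMonoidHom := fun t => hle ⟨mkP (x t), by rw [pslMap_mk, mapι_x]⟩
    have hy : ∀ t : K, mkP (y (ι t)) ∈ M.map Φ.toMonoidHom := fun t => hle ⟨mkP (y t), by rw [pslMap_mk, mapι_y]⟩
    obtain ⟨e⟩ := nonempty_equiv_pgl hx hy hr hcc
    obtain ⟨j, hj⟩ := (subfield_subgroups (K := K) rfl hodd m (by omega) hm).2.1 ⟨_, ⟨e⟩⟩
    by_cases hj1 : j = 1
    · have hm2 : m = 2 := by omega
      subst hm2
      exact ⟨K, iK, iF, hm.symm, ⟨(Φ.subgroupMap M).trans e⟩⟩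
    · exfalso
      have hj2 : 2 ≤ j := by omega
      haveI hcK : CharP K p := (RingHom.charP_iff ι ι.injective p).2 inferInstance
      obtain ⟨e', -, he'⟩ := FiniteField.card K p
      set Q := Fintype.card K with hQ
      have hQ2 : Q ^ 2 = p ^ (2 * (e' : ℕ)) := by
        rw [he', ← pow_mul, mul_comm]
      have hFQ : Fintype.card F = (Q ^ 2) ^ j := by
        rw [← hm, hj, ← pow_mul]
        congr 1
        ring
      have hdvd : p ^ (2 * (e' : ℕ)) - 1 ∣ Fintype.card F - 1 := by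
        rw [← hQ2, hFQ]
        simpa using Nat.sub_dvd_pow_sub_pow (Q ^ 2) 1 j
      obtain ⟨L, hL, hLc⟩ := exists_subfield p (2 * (e' : ℕ)) hdvd
      rw [← hQ2] at hL hLc
      letI : Fintype L := Fintype.ofFinite _
      have hLc' : Fintype.card L = Q ^ 2 := by rw [← Nat.card_eq_fintype_card, hLc]
      have hoK : Q % 2 = 1 := Nat.odd_iff.1 hoddK
      have hchar : ringChar K ≠ 2 := by
        intro hc'
        have := FiniteField.even_card_iff_char_two.1 hc'
        omega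
      obtain ⟨c₀, hc₀⟩ := FiniteField.exists_nonsquare hchar
      have hc₀0 : c₀ ≠ 0 := by
        rintro rfl
        exact hc₀ (IsSquare.zero)
      obtain ⟨r₀, hr0, hrr, hmem⟩ := hr c₀ hc₀0
      obtain ⟨u, hu⟩ : ∃ u, Q = 2 * u + 1 := ⟨Q / 2, by omega⟩
      have hr₀L : r₀ ∈ L := by
        rw [hL]
        have h1 : c₀ ^ (2 * u) = 1 := by
          have := FiniteField.pow_card_sub_one_eq_one c₀ hc₀0
          rwa [← hQ, hu, Nat.add_sub_cancel] at this
        have h3 : Q ^ 2 = 1 + 2 * (2 * u * (u + 1)) := by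
          rw [hu]; ring
        rw [h3, pow_add, pow_one, pow_mul, pow_two, hrr, ← map_pow, pow_mul, h1, one_pow, map_one, mul_one]
      have hmemL : ∀ a : K, ι a ∈ L := by
        intro a
        rw [hL, ← map_pow]
        congr 1
        exact FiniteField.pow_card_pow 2 a
      let j' : K →+* L := ι.codRestrict L hmemL
      have hcomp : L.subtype.comp j' = ι := by
        ext a
        rfl
      have hstd : stdPsl ι ≤ stdPsl L.subtype := by
        have := stdPsl_comp_le j' L.subtype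
        rwa [hcomp] at this
      have hd : mkP (d r₀ hr0) ∈ stdPsl L.subtype := by
        have hr' : (⟨r₀, hr₀L⟩ : L) ≠ 0 := fun e => hr0 (congrArg Subtype.val e)
        refine ⟨mkP (d ⟨r₀, hr₀L⟩ hr'), ?_⟩
        rw [pslMap_mk]
        congr 1
        apply ext2 <;> simp
      have hdn : mkP (d r₀ hr0) ∉ stdPsl ι := by
        rintro ⟨a, ha⟩
        obtain ⟨Y, rfl⟩ := mkP_surjective a
        rw [pslMap_mk, mkP_eq_iff] at ha
        have h00 : r₀ = ι (Y.1 0 0) ∨ r₀ = -ι (Y.1 0 0) := by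
          rcases ha with e1 | e1
          · left
            have := congrArg (fun A : SL(2, F) => A.1 0 0) e1
            simpa using this
          · right
            have := congrArg (fun A : SL(2, F) => A.1 0 0) e1
            have h1 : r₀ = -(mapι ι Y).1 0 0 := by simpa using this
            simpa using h1
        apply hc₀
        refine ⟨Y.1 0 0, ι.injective ?_⟩
        rw [← hrr, map_mul]
        rcases h00 with e1 | e1 <;> rw [e1] <;> ring
      have hS2 : ((stdPsl ι).subgroupOf (M.map Φ.toMonoidHom)).index = 2 := by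
        have h1 : Nat.card ((stdPsl ι).subgroupOf (M.map Φ.toMonoidHom)) = Nat.card (stdPsl ι) :=
          Nat.card_congr (Subgroup.subgroupOfEquivOfLe hle).toEquiv
        have h3 := Subgroup.index_mul_card ((stdPsl ι).subgroupOf (M.map Φ.toMonoidHom))
        rw [h1, card_stdPsl, hcc] at h3
        have h4 := two_mul_card hoddK
        rw [← h4] at h3
        have hpos : 0 < Nat.card PSL(2, K) := Nat.card_pos
        nlinarith
      have hleL : M.map Φ.toMonoidHom ≤ stdPsl L.subtype := by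
        intro z hz
        by_cases hzS : (⟨z, hz⟩ : M.map Φ.toMonoidHom) ∈ (stdPsl ι).subgroupOf (M.map Φ.toMonoidHom)
        · exact hstd hzS
        · have hdS : (⟨mkP (d r₀ hr0), hmem⟩ : M.map Φ.toMonoidHom) ∉ (stdPsl ι).subgroupOf (M.map Φ.toMonoidHom) := hdn
          have h3 := (Subgroup.mul_mem_iff_of_index_two hS2
            (a := (⟨z, hz⟩ : M.map Φ.toMonoidHom)) (b := ⟨mkP (d r₀ hr0), hmem⟩)).2
            ⟨fun h => absurd h hzS, fun h => absurd h hdS⟩
          have h4 : z * mkP (d r₀ hr0) ∈ stdPsl ι := h3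
          have h5 := (stdPsl L.subtype).mul_mem (hstd h4) ((stdPsl L.subtype).inv_mem hd)
          simpa using h5
      have hmL : Fintype.card L ^ j = Fintype.card F := by rw [hLc', hFQ]
      have heq := eq_of_coatom_le hM' hleL (stdPsl_ne_top' L.subtype hj2 hmL)
      have hcL := card_stdPsl L.subtype
      rw [← heq, hcc] at hcL
      have hoddL : Odd (Fintype.card L) := by
        rw [hLc']
        exact hoddK.pow
      have h3 := two_mul_card hoddL
      rw [← hcL, hLc'] at h3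
      exact num_two' (by omega) h3

end Pos

section Dih

variable {F : Type*} [Field F] [Fintype F]

set_option maxRecDepth 100000 in
lemma a5_inverter : ∀ a : alternatingGroup (Fin 5), a ^ 5 = 1 → a ≠ 1 → ∃ d, d * a * d⁻¹ = a⁻¹ := by decide

theorem no_two {G : Type*} [Group G] [Finite G] {M E : Subgroup G} (hM : IsCoatom M) {a u : ℕ} (hMc : Nat.card M = 2 ^ a)
    (hG : Nat.card G = 2 ^ a * u) (hu : ¬ 2 ∣ u) (hE : E ≠ ⊤) (hdvd : 2 ^ a ∣ Nat.card E)
    (hne : Nat.card E ≠ 2 ^ a) : False := by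
  haveI : Fact (Nat.Prime 2) := ⟨Nat.prime_two⟩
  obtain ⟨K, hK⟩ := Sylow.exists_subgroup_card_pow_prime 2 hdvd
  set D : Subgroup G := K.map E.subtype with hD
  have hDE : D ≤ E := by
    rintro _ ⟨x, _, rfl⟩
    exact x.2
  have hDc : Nat.card D = 2 ^ a := by
    rw [← hK]
    exact Nat.card_congr (Subgroup.equivMapOfInjective K _ E.subtype_injective).toEquiv.symm
  have hpM : IsPGroup 2 M := IsPGroup.iff_card.2 ⟨a, hMc⟩
  have hpD : IsPGroup 2 D := IsPGroup.iff_card.2 ⟨a, hDc⟩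
  obtain ⟨S₀, hS₀⟩ := hpM.exists_le_sylow
  obtain ⟨S₁, hS₁⟩ := hpD.exists_le_sylow
  have hcS : ∀ S : Sylow 2 G, Nat.card (S : Subgroup G) = 2 ^ a := fun S =>
    Cfsg.Agent.Lib.SmallCen.SmallOrder.card_sylow_eq hG hu S
  have e0 : M = S₀ := Subgroup.eq_of_le_of_card_ge hS₀ (by rw [hcS, hMc])
  have e1 : D = S₁ := Subgroup.eq_of_le_of_card_ge hS₁ (by rw [hcS, hDc])
  obtain ⟨g, hg⟩ := MulAction.exists_smul_eq G S₁ S₀
  have hM2 : M = D.map (MulAut.conj g).toMonoidHom := by
    rw [e0, e1, ← hg, Sylow.coe_subgroup_smul]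
    rfl
  have hle : M ≤ E.map (MulAut.conj g).toMonoidHom := by
    rw [hM2]
    exact Subgroup.map_mono hDE
  have hEg : E.map (MulAut.conj g).toMonoidHom ≠ ⊤ := by
    intro h
    apply hE
    rw [eq_top_iff]
    intro z _
    have h1 : g * z * g⁻¹ ∈ E.map (MulAut.conj g).toMonoidHom := by
      rw [h]
      trivial
    obtain ⟨w, hw, hwz⟩ := h1
    have : w = z := by
      have h3 : g * w * g⁻¹ = g * z * g⁻¹ := hwz
      simpa using h3
    exact this ▸ hw
  have heq := eq_of_coatom_le hM hle hEg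
  apply hne
  rw [← hMc, heq]
  exact (Cfsg.Agent.Lib.Perm.SylowIn.card_map_conj E g).symm

theorem no_prime {G : Type*} [Group G] [Finite G] {M E C : Subgroup G} (hM : IsCoatom M) {k u : ℕ} [Fact k.Prime]
    (hk2 : k ≠ 2) (hCc : Nat.card C = k) (hCM : C ≤ M) (hMN : M = normalizer (C : Set G))
    (hMc : Nat.card M = 2 * k) (hG : Nat.card G = k * u) (hu : ¬ k ∣ u) (hE : E ≠ ⊤)
    (hkE : k ∣ Nat.card E) (hinv : ∀ x : E, x ^ k = 1 → x ≠ 1 → ∃ d : E, d * x * d⁻¹ = x⁻¹)
    (hne : Nat.card E ≠ 2 * k) : False := by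
  have hp : k.Prime := Fact.out
  obtain ⟨x₀, hx₀⟩ := exists_prime_orderOf_dvd_card' (G := E) k hkE
  have hx₀1 : x₀ ≠ 1 := by
    rintro rfl
    rw [orderOf_one] at hx₀
    exact hp.one_lt.ne hx₀
  have hx₀k : x₀ ^ k = 1 := by
    rw [← hx₀]
    exact pow_orderOf_eq_one x₀
  obtain ⟨d₀, hd₀⟩ := hinv x₀ hx₀k hx₀1
  have hGk : Nat.card G = k ^ 1 * u := by rw [pow_one, hG]
  have hcS : ∀ S : Sylow k G, Nat.card (S : Subgroup G) = k := fun S => by
    have := Cfsg.Agent.Lib.SmallCen.SmallOrder.card_sylow_eq hGk hu S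
    rwa [pow_one] at this
  have hord : orderOf (x₀ : G) = k := by rw [Subgroup.orderOf_coe]; exact hx₀
  have hcP : Nat.card (zpowers (x₀ : G)) = k := by rw [Nat.card_zpowers, hord]
  have hpP : IsPGroup k (zpowers (x₀ : G)) := IsPGroup.iff_card.2 ⟨1, by rw [hcP, pow_one]⟩
  have hpC : IsPGroup k C := IsPGroup.iff_card.2 ⟨1, by rw [hCc, pow_one]⟩
  obtain ⟨S₀, hS₀⟩ := hpP.exists_le_sylow
  obtain ⟨S₁, hS₁⟩ := hpC.exists_le_sylow
  have e0 : zpowers (x₀ : G) = S₀ := Subgroup.eq_of_le_of_card_ge hS₀ (by rw [hcS, hcP])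
  have e1 : C = S₁ := Subgroup.eq_of_le_of_card_ge hS₁ (by rw [hcS, hCc])
  obtain ⟨g, hg⟩ := MulAction.exists_smul_eq G S₀ S₁
  have hC2 : C = (zpowers (x₀ : G)).map (MulAut.conj g).toMonoidHom := by
    rw [e0, e1, ← hg, Sylow.coe_subgroup_smul]
    rfl
  set x : G := g * x₀ * g⁻¹ with hx
  set E' : Subgroup G := E.map (MulAut.conj g).toMonoidHom with hE'
  have hCx : C = zpowers x := by
    rw [hC2, MonoidHom.map_zpowers]
    rfl
  have hxE' : x ∈ E' := ⟨x₀, x₀.2, rfl⟩
  set d' : G := g * d₀ * g⁻¹ with hd'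
  have hd'E : d' ∈ E' := ⟨d₀, d₀.2, rfl⟩
  have hd'x : d' * x * d'⁻¹ = x⁻¹ := by
    have h1 : (d₀ : G) * x₀ * (d₀ : G)⁻¹ = (x₀ : G)⁻¹ := congrArg Subtype.val hd₀
    have h3 : d' * x * d'⁻¹ = g * ((d₀ : G) * x₀ * (d₀ : G)⁻¹) * g⁻¹ := by
      rw [hd', hx]
      group
    rw [h3, h1, hx]
    group
  have hd'N : d' ∈ normalizer (C : Set G) := by
    rw [hCx]
    apply mem_normalizer_of_forall
    rintro _ ⟨n, rfl⟩
    refine ⟨-n, ?_⟩
    show x ^ (-n) = d' * x ^ n * d'⁻¹
    rw [← conj_zpow, hd'x, _root_.inv_zpow, _root_.zpow_neg]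
  rw [← hMN] at hd'N
  have hxord : orderOf x = k := by
    rw [hx, ← MulAut.conj_apply, MulEquiv.orderOf_eq, hord]
  set T : Subgroup G := M ⊓ E' with hT
  have hCT : C ≤ T := by
    rw [hT]
    refine le_inf hCM ?_
    rw [hCx]
    exact Subgroup.zpowers_le.2 hxE'
  have hdvd1 : Nat.card T ∣ 2 * k := by
    rw [← hMc]
    exact Subgroup.card_dvd_of_le inf_le_left
  have hdvd2 : k ∣ Nat.card T := by
    rw [← hCc]
    exact Subgroup.card_dvd_of_le hCT
  obtain ⟨c, hc⟩ := hdvd2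
  have hc2 : c ∣ 2 := by
    rw [hc, mul_comm] at hdvd1
    exact Nat.dvd_of_mul_dvd_mul_right hp.pos hdvd1
  have hc12 : c = 1 ∨ c = 2 := (Nat.dvd_prime Nat.prime_two).1 hc2
  rcases hc12 with rfl | rfl
  · exfalso
    rw [mul_one] at hc
    have he : C = T := Subgroup.eq_of_le_of_card_ge hCT (by rw [hc, hCc])
    have hdT : d' ∈ T := ⟨hd'N, hd'E⟩
    rw [← he, hCx] at hdT
    have hcomm : Commute d' x := by
      obtain ⟨n, hn⟩ := hdT
      rw [← hn]
      exact (Commute.refl x).zpow_left n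
    have h3 : d' * x * d'⁻¹ = x := by
      rw [hcomm.eq]; group
    rw [h3] at hd'x
    have h4 : x ^ 2 = 1 := by
      rw [pow_two]
      nth_rewrite 1 [hd'x]
      simp
    have h5 := orderOf_dvd_of_pow_eq_one h4
    rw [hxord] at h5
    exact hk2 ((Nat.prime_dvd_prime_iff_eq hp Nat.prime_two).1 h5)
  · have hTM : T = M := Subgroup.eq_of_le_of_card_ge inf_le_left (by rw [hc, hMc, mul_comm])
    have hME : M ≤ E' := by
      rw [← hTM]
      exact inf_le_right
    have hEg : E' ≠ ⊤ := by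
      intro h
      apply hE
      rw [eq_top_iff]
      intro z _
      have h1 : g * z * g⁻¹ ∈ E' := by
        rw [h]
        trivial
      obtain ⟨w, hw, hwz⟩ := h1
      have : w = z := by
        have h3 : g * w * g⁻¹ = g * z * g⁻¹ := hwz
        simpa using h3
      exact this ▸ hw
    have heq := eq_of_coatom_le hM hME hEg
    apply hne
    rw [← hMc, heq]
    exact (Cfsg.Agent.Lib.Perm.SylowIn.card_map_conj E g).symm

lemma exists_half_root (h2 : (2 : F) ≠ 0) (h : Fintype.card F % 8 ≠ 3 ∧ Fintype.card F % 8 ≠ 5) :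
    ∃ r : F, 2 * (r * r) = 1 := by
  obtain ⟨r₁, hr₁⟩ := (FiniteField.isSquare_two_iff (F := F)).2 h
  refine ⟨(2 : F)⁻¹ * r₁, ?_⟩
  have he : 2 * (2 : F)⁻¹ = 1 := mul_inv_cancel₀ h2
  calc 2 * (((2 : F)⁻¹ * r₁) * ((2 : F)⁻¹ * r₁)) = (2 * (2 : F)⁻¹) * (2 : F)⁻¹ * (r₁ * r₁) := by ring
    _ = (2 * (2 : F)⁻¹) * (2 : F)⁻¹ * 2 := by rw [hr₁]
    _ = (2 * (2 : F)⁻¹) * (2 * (2 : F)⁻¹) := by ring
    _ = 1 := by rw [he]; ring

theorem exists_S4_card (h2 : (2 : F) ≠ 0) (h : Fintype.card F % 8 ≠ 3 ∧ Fintype.card F % 8 ≠ 5) :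
    ∃ E : Subgroup PSL(2, F), Nonempty (E ≃* Equiv.Perm (Fin 4)) := by
  obtain ⟨r, hr⟩ := exists_half_root h2 h
  exact exists_S4_odd h2 hr

theorem exists_A5_card (h2 : (2 : F) ≠ 0) (hodd : Fintype.card F % 2 = 1)
    (h : 5 ∣ Fintype.card F * (Fintype.card F ^ 2 - 1)) :
    ∃ E : Subgroup PSL(2, F), Nonempty (E ≃* alternatingGroup (Fin 5)) := by
  obtain ⟨φ, hφ⟩ := exists_phi h2 (Cfsg.Agent.S0804.isSquare_five hodd h)
  exact exists_A5_odd h2 hφ

lemma card_s4 {E : Type*} [Group E] (e : E ≃* Equiv.Perm (Fin 4)) : Nat.card E = 24 := by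
  rw [Nat.card_congr e.toEquiv, Nat.card_eq_fintype_card, Fintype.card_perm]
  decide

lemma card_a5 {E : Type*} [Group E] (e : E ≃* alternatingGroup (Fin 5)) : Nat.card E = 60 := by
  rw [Nat.card_congr e.toEquiv, Nat.card_eq_fintype_card]
  rfl

lemma card_a4 {E : Type*} [Group E] (e : E ≃* alternatingGroup (Fin 4)) : Nat.card E = 12 := by
  rw [Nat.card_congr e.toEquiv, Nat.card_eq_fintype_card]
  rfl

lemma ne_top_of_card {G : Type*} [Group G] [Finite G] {E : Subgroup G} (h : Nat.card E ≠ Nat.card G) : E ≠ ⊤ := by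
  rintro rfl
  exact h Subgroup.card_top

theorem hinv_s4 {E : Type*} [Group E] (e : E ≃* Equiv.Perm (Fin 4)) (x : E) (h3 : x ^ 3 = 1) (h1 : x ≠ 1) :
    ∃ d : E, d * x * d⁻¹ = x⁻¹ := by
  obtain ⟨d₀, hd₀⟩ := Cfsg.Agent.Lib.PSL2.Order168.exists_inverter_s4 (e x)
    (by rw [← map_pow, h3, map_one]) (fun h => h1 (e.injective (by rw [h, map_one])))
  refine ⟨e.symm d₀, e.injective ?_⟩
  simp only [map_mul, map_inv, MulEquiv.apply_symm_apply]
  exact hd₀

theorem hinv_a5 {E : Type*} [Group E] (e : E ≃* alternatingGroup (Fin 5)) (x : E) (h3 : x ^ 5 = 1) (h1 : x ≠ 1) :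
    ∃ d : E, d * x * d⁻¹ = x⁻¹ := by
  obtain ⟨d₀, hd₀⟩ := a5_inverter (e x)
    (by rw [← map_pow, h3, map_one]) (fun h => h1 (e.injective (by rw [h, map_one])))
  refine ⟨e.symm d₀, e.injective ?_⟩
  simp only [map_mul, map_inv, MulEquiv.apply_symm_apply]
  exact hd₀

theorem exc_dih (p : ℕ) [hpf : Fact p.Prime] [CharP F p] (hodd : Odd (Fintype.card F)) (h5 : 5 ≤ Fintype.card F)
    {M : Subgroup PSL(2, F)} (hM : IsCoatom M) {A : SL(2, F)} (hA : NC A) (hd : disc A ≠ 0) (hAM : mkP A ∈ M)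
    (hidx : (member M A).index = 2) :
    (13 ≤ Fintype.card F ∧ (∃ k : ℕ, 2 * k = Fintype.card F - 1 ∧ Nonempty (M ≃* DihedralGroup k))) ∨
    (Fintype.card F ≠ 7 ∧ Fintype.card F ≠ 9 ∧ (∃ k : ℕ, 2 * k = Fintype.card F + 1 ∧ Nonempty (M ≃* DihedralGroup k))) := by
  have h2F : (2 : F) ≠ 0 := Cfsg.Agent.Lib.PSL2.TorusCore.two_ne_zero_of_odd_card hodd
  have hodd' : Fintype.card F % 2 = 1 := Nat.odd_iff.1 hodd
  obtain ⟨w, hw⟩ := exists_inverter hA hd
  have hle := le_Nz_of_index_two hA hd hAM hidx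
  have hgcd : Nat.gcd 2 (Fintype.card F - 1) = 2 := gcd_two_odd hodd'
  have hcb := (MemberCyc.cbar_cyclic hA hd).2
  rw [hgcd] at hcb
  have hcard := two_mul_card hodd
  have hcbpos : 0 < Nat.card (cbar A) := Nat.card_pos
  have hbig : 5 * (5 ^ 2 - 1) ≤ Fintype.card F * (Fintype.card F ^ 2 - 1) := by
    apply Nat.mul_le_mul h5
    exact Nat.sub_le_sub_right (Nat.pow_le_pow_left h5 2) 1
  have hbig2 : Fintype.card F + 1 < Fintype.card F * (Fintype.card F ^ 2 - 1) := by
    have h3 : 4 ≤ Fintype.card F ^ 2 - 1 := by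
      have : 5 ^ 2 ≤ Fintype.card F ^ 2 := Nat.pow_le_pow_left h5 2
      omega
    nlinarith
  have hNtop : Nz A ≠ ⊤ := by
    apply normalizer_ne_top_of_card' h5
    · intro h1
      have h3 : cbar A = ⊥ := (Subgroup.eq_bot_of_card_eq (cbar A) h1)
      have h4 : mkP A ∈ cbar A := mkP_mem_cbar.2 rfl
      rw [h3, Subgroup.mem_bot] at h4
      exact mkP_ne_one hA h4
    · apply ne_top_of_card
      intro h1
      rw [h1] at hcb
      rcases hcb with h3 | h3 <;> omega
  have hMN : M = Nz A := eq_of_coatom_le hM hle hNtop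
  have hcM : Nat.card M = 2 * Nat.card (cbar A) := by
    rw [hMN]
    exact card_Nz p hA hd hw
  obtain ⟨e⟩ := nonempty_equiv p hA hd hw
  rw [← hMN] at e
  have hCM : cbar A ≤ M := by
    rw [hMN]
    exact cbar_le_Nz A
  by_cases hplus : Nat.card (cbar A) = (Fintype.card F + 1) / 2
  · right
    have h2k : 2 * Nat.card (cbar A) = Fintype.card F + 1 := by omega
    by_cases h7 : Fintype.card F = 7
    · exfalso
      rw [h7] at h2k hcard
      have hc8 : Nat.card M = 8 := by omega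
      have hG : Nat.card PSL(2, F) = 168 := by omega
      obtain ⟨E, ⟨eE⟩⟩ := exists_S4_card h2F (by rw [h7]; norm_num)
      have hE := card_s4 eE
      exact no_two (a := 3) (u := 21) hM (by rw [hc8]; norm_num) (by rw [hG]; norm_num) (by norm_num)
        (ne_top_of_card (by rw [hE, hG]; norm_num)) (by rw [hE]; norm_num) (by rw [hE]; norm_num)
    by_cases h9 : Fintype.card F = 9
    · exfalso
      rw [h9] at h2k hcard
      have hc5 : Nat.card (cbar A) = 5 := by omega
      have hG : Nat.card PSL(2, F) = 360 := by omega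
      obtain ⟨E, ⟨eE⟩⟩ := exists_A5_card h2F hodd' (by rw [h9]; norm_num)
      have hE := card_a5 eE
      haveI : Fact (Nat.Prime 5) := ⟨by norm_num⟩
      exact no_prime (k := 5) (u := 72) hM (by norm_num) hc5 hCM hMN (by rw [hcM, hc5]) (by rw [hG])
        (by norm_num) (ne_top_of_card (by rw [hE, hG]; norm_num)) (by rw [hE]; norm_num)
        (hinv_a5 eE) (by rw [hE]; norm_num)
    exact ⟨h7, h9, _, h2k, ⟨e⟩⟩
  · have hminus : Nat.card (cbar A) = (Fintype.card F - 1) / 2 := by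
      rcases hcb with h3 | h3
      · exact absurd h3 hplus
      · exact h3
    have h2k : 2 * Nat.card (cbar A) = Fintype.card F - 1 := by omega
    left
    by_cases h13 : 13 ≤ Fintype.card F
    · exact ⟨h13, _, h2k, ⟨e⟩⟩
    · exfalso
      have hcases : Fintype.card F = 5 ∨ Fintype.card F = 7 ∨ Fintype.card F = 9 ∨ Fintype.card F = 11 := by omega
      rcases hcases with hq | hq | hq | hq
      · rw [hq] at h2k hcard
        have hc4 : Nat.card M = 4 := by omega
        have hG : Nat.card PSL(2, F) = 60 := by omega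
        obtain ⟨E, ⟨eE⟩⟩ := exists_A4_odd h2F
        have hE := card_a4 eE
        exact no_two (a := 2) (u := 15) hM (by rw [hc4]; norm_num) (by rw [hG]; norm_num) (by norm_num)
          (ne_top_of_card (by rw [hE, hG]; norm_num)) (by rw [hE]; norm_num) (by rw [hE]; norm_num)
      · rw [hq] at h2k hcard
        have hc3 : Nat.card (cbar A) = 3 := by omega
        have hG : Nat.card PSL(2, F) = 168 := by omega
        obtain ⟨E, ⟨eE⟩⟩ := exists_S4_card h2F (by rw [hq]; norm_num)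
        have hE := card_s4 eE
        haveI : Fact (Nat.Prime 3) := ⟨by norm_num⟩
        exact no_prime (k := 3) (u := 56) hM (by norm_num) hc3 hCM hMN (by rw [hcM, hc3]) (by rw [hG])
          (by norm_num) (ne_top_of_card (by rw [hE, hG]; norm_num)) (by rw [hE]; norm_num)
          (hinv_s4 eE) (by rw [hE]; norm_num)
      · rw [hq] at h2k hcard
        have hc8 : Nat.card M = 8 := by omega
        have hG : Nat.card PSL(2, F) = 360 := by omega
        obtain ⟨E, ⟨eE⟩⟩ := exists_S4_card h2F (by rw [hq]; norm_num)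
        have hE := card_s4 eE
        exact no_two (a := 3) (u := 45) hM (by rw [hc8]; norm_num) (by rw [hG]; norm_num) (by norm_num)
          (ne_top_of_card (by rw [hE, hG]; norm_num)) (by rw [hE]; norm_num) (by rw [hE]; norm_num)
      · rw [hq] at h2k hcard
        have hc5 : Nat.card (cbar A) = 5 := by omega
        have hG : Nat.card PSL(2, F) = 660 := by omega
        obtain ⟨E, ⟨eE⟩⟩ := exists_A5_card h2F hodd' (by rw [hq]; norm_num)
        have hE := card_a5 eE
        haveI : Fact (Nat.Prime 5) := ⟨by norm_num⟩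
        exact no_prime (k := 5) (u := 132) hM (by norm_num) hc5 hCM hMN (by rw [hcM, hc5]) (by rw [hG])
          (by norm_num) (ne_top_of_card (by rw [hE, hG]; norm_num)) (by rw [hE]; norm_num)
          (hinv_a5 eE) (by rw [hE]; norm_num)

end Dih

/-- **Maximal subgroups of `PSL(2, F)`, `F` of odd order.** -/
theorem coatom_cases_odd {F : Type*} [Field F] [Fintype F] (p : ℕ) [hpf : Fact p.Prime] [CharP F p]
    (hodd : Odd (Fintype.card F)) (h5 : 5 ≤ Fintype.card F) (M : Subgroup PSL(2, F)) (hM : IsCoatom M) :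
    2 * Nat.card M = Fintype.card F * (Fintype.card F - 1) ∨
    (13 ≤ Fintype.card F ∧ (∃ k : ℕ, 2 * k = Fintype.card F - 1 ∧ Nonempty (M ≃* DihedralGroup k))) ∨
    (Fintype.card F ≠ 7 ∧ Fintype.card F ≠ 9 ∧ (∃ k : ℕ, 2 * k = Fintype.card F + 1 ∧ Nonempty (M ≃* DihedralGroup k))) ∨
    Goal4 M ∨ Goal5 M ∨
    ((Fintype.card F % 10 = 1 ∨ Fintype.card F % 10 = 9) ∧
        (Fintype.card F = p ∨ (Fintype.card F = p ^ 2 ∧ (p % 10 = 3 ∨ p % 10 = 7))) ∧
        Nonempty (M ≃* alternatingGroup (Fin 5))) ∨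
    (Fintype.card F = p ∧ (p % 8 = 3 ∨ p % 8 = 5) ∧ ¬ (p % 10 = 1 ∨ p % 10 = 9) ∧
        Nonempty (M ≃* alternatingGroup (Fin 4))) ∨
    (Fintype.card F = p ∧ (p % 8 = 1 ∨ p % 8 = 7) ∧ Nonempty (M ≃* Equiv.Perm (Fin 4))) := by
  have hbor : ∀ g : SL(2, F), borelP g ≠ ⊤ := by
    intro g h
    have h1 := index_borelP g
    rw [h, Subgroup.index_top] at h1
    omega
  have hdd := dd_of_odd hodd
  have hborel : ∀ g : SL(2, F), M = borelP g → 2 * Nat.card M = Fintype.card F * (Fintype.card F - 1) := by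
    intro g h
    have h1 := card_borelP g
    rw [hdd, ← h] at h1
    rw [mul_comm 2, h1, mul_comm]
  rcases dickson_frame_pos p M with h | ⟨A, hA, hd, hle⟩ | ⟨A, hA, hd, hAM, hidx⟩ | ⟨g, hg⟩ | ⟨⟨e⟩⟩ | ⟨⟨e⟩⟩ | ⟨⟨e⟩⟩ | h
  · exfalso
    have h1 : M = ⊥ := Subgroup.eq_bot_of_card_eq M h
    have h3 : M = borelP 1 := eq_of_coatom_le hM (by rw [h1]; exact bot_le) (hbor 1)
    have h4 := hborel 1 h3
    rw [h, mul_one] at h4
    have h6 : 5 * 4 ≤ Fintype.card F * (Fintype.card F - 1) :=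
      Nat.mul_le_mul h5 (by omega)
    omega
  · exfalso
    obtain ⟨w, hw⟩ := exists_inverter hA hd
    have hNtop : Nz A ≠ ⊤ := by
      have hcb := (MemberCyc.cbar_cyclic hA hd).2
      rw [gcd_two_odd (Nat.odd_iff.1 hodd)] at hcb
      have hcard := two_mul_card hodd
      have hbig2 : Fintype.card F + 1 < Fintype.card F * (Fintype.card F ^ 2 - 1) := by
        have h3 : 4 ≤ Fintype.card F ^ 2 - 1 := by
          have : 5 ^ 2 ≤ Fintype.card F ^ 2 := Nat.pow_le_pow_left h5 2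
          omega
        nlinarith
      apply normalizer_ne_top_of_card' h5
      · intro h1
        have h3 : cbar A = ⊥ := (Subgroup.eq_bot_of_card_eq (cbar A) h1)
        have h4 : mkP A ∈ cbar A := mkP_mem_cbar.2 rfl
        rw [h3, Subgroup.mem_bot] at h4
        exact mkP_ne_one hA h4
      · apply ne_top_of_card
        intro h1
        rw [h1] at hcb
        rcases hcb with h3 | h3 <;> omega
    have h1 := eq_of_coatom_le hM (hle.trans (cbar_le_Nz A)) hNtop
    have h2 : mkP w ∈ M := by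
      rw [h1]
      exact mkP_mem_Nz hw
    have h3 := hle h2
    rw [mkP_mem_cbar] at h3
    exact not_commute_of_inverts hA hd hw h3
  · rcases exc_dih p hodd h5 hM hA hd hAM hidx with h | h
    · exact Or.inr (Or.inl h)
    · exact Or.inr (Or.inr (Or.inl h))
  · exact Or.inl (hborel g (eq_of_coatom_le hM (le_borelP hg) (hbor g)))
  · rcases exc_A4 p hodd h5 hM e with h | h
    · exact Or.inr (Or.inr (Or.inr (Or.inr (Or.inl h))))
    · exact Or.inr (Or.inr (Or.inr (Or.inr (Or.inr (Or.inr (Or.inl h))))))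
  · rcases exc_S4 p hodd h5 hM e with h | h | h
    · exact Or.inr (Or.inr (Or.inr (Or.inl h)))
    · exact Or.inr (Or.inr (Or.inr (Or.inr (Or.inl h))))
    · exact Or.inr (Or.inr (Or.inr (Or.inr (Or.inr (Or.inr (Or.inr h))))))
  · rcases exc_A5 p hodd h5 hM e with h | h
    · exact Or.inr (Or.inr (Or.inr (Or.inr (Or.inl h))))
    · exact Or.inr (Or.inr (Or.inr (Or.inr (Or.inr (Or.inl h)))))
  · rcases pos_case p hodd hM h with h | h
    · exact Or.inr (Or.inr (Or.inr (Or.inl h)))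
    · exact Or.inr (Or.inr (Or.inr (Or.inr (Or.inl h))))

end Cfsg.Agent.Lib.PSL2.MaxOdd
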