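import Cfsg.Agent.Lib.PSL2.MaxOdd3

/-!
# Maximal subgroups of `PGL(2, F)`: basic set-up
-/

set_option autoImplicit false
set_option linter.unusedSectionVars false
set_option linter.unusedSimpArgs false
set_option linter.unusedVariables false
set_option linter.style.haveILetI false

namespace Cfsg.Agent.Lib.PSL2.MaxPgl

open Matrix Matrix.SpecialLinearGroup Subgroup
open scoped MatrixGroups
open Cfsg.Agent.Lib.PSL2.Basic Cfsg.Agent.Lib.PSL2.Conj Cfsg.Agent.Lib.PSL2.Members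
open Cfsg.Agent.Lib.PSL2.FourGroup Cfsg.Agent.Lib.PSL2.KleinPairs Cfsg.Agent.Lib.PSL2.Icosian
open Cfsg.Agent.Lib.PSL2.A5Gen Cfsg.Agent.Lib.PSL2.FieldEmbed
open Cfsg.Agent.Lib.PSL2.DicksonCor Cfsg.Agent.Lib.PSL2.Overgroups Cfsg.Agent.Lib.PSL2.Position
open Cfsg.Agent.Lib.PSL2.MinimalSimple Cfsg.Agent.Lib.PSL2.DihedralMax Cfsg.Agent.Lib.PSL2.Solubilizer
open Cfsg.Agent.Lib.PSL2.BorelMax Cfsg.Agent.Lib.PSL2.Reduction Cfsg.Agent.Lib.PSL2.MaxOdd
open Cfsg.Agent.Lib.PSL2.KleinAut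

section Basics

variable {F : Type*} [Field F] [Fintype F]

/-- The projective general linear group. -/
abbrev PG (F : Type*) [Field F] : Type _ := Matrix.ProjGenLinGroup (Fin 2) F

/-- The quotient map. -/
abbrev mkG : GL (Fin 2) F →* PG F := Matrix.ProjGenLinGroup.mk

/-- The inclusion of `PSL(2, F)`. -/
abbrev psi : PSL(2, F) →* PG F := Matrix.ProjectiveSpecialLinearGroup.toPGL

/-- The image of `SL(2, F)`. -/
abbrev LL (F : Type*) [Field F] : Subgroup (PG F) :=
  ((Matrix.ProjGenLinGroup.mk.comp Matrix.SpecialLinearGroup.toGL :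
    SL(2, F) →* Matrix.ProjGenLinGroup (Fin 2) F)).range

lemma psi_mkP (S : SL(2, F)) : psi (mkP S) = mkG (toGL S) := rfl

lemma psi_injective : Function.Injective (psi : PSL(2, F) → PG F) :=
  Matrix.ProjectiveSpecialLinearGroup.toPGL_injective

lemma range_psi : (psi : PSL(2, F) →* PG F).range = LL F := by
  ext x
  constructor
  · rintro ⟨u, rfl⟩
    obtain ⟨S, rfl⟩ := mkP_surjective u
    exact ⟨S, rfl⟩
  · rintro ⟨S, rfl⟩
    exact ⟨mkP S, rfl⟩

lemma toGL_cj (X : GL (Fin 2) F) (S : SL(2, F)) : toGL (cj X S) = X * toGL S * X⁻¹ := by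
  apply Units.ext
  rfl

lemma conj_psi (X : GL (Fin 2) F) (S : SL(2, F)) :
    mkG X * psi (mkP S) * (mkG X)⁻¹ = psi (mkP (cj X S)) := by
  rw [psi_mkP, psi_mkP, toGL_cj, map_mul, map_mul, map_inv]

instance : Finite (PG F) := by
  haveI : Finite (GL (Fin 2) F) := Finite.of_injective (fun A : GL (Fin 2) F => A.1) Units.val_injective
  exact Quotient.finite _

instance : Finite (PSL(2, F)) := by
  haveI : Finite SL(2, F) := Finite.of_injective (fun A : SL(2, F) => A.1) Subtype.val_injective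
  exact Quotient.finite _

lemma card_LL : Nat.card (LL F) = Nat.card (PSL(2, F)) := by
  rw [← range_psi]
  exact (Nat.card_congr (MonoidHom.ofInjective (psi_injective (F := F))).toEquiv).symm

lemma index_LL (hodd : Odd (Fintype.card F)) : (LL F).index = 2 := by
  have h1 := Subgroup.card_mul_index (LL F)
  rw [card_LL, card_PGL] at h1
  have h2 := two_mul_card hodd
  have h3 : 0 < Nat.card (PSL(2, F)) := Nat.card_pos
  rw [← h2] at h1
  have h4 : Nat.card (PSL(2, F)) * (LL F).index = Nat.card (PSL(2, F)) * 2 := h1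
  exact Nat.eq_of_mul_eq_mul_left h3 h4

lemma normal_LL (hodd : Odd (Fintype.card F)) : (LL F).Normal :=
  Subgroup.normal_of_index_eq_two (index_LL hodd)

/-- The preimage of a subgroup. -/
abbrev M0 (M : Subgroup (PG F)) : Subgroup PSL(2, F) := M.comap psi

lemma card_M0 (M : Subgroup (PG F)) : Nat.card (M0 M) = Nat.card (M ⊓ LL F : Subgroup (PG F)) := by
  have h1 : (M0 M).map psi = M ⊓ LL F := by
    rw [Subgroup.map_comap_eq, range_psi, inf_comm]
  rw [← h1]
  exact Nat.card_congr ((M0 M).equivMapOfInjective psi psi_injective).toEquiv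

lemma mem_M0 {M : Subgroup (PG F)} {S : SL(2, F)} : mkP S ∈ M0 M ↔ mkG (toGL S) ∈ M := Iff.rfl

lemma cj_mem_M0 {M : Subgroup (PG F)} {X : GL (Fin 2) F} (hX : mkG X ∈ M) {S : SL(2, F)}
    (hS : mkP S ∈ M0 M) : mkP (cj X S) ∈ M0 M := by
  show psi (mkP (cj X S)) ∈ M
  rw [← conj_psi]
  exact M.mul_mem (M.mul_mem hX hS) (M.inv_mem hX)

/-- The order of a subgroup not inside `L`. -/
theorem card_eq_two_mul (hodd : Odd (Fintype.card F)) {M : Subgroup (PG F)} (h : ¬ M ≤ LL F) :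
    Nat.card M = 2 * Nat.card (M0 M) := by
  haveI := normal_LL (F := F) hodd
  set K : Subgroup M := (LL F).subgroupOf M with hK
  have h1 : K.index ∣ 2 := by
    have := Subgroup.relIndex_dvd_index_of_normal (LL F) M
    rwa [index_LL hodd] at this
  have h2 : K.index ≠ 1 := by
    intro h3
    apply h
    have h4 := Subgroup.index_eq_one.1 h3
    exact Subgroup.subgroupOf_eq_top.1 h4
  have h3 : K.index = 2 := by
    rcases (Nat.dvd_prime Nat.prime_two).1 h1 with h4 | h4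
    · exact absurd h4 h2
    · exact h4
  have h4 := Subgroup.index_mul_card K
  rw [h3] at h4
  have h5 : Nat.card K = Nat.card (M ⊓ LL F : Subgroup (PG F)) := by
    have h6 : K.map M.subtype = M ⊓ LL F := by
      rw [hK, Subgroup.subgroupOf_map_subtype, inf_comm]
    rw [← h6]
    exact Nat.card_congr (K.equivMapOfInjective M.subtype M.subtype_injective).toEquiv
  rw [← h4, h5, card_M0]

lemma isCoatom_conj (g : PG F) {M : Subgroup (PG F)} (hM : IsCoatom M) :
    IsCoatom (M.map (MulAut.conj g).toMonoidHom) := isCoatom_map _ hM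

lemma not_le_conj (hodd : Odd (Fintype.card F)) (g : PG F) {M : Subgroup (PG F)} (hM : ¬ LL F ≤ M) :
    ¬ LL F ≤ M.map (MulAut.conj g).toMonoidHom := by
  haveI := normal_LL (F := F) hodd
  intro h
  apply hM
  intro x hx
  have h1 : g * x * g⁻¹ ∈ LL F := Subgroup.Normal.conj_mem inferInstance x hx g
  obtain ⟨y, hy, hy'⟩ := h h1
  have h2 : (MulAut.conj g) y = g * y * g⁻¹ := rfl
  have h3 : g * y * g⁻¹ = g * x * g⁻¹ := by
    rw [← h2]
    exact hy'
  have h4 : y = x := by simpa using h3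
  rwa [← h4]

/-- Conjugation transports the preimages. -/
lemma M0_conj {Φ : PSL(2, F) ≃* PSL(2, F)} {X : GL (Fin 2) F} (hΦ : ∀ S, Φ (mkP S) = mkP (cj X S))
    (M : Subgroup (PG F)) :
    M0 (M.map (MulAut.conj (mkG X)).toMonoidHom) = (M0 M).map Φ.toMonoidHom := by
  ext z
  obtain ⟨S, hS⟩ := mkP_surjective (Φ.symm z)
  have hz : z = mkP (cj X S) := by
    rw [← hΦ, hS]
    simp
  subst hz
  constructor
  · rintro ⟨y, hy, hy'⟩
    have h1 : mkG X * y * (mkG X)⁻¹ = psi (mkP (cj X S)) := hy'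
    rw [← conj_psi] at h1
    have h2 : y = psi (mkP S) := by simpa using h1
    refine ⟨mkP S, ?_, hΦ S⟩
    show psi (mkP S) ∈ M
    rw [← h2]
    exact hy
  · rintro ⟨w, hw, hw'⟩
    have h1 : w = mkP S := by
      apply Φ.injective
      rw [hΦ S]
      exact hw'
    subst h1
    refine ⟨psi (mkP S), hw, ?_⟩
    exact conj_psi X S

end Basics

section Torus

variable {F : Type*} [Field F] [Fintype F]

/-- The normaliser in `PGL` of the image of a centraliser. -/
def NG (A : SL(2, F)) : Subgroup (PG F) :=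
  normalizer (((cbar A).map psi : Subgroup (PG F)) : Set (PG F))

lemma psi_mem_map_cbar {A S : SL(2, F)} : psi (mkP S) ∈ (cbar A).map psi ↔ A * S = S * A := by
  constructor
  · rintro ⟨u, hu, hu'⟩
    have h1 := psi_injective hu'
    subst h1
    exact mkP_mem_cbar.1 hu
  · intro h
    exact ⟨mkP S, mkP_mem_cbar.2 h, rfl⟩

lemma nc_cj {Z : SL(2, F)} (hZ : NC Z) (X : GL (Fin 2) F) : NC (cj X Z) := by
  have key : ∀ W : SL(2, F), cj X Z = W → cj X⁻¹ W = Z := by
    rintro W rfl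
    rw [cj_cj, inv_mul_cancel, cj_one_left]
  constructor
  · intro h
    apply hZ.1
    rw [← key 1 h, cj_one]
  · intro h
    apply hZ.2
    rw [← key (-1) h, cj_neg, cj_one]

theorem mem_NG_of_comm {A Z : SL(2, F)} (hA : NC A) (hZ : NC Z) (h : A * Z = Z * A)
    {X : GL (Fin 2) F} (hX : A * cj X Z = cj X Z * A) : mkG X ∈ NG A := by
  apply Order168.mem_normalizer_of_forall
  rintro n ⟨u, hu, rfl⟩
  obtain ⟨S, rfl⟩ := mkP_surjective u
  show mkG X * psi (mkP S) * (mkG X)⁻¹ ∈ _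
  rw [conj_psi, psi_mem_map_cbar]
  have hS : A * S = S * A := mkP_mem_cbar.1 hu
  have hZS : Z * S = S * Z := commute_of_commute hA h hS
  have h1 : cj X Z * cj X S = cj X S * cj X Z := by
    rw [← cj_mul, ← cj_mul, hZS]
  exact commute_of_commute (nc_cj hZ X) hX.symm h1

lemma cj_inv (X : GL (Fin 2) F) (S : SL(2, F)) : cj X S⁻¹ = (cj X S)⁻¹ := by
  apply eq_inv_of_mul_eq_one_left
  rw [← cj_mul, inv_mul_cancel, cj_one]

lemma cj_eq_iff' {X : GL (Fin 2) F} {A : SL(2, F)} : cj X A = A ↔ X * toGL A = toGL A * X := by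
  rw [cj_eq_iff, Units.ext_iff]
  rfl

/-- The image of the centraliser in `GL`. -/
def TG (A : SL(2, F)) : Subgroup (PG F) :=
  (Subgroup.centralizer ({toGL A} : Set (GL (Fin 2) F))).map mkG

lemma mem_TG_iff {A : SL(2, F)} {X : GL (Fin 2) F} : mkG X ∈ TG A ↔ cj X A = A := by
  rw [cj_eq_iff']
  constructor
  · rintro ⟨Y, hY, hYX⟩
    obtain ⟨z, hz, rfl⟩ := Matrix.ProjGenLinGroup.mk_eq_mk_iff'.1 hYX
    have h1 := Subgroup.mem_centralizer_singleton_iff.1 hY
    have h2 := Subgroup.mem_center_iff.1 hz (toGL A)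
    rw [mul_assoc, ← h2, ← mul_assoc, h1, mul_assoc]
  · intro h
    exact ⟨X, Subgroup.mem_centralizer_singleton_iff.2 h, rfl⟩

variable {A W : SL(2, F)}

lemma TG_le_NG (hA : NC A) : TG A ≤ NG A := by
  rintro _ ⟨Y, hY, rfl⟩
  have h1 : cj Y A = A := mem_TG_iff.1 ⟨Y, hY, rfl⟩
  apply mem_NG_of_comm hA hA rfl
  rw [h1]

lemma psi_w_mem_NG (hA : NC A) (hw : W * A * W⁻¹ = A⁻¹) : psi (mkP W) ∈ NG A := by
  apply mem_NG_of_comm hA hA rfl
  rw [cj_toGL, hw]
  group

lemma NG_cases (hA : NC A) (hd : disc A ≠ 0) (hw : W * A * W⁻¹ = A⁻¹) {g : PG F} (hg : g ∈ NG A) :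
    g ∈ TG A ∨ g * psi (mkP W) ∈ TG A := by
  obtain ⟨X, rfl⟩ := Matrix.ProjGenLinGroup.mk_surjective g
  have h1 : mkG X * psi (mkP A) * (mkG X)⁻¹ ∈ (cbar A).map psi :=
    (mem_normalizer_iff.1 hg _).1 ⟨mkP A, mkP_mem_cbar.2 rfl, rfl⟩
  rw [conj_psi, psi_mem_map_cbar] at h1
  rcases eq_or_eq_inv_of_commute hA hd (tr_cj X A) (nc_cj hA X) h1 with h | h
  · left
    exact mem_TG_iff.2 h
  · right
    have h2 : mkG X * psi (mkP W) = mkG (X * toGL W) := (map_mul _ _ _).symm
    show mkG X * psi (mkP W) ∈ TG A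
    rw [h2, mem_TG_iff, ← cj_cj, cj_toGL, hw, cj_inv, h, inv_inv]

lemma w_not_mem_TG (hA : NC A) (hd : disc A ≠ 0) (hw : W * A * W⁻¹ = A⁻¹) : psi (mkP W) ∉ TG A := by
  intro h
  have h1 : cj (toGL W) A = A := mem_TG_iff.1 h
  rw [cj_toGL] at h1
  apply not_commute_of_inverts hA hd hw
  rw [mul_inv_eq_iff_eq_mul] at h1
  exact h1.symm

lemma w_sq (hA : NC A) (hw : W * A * W⁻¹ = A⁻¹) : psi (mkP W) * psi (mkP W) = 1 := by
  rw [← map_mul, y_sq hA hw, map_one]

lemma w_inverts (hA : NC A) (hw : W * A * W⁻¹ = A⁻¹) {t : PG F} (ht : t ∈ TG A) :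
    psi (mkP W) * t * (psi (mkP W))⁻¹ = t⁻¹ := by
  obtain ⟨X, rfl⟩ := Matrix.ProjGenLinGroup.mk_surjective t
  have h1 : cj X A = A := mem_TG_iff.1 ht
  have h1' := cj_eq_iff.1 h1
  have hWA : W.1 * A.1 = (A⁻¹).1 * W.1 := by
    have h2 : W * A = A⁻¹ * W := by
      rw [← hw]
      group
    exact congrArg Subtype.val h2
  -- `X` is a polynomial in `A`
  have h00 := congrFun (congrFun h1' 0) 0
  have h01 := congrFun (congrFun h1' 0) 1
  have h10 := congrFun (congrFun h1' 1) 0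
  simp only [Matrix.mul_apply, Fin.sum_univ_two] at h00 h01 h10
  obtain ⟨β, hq, hr, hps⟩ := commute_aux (nonscalar_of_ne hA)
    (a := A.1 0 0) (b := A.1 0 1) (c := A.1 1 0) (e := A.1 1 1)
    (p := X.val 0 0) (q := X.val 0 1) (r := X.val 1 0) (s := X.val 1 1)
    (by linear_combination -h00) (by linear_combination -h01) (by linear_combination -h10)
  set α := X.val 1 1 - β * A.1 1 1 with hα
  have hval : X.val = α • (1 : Matrix (Fin 2) (Fin 2) F) + β • A.1 := by
    ext i j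
    fin_cases i <;> fin_cases j <;> simp
    · rw [hα]; linear_combination hps
    · exact hq
    · exact hr
    · rw [hα]; ring
  have hcen : toGL W * X * (toGL W)⁻¹ * X ∈ Subgroup.center (GL (Fin 2) F) := by
    rw [Matrix.GeneralLinearGroup.mem_center_iff_val_mem_range_scalar]
    refine ⟨α * α + α * β * tr A + β * β, ?_⟩
    have h3 : (toGL W * X).val = (α • (1 : Matrix (Fin 2) (Fin 2) F) + β • (A⁻¹).1) * W.1 := by
      show W.1 * X.val = _
      rw [hval, mul_add, add_mul, mul_smul_comm, mul_smul_comm, hWA, smul_mul_assoc, smul_mul_assoc]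
      simp
    have h4 : (toGL W * X * (toGL W)⁻¹).val = α • (1 : Matrix (Fin 2) (Fin 2) F) + β • (A⁻¹).1 := by
      rw [Units.val_mul, h3, mul_assoc]
      have : W.1 * ((toGL W)⁻¹).val = 1 := by
        have := congrArg Units.val (mul_inv_cancel (toGL W))
        simpa using this
      rw [this, mul_one]
    rw [Units.val_mul, h4, hval]
    have h5 := add_inv_eq A
    have h6 : (A⁻¹).1 * A.1 = 1 := congrArg Subtype.val (inv_mul_cancel A)
    have key : (α • (1 : Matrix (Fin 2) (Fin 2) F) + β • (A⁻¹).1) * (α • (1 : Matrix (Fin 2) (Fin 2) F) + β • A.1) =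
        (α * α + α * β * tr A + β * β) • (1 : Matrix (Fin 2) (Fin 2) F) := by
      have h7 : (α • (1 : Matrix (Fin 2) (Fin 2) F) + β • (A⁻¹).1) * (α • (1 : Matrix (Fin 2) (Fin 2) F) + β • A.1) =
          (α * α) • (1 : Matrix (Fin 2) (Fin 2) F) + (α * β) • (A.1 + (A⁻¹).1) + (β * β) • ((A⁻¹).1 * A.1) := by
        simp only [add_mul, mul_add, smul_mul_assoc, mul_smul_comm, one_mul, mul_one, smul_add, smul_smul]
        rw [mul_comm β α]
        abel
      rw [h7, h5, h6, smul_smul, ← add_smul, ← add_smul]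
    rw [key]
    ext i j
    simp [Matrix.scalar_apply, Matrix.one_apply, Matrix.diagonal_apply]
  have h10 := Matrix.ProjGenLinGroup.mk_eq_one.2 hcen
  rw [map_mul, map_mul, map_mul, map_inv] at h10
  exact eq_inv_of_mul_eq_one_left h10

lemma index_TG (hA : NC A) (hd : disc A ≠ 0) (hw : W * A * W⁻¹ = A⁻¹) :
    ((TG A).subgroupOf (NG A)).index = 2 := by
  rw [Subgroup.index_eq_two_iff]
  refine ⟨⟨psi (mkP W), psi_w_mem_NG hA hw⟩, fun b => ?_⟩
  rw [Subgroup.mem_subgroupOf, Subgroup.mem_subgroupOf]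
  have hne := w_not_mem_TG hA hd hw
  rcases NG_cases hA hd hw b.2 with h | h
  · right
    refine ⟨h, fun h1 => hne ?_⟩
    have h2 : (b : PG F)⁻¹ * (b * psi (mkP W)) = psi (mkP W) := by group
    rw [← h2]
    exact (TG A).mul_mem ((TG A).inv_mem h) h1
  · left
    refine ⟨h, fun h1 => hne ?_⟩
    have h2 : (b : PG F)⁻¹ * (b * psi (mkP W)) = psi (mkP W) := by group
    rw [← h2]
    exact (TG A).mul_mem ((TG A).inv_mem h1) h

lemma card_NG (hA : NC A) (hd : disc A ≠ 0) (hw : W * A * W⁻¹ = A⁻¹) :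
    Nat.card (NG A) = 2 * Nat.card (TG A) := by
  have h := Subgroup.index_mul_card ((TG A).subgroupOf (NG A))
  rw [index_TG hA hd hw] at h
  rw [← h]
  congr 1
  exact Nat.card_congr (Subgroup.subgroupOfEquivOfLe (TG_le_NG hA)).toEquiv

theorem NG_equiv (hA : NC A) (hd : disc A ≠ 0) (hw : W * A * W⁻¹ = A⁻¹) (hc : IsCyclic (TG A)) :
    Nonempty (NG A ≃* DihedralGroup (Nat.card (TG A))) := by
  have hc' : IsCyclic ((TG A).subgroupOf (NG A)) :=
    isCyclic_of_injective (Subgroup.subgroupOfEquivOfLe (TG_le_NG hA)).toMonoidHom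
      (Subgroup.subgroupOfEquivOfLe (TG_le_NG hA)).injective
  have h := CosetIso.nonempty_equiv_dihedral ((TG A).subgroupOf (NG A)) hc' (index_TG hA hd hw)
    ⟨psi (mkP W), psi_w_mem_NG hA hw⟩
    (by rw [Subgroup.mem_subgroupOf]; exact w_not_mem_TG hA hd hw)
    (Subtype.ext (w_sq hA hw))
    (fun a ha => Subtype.ext (w_inverts hA hw (Subgroup.mem_subgroupOf.1 ha)))
  rwa [Nat.card_congr (Subgroup.subgroupOfEquivOfLe (TG_le_NG hA)).toEquiv] at h

lemma comap_NG (A : SL(2, F)) : (NG A).comap psi = Nz A := by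
  ext u
  constructor
  · intro hu
    apply Order168.mem_normalizer_of_forall
    intro n hn
    have h1 : psi u * psi n * (psi u)⁻¹ ∈ (cbar A).map psi :=
      (mem_normalizer_iff.1 hu _).1 ⟨n, hn, rfl⟩
    rw [← map_inv, ← map_mul, ← map_mul] at h1
    obtain ⟨v, hv, hv'⟩ := h1
    have h2 := psi_injective hv'
    rwa [← h2]
  · intro hu
    apply Order168.mem_normalizer_of_forall
    rintro _ ⟨n, hn, rfl⟩
    rw [← map_inv, ← map_mul, ← map_mul]
    exact ⟨_, (mem_normalizer_iff.1 hu _).1 hn, rfl⟩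

end Torus

section Ext

variable {F : Type*} [Field F] [Fintype F]

/-- An embedding of `PGL(2, F)` in `PSL(2, F')`, where `F'` is the quadratic extension. -/
theorem exists_ext_embed (hodd : Odd (Fintype.card F)) :
    ∃ (F' : Type) (_ : Field F') (_ : Fintype F') (ι : F →+* F') (f : PG F →* PSL(2, F')),
      Function.Injective f ∧ Fintype.card F' = Fintype.card F ^ 2 ∧
      ∀ Y : GL (Fin 2) F, ∃ (r : F') (Z : SL(2, F')), r ≠ 0 ∧ f (mkG Y) = mkP Z ∧ Z.1 = r • Y.1.map ι := by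
  classical
  obtain ⟨p, hp, hchar⟩ := exists_char F
  haveI : Fact p.Prime := ⟨hp⟩
  obtain ⟨n, -, hn⟩ := FiniteField.card F p
  have hne : 2 * (n : ℕ) ≠ 0 := by
    have := n.pos
    omega
  letI : Fintype (GaloisField p (2 * (n : ℕ))) := Fintype.ofFinite _
  have hcard : Fintype.card (GaloisField p (2 * (n : ℕ))) = Fintype.card F ^ 2 := by
    rw [← Nat.card_eq_fintype_card, GaloisField.card p _ hne, hn, ← pow_mul, mul_comm]
  obtain ⟨ι⟩ := exists_embed (K := F) (F := GaloisField p (2 * (n : ℕ))) (m := 2) (by norm_num) hcard.symm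
  have hr : ∀ c : F, c ≠ 0 → ∃ r : GaloisField p (2 * (n : ℕ)), r ≠ 0 ∧ r * r = ι c := fun c hc =>
    exists_sqrt (j := 1) ι (by rw [pow_one]; exact hcard.symm) (Nat.odd_iff.1 hodd) c hc
  choose rt' hrt0' hrt1' using hr
  let rt : Fˣ → GaloisField p (2 * (n : ℕ)) := fun c => rt' c c.ne_zero
  have hrt0 : ∀ c, rt c ≠ 0 := fun c => hrt0' c c.ne_zero
  have hrt1 : ∀ c : Fˣ, rt c * rt c = ι (c : F) := fun c => hrt1' c c.ne_zero
  let f : PG F →* PSL(2, GaloisField p (2 * (n : ℕ))) :=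
    QuotientGroup.lift (Subgroup.center (GL (Fin 2) F)) (glHom rt hrt0 hrt1) (by
      intro z hz
      exact glHom_of_center rt hrt0 hrt1 hz)
  refine ⟨GaloisField p (2 * (n : ℕ)), inferInstance, inferInstance, ι, f, ?_, hcard, ?_⟩
  · rw [injective_iff_map_eq_one]
    intro a ha
    obtain ⟨M, rfl⟩ := Matrix.ProjGenLinGroup.mk_surjective a
    have h1 : glHom rt hrt0 hrt1 M = 1 := ha
    exact Matrix.ProjGenLinGroup.mk_eq_one.2 (scalar_of_glHom rt hrt0 hrt1 h1)
  · intro Y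
    refine ⟨(rt (Matrix.GeneralLinearGroup.det Y))⁻¹, Rt rt hrt0 hrt1 Y, inv_ne_zero (hrt0 _), rfl, ?_⟩
    ext i j
    rw [Rt_apply]
    rfl

theorem isCyclic_TG (hodd : Odd (Fintype.card F)) {A : SL(2, F)} (hA : NC A) (hd : disc A ≠ 0) :
    IsCyclic (TG A) := by
  obtain ⟨F', iF, iFt, ι, f, hf, hc, hY⟩ := exists_ext_embed (F := F) hodd
  have hA' : NC (mapι ι A) := nc_of_mkP_ne_one (fun h => mkP_ne_one hA (mapι_eq_one_iff.1 h))
  have hd' : disc (mapι ι A) ≠ 0 := by
    unfold disc at hd ⊢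
    rw [tr_mapι]
    intro h
    apply hd
    apply ι.injective
    rw [map_sub, map_pow, map_zero, map_ofNat]
    exact h
  haveI := (MemberCyc.cbar_cyclic hA' hd').1
  have hmem : ∀ t : TG A, f t ∈ cbar (mapι ι A) := by
    rintro ⟨t, Y, hY', rfl⟩
    have h1 : cj Y A = A := mem_TG_iff.1 ⟨Y, hY', rfl⟩
    obtain ⟨r, Z, hr, hZ, hZ'⟩ := hY Y
    show f (mkG Y) ∈ _
    rw [hZ, mkP_mem_cbar]
    apply Subtype.ext
    show (mapι ι A).1 * Z.1 = Z.1 * (mapι ι A).1
    have h2 : (mapι ι A).1 = A.1.map ι := by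
      ext i j
      rfl
    have h3 := cj_eq_iff.1 h1
    have h4 := congrArg (fun m => Matrix.map m ι) h3
    simp only [Matrix.map_mul] at h4
    rw [h2, hZ', mul_smul_comm, smul_mul_assoc, h4]
  let φ : TG A →* cbar (mapι ι A) := (f.comp (TG A).subtype).codRestrict _ hmem
  refine isCyclic_of_injective φ ?_
  intro a b hab
  apply Subtype.ext
  apply hf
  exact congrArg Subtype.val hab

end Ext

section Bor

variable {F : Type*} [Field F] [Fintype F]

/-- Upper triangular matrices. -/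
def BGL1 (F : Type*) [Field F] : Subgroup (GL (Fin 2) F) where
  carrier := {X | X.val 1 0 = 0}
  mul_mem' := by
    intro X Y hX hY
    show (X * Y).val 1 0 = 0
    have hX' : X.val 1 0 = 0 := hX
    have hY' : Y.val 1 0 = 0 := hY
    rw [Units.val_mul, Matrix.mul_apply, Fin.sum_univ_two, hX', hY']
    ring
  one_mem' := by
    show (1 : GL (Fin 2) F).val 1 0 = 0
    simp
  inv_mem' := by
    intro X hX
    have hX' : X.val 1 0 = 0 := hX
    show (X⁻¹).val 1 0 = 0
    rw [Matrix.coe_units_inv, Matrix.inv_def, Matrix.adjugate_fin_two]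
    simp [hX']

/-- Conjugates of the upper triangular matrices. -/
def BGL (g : SL(2, F)) : Subgroup (GL (Fin 2) F) :=
  (BGL1 F).comap (MulAut.conj (toGL g)).toMonoidHom

/-- The point stabilisers in `PGL`. -/
def BG (g : SL(2, F)) : Subgroup (PG F) := (BGL g).map mkG

lemma mem_BG {g : SL(2, F)} {X : GL (Fin 2) F} :
    mkG X ∈ BG g ↔ (toGL g * X * (toGL g)⁻¹).val 1 0 = 0 := by
  constructor
  · rintro ⟨Y, hY, hYX⟩
    obtain ⟨z, hz, rfl⟩ := Matrix.ProjGenLinGroup.mk_eq_mk_iff'.1 hYX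
    have h1 : (toGL g * Y * (toGL g)⁻¹).val 1 0 = 0 := hY
    have h2 : toGL g * (Y * z) * (toGL g)⁻¹ = toGL g * Y * (toGL g)⁻¹ * z := by
      have h3 := Subgroup.mem_center_iff.1 hz (toGL g)⁻¹
      rw [mul_assoc (toGL g) (Y * z), mul_assoc Y z, ← h3]
      group
    rw [h2]
    obtain ⟨a, ha⟩ := Matrix.GeneralLinearGroup.mem_center_iff_val_mem_range_scalar.1 hz
    rw [Units.val_mul, ← ha, Matrix.mul_apply, Fin.sum_univ_two, h1]
    simp
  · intro h
    exact ⟨X, h, rfl⟩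

lemma comap_BG (g : SL(2, F)) : (BG g).comap psi = borelP g := by
  ext u
  obtain ⟨S, rfl⟩ := mkP_surjective u
  rw [mem_borelP]
  show mkG (toGL S) ∈ BG g ↔ _
  rw [mem_BG]
  have h : toGL g * toGL S * (toGL g)⁻¹ = toGL (g * S * g⁻¹) := by
    rw [map_mul, map_mul, map_inv]
  rw [h]
  rfl

lemma BG_ne_top (g : SL(2, F)) : BG g ≠ ⊤ := by
  intro h
  have h1 := comap_BG g
  rw [h, Subgroup.comap_top] at h1
  have h2 := index_borelP g
  rw [← h1, Subgroup.index_top] at h2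
  have := card_ge_two F
  omega

theorem le_BG {M : Subgroup (PG F)} {g A : SL(2, F)} {ε s : F} {hε : ε ≠ 0} (hg : T g A = b ε hε s)
    (hs : s ≠ 0) (hε2 : ε * ε = 1) (hAM : mkP A ∈ M0 M) (hup : ∀ X, mkP X ∈ M0 M → Up g X) : M ≤ BG g := by
  intro y hy
  obtain ⟨X, rfl⟩ := Matrix.ProjGenLinGroup.mk_surjective y
  have h1 : Up g (cj X A) := hup _ (cj_mem_M0 hy hAM)
  rw [mem_BG]
  set X' := toGL g * X * (toGL g)⁻¹ with hX'
  have h2 : T g (cj X A) = cj X' (T g A) := by
    have h3 : T g (cj X A) = cj (toGL g) (cj X A) := by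
      rw [cj_toGL]
      rfl
    have h4 : T g A = cj (toGL g) A := by
      rw [cj_toGL]
      rfl
    rw [h3, h4, cj_cj, cj_cj, hX']
    congr 1
    group
  rw [hg] at h2
  unfold Up at h1
  rw [h2] at h1
  have h3 := cj_eq_iff.1 (rfl : cj X' (b ε hε s) = cj X' (b ε hε s))
  generalize cj X' (b ε hε s) = C at h1 h3
  have h10 := congrFun (congrFun h3 1) 0
  have h11 := congrFun (congrFun h3 1) 1
  simp only [Matrix.mul_apply, Fin.sum_univ_two, b_00, b_01, b_10, b_11, h1, mul_zero, add_zero, zero_mul, zero_add] at h10 h11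
  by_contra hc
  have h4 : C.1 1 1 = ε := by
    have : (C.1 1 1 - ε) * X'.val 1 0 = 0 := by linear_combination -h10
    have h5 := (mul_eq_zero.1 this).resolve_right hc
    linear_combination h5
  rw [h4] at h11
  have hinv : ε⁻¹ = ε := by
    field_simp
    linear_combination -hε2
  rw [hinv] at h11
  have h5 : X'.val 1 0 * s = 0 := by linear_combination h11
  rcases mul_eq_zero.1 h5 with h6 | h6
  · exact hc h6
  · exact hs h6

end Bor

end Cfsg.Agent.Lib.PSL2.MaxPgl
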