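import Cfsg.Agent.Lib.PSL2.MaxPgl

/-!
# Maximal subgroups of `PGL(2, F)`: normalisers of four-groups
-/

set_option autoImplicit false
set_option linter.unusedSectionVars false
set_option linter.unusedSimpArgs false
set_option linter.unusedVariables false
set_option linter.style.haveILetI false

namespace Cfsg.Agent.Lib.PSL2.MaxPgl

open Matrix Matrix.SpecialLinearGroup Subgroup
open scoped MatrixGroups
open Cfsg.Agent.Lib.PSL2.Basic Cfsg.Agent.Lib.PSL2.Conj Cfsg.Agent.Lib.PSL2.Members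
open Cfsg.Agent.Lib.PSL2.FourGroup Cfsg.Agent.Lib.PSL2.KleinPairs Cfsg.Agent.Lib.PSL2.Icosian
open Cfsg.Agent.Lib.PSL2.A5Gen Cfsg.Agent.Lib.PSL2.FieldEmbed
open Cfsg.Agent.Lib.PSL2.DicksonCor Cfsg.Agent.Lib.PSL2.Overgroups Cfsg.Agent.Lib.PSL2.Position
open Cfsg.Agent.Lib.PSL2.MinimalSimple Cfsg.Agent.Lib.PSL2.DihedralMax Cfsg.Agent.Lib.PSL2.Solubilizer
open Cfsg.Agent.Lib.PSL2.BorelMax Cfsg.Agent.Lib.PSL2.Reduction Cfsg.Agent.Lib.PSL2.MaxOdd
open Cfsg.Agent.Lib.PSL2.KleinAut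

section Klein

variable {F : Type*} [Field F] [Fintype F]

/-- The normaliser of the image of a four-group. -/
def NV {a b : PSL(2, F)} (h : IsPP a b) : Subgroup (PG F) :=
  normalizer (((fourOf a b h).map psi : Subgroup (PG F)) : Set (PG F))

lemma mem_NV_of_forall {a b : PSL(2, F)} {h : IsPP a b} {g : PG F}
    (hg : ∀ z ∈ fourOf a b h, ∃ z' ∈ fourOf a b h, g * psi z * g⁻¹ = psi z') : g ∈ NV h := by
  apply Order168.mem_normalizer_of_forall
  rintro _ ⟨z, hz, rfl⟩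
  obtain ⟨z', hz', e⟩ := hg z hz
  exact ⟨z', hz', e.symm⟩

lemma NV_apply {a b : PSL(2, F)} {h : IsPP a b} {g : PG F} (hg : g ∈ NV h) {z : PSL(2, F)}
    (hz : z ∈ fourOf a b h) : ∃ z' ∈ fourOf a b h, g * psi z * g⁻¹ = psi z' := by
  obtain ⟨z', hz', e⟩ := (mem_normalizer_iff.1 hg _).1 ⟨z, hz, rfl⟩
  exact ⟨z', hz', e.symm⟩

lemma comap_NV {a b : PSL(2, F)} (h : IsPP a b) :
    (NV h).comap psi = normalizer ((fourOf a b h : Subgroup PSL(2, F)) : Set PSL(2, F)) := by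
  ext u
  constructor
  · intro hu
    apply Order168.mem_normalizer_of_forall
    intro n hn
    obtain ⟨z', hz', e⟩ := NV_apply hu hn
    rw [← map_inv, ← map_mul, ← map_mul] at e
    rwa [psi_injective e]
  · intro hu
    apply mem_NV_of_forall
    intro z hz
    refine ⟨_, (mem_normalizer_iff.1 hu _).1 hz, ?_⟩
    rw [map_mul, map_mul, map_inv]

lemma NV_ne_top (h5 : 5 ≤ Fintype.card F) {a b : PSL(2, F)} (h : IsPP a b) : NV h ≠ ⊤ := by
  intro e
  have h1 := comap_NV h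
  rw [e, Subgroup.comap_top] at h1
  refine normalizer_ne_top_of_card' h5 (V := fourOf a b h) ?_ ?_ h1.symm
  · rw [card_fourOf]
    norm_num
  · intro e2
    have h3 := card_fourOf h
    rw [e2, Subgroup.card_top] at h3
    have h4 := card_PSL2_mul_dd F
    rw [h3] at h4
    have h6 := dd_le_two F
    have h7 : 5 * (5 ^ 2 - 1) ≤ Fintype.card F * (Fintype.card F ^ 2 - 1) := by
      apply Nat.mul_le_mul h5
      exact Nat.sub_le_sub_right (Nat.pow_le_pow_left h5 2) 1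
    norm_num at h7
    omega

theorem NV_form (h2 : (2 : F) ≠ 0) {A B : SL(2, F)} (hq : IsQ A B) {f : PSL(2, F)} (hf0 : f * f * f = 1)
    (hf1 : f * mkP A * f⁻¹ = mkP B) (hf2 : f * mkP B * f⁻¹ = mkP A * mkP B) {g : PG F}
    (hg : g ∈ NV (isPP_of_isQ h2 hq)) :
    ∃ i j : ℕ, i < 3 ∧ j < 2 ∧ ∃ z ∈ fourOf (mkP A) (mkP B) (isPP_of_isQ h2 hq),
      g = psi f ^ i * mkG (onePlus h2 A hq.tra) ^ j * psi z := by
  have hP := isPP_of_isQ h2 hq
  set a := mkP A with ha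
  set b := mkP B with hb
  set τ := mkG (onePlus h2 A hq.tra) with hτ
  set φ := psi f with hφ
  have φa : φ * psi a * φ⁻¹ = psi b := by
    rw [hφ, ← map_inv, ← map_mul, ← map_mul, hf1]
  have φb : φ * psi b * φ⁻¹ = psi (a * b) := by
    rw [hφ, ← map_inv, ← map_mul, ← map_mul, hf2]
  have φab : φ * psi (a * b) * φ⁻¹ = psi a := by
    have h1 : f * (a * b) * f⁻¹ = a := by
      have : f * (a * b) * f⁻¹ = (f * a * f⁻¹) * (f * b * f⁻¹) := by group
      rw [this, hf1, hf2, ← mul_assoc, hP.comm.symm, mul_assoc, hP.bb, mul_one]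
    rw [hφ, ← map_inv, ← map_mul, ← map_mul, h1]
  have τa : τ * psi a * τ⁻¹ = psi a := by
    rw [hτ, conj_psi, cj_onePlus_left h2 hq]
  have τb : τ * psi b * τ⁻¹ = psi (a * b) := by
    rw [hτ, conj_psi, cj_onePlus_right h2 hq, map_mul]
  have τab : τ * psi (a * b) * τ⁻¹ = psi b := by
    rw [map_mul]
    have : τ * (psi a * psi b) * τ⁻¹ = (τ * psi a * τ⁻¹) * (τ * psi b * τ⁻¹) := by group
    rw [this, τa, τb, map_mul, ← mul_assoc, ← map_mul, hP.aa, map_one, one_mul]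
  have hψa1 : psi a ≠ 1 := fun e => hP.a1 (psi_injective (by rw [e, map_one]))
  have hψb1 : psi b ≠ 1 := fun e => hP.b1 (psi_injective (by rw [e, map_one]))
  have hψab : psi a ≠ psi b := fun e => hP.ab (psi_injective e)
  have hφN : φ ∈ NV hP := by
    apply mem_NV_of_forall
    rintro z (rfl | rfl | rfl | rfl)
    · exact ⟨1, Or.inl rfl, by simp⟩
    · exact ⟨b, right_mem hP, φa⟩
    · exact ⟨a * b, Or.inr (Or.inr (Or.inr rfl)), φb⟩
    · exact ⟨a, left_mem hP, φab⟩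
  have hτN : τ ∈ NV hP := by
    apply mem_NV_of_forall
    rintro z (rfl | rfl | rfl | rfl)
    · exact ⟨1, Or.inl rfl, by simp⟩
    · exact ⟨a, left_mem hP, τa⟩
    · exact ⟨a * b, Or.inr (Or.inr (Or.inr rfl)), τb⟩
    · exact ⟨b, right_mem hP, τab⟩
  -- Step A
  obtain ⟨i, hi, hg1⟩ : ∃ i : ℕ, i < 3 ∧ (φ ^ i)⁻¹ * g * psi a * ((φ ^ i)⁻¹ * g)⁻¹ = psi a := by
    obtain ⟨z', hz', e⟩ := NV_apply hg (left_mem hP)
    rcases hz' with rfl | rfl | rfl | rfl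
    · exfalso
      rw [map_one, conj_eq_one_iff] at e
      exact hψa1 e
    · refine ⟨0, by norm_num, ?_⟩
      rw [pow_zero, inv_one, one_mul]
      exact e
    · refine ⟨1, by norm_num, ?_⟩
      have : (φ ^ 1)⁻¹ * g * psi a * ((φ ^ 1)⁻¹ * g)⁻¹ = φ⁻¹ * (g * psi a * g⁻¹) * φ := by group
      rw [this, e, ← φa]
      group
    · refine ⟨2, by norm_num, ?_⟩
      have : (φ ^ 2)⁻¹ * g * psi a * ((φ ^ 2)⁻¹ * g)⁻¹ = (φ ^ 2)⁻¹ * (g * psi a * g⁻¹) * φ ^ 2 := by group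
      rw [this, e, ← φb, ← φa]
      group
  generalize hg₁ : (φ ^ i)⁻¹ * g = g₁ at hg1
  have hg₁N : g₁ ∈ NV hP := by
    rw [← hg₁]
    exact (NV hP).mul_mem ((NV hP).inv_mem ((NV hP).pow_mem hφN i)) hg
  -- Step B
  obtain ⟨j, hj, hg2a, hg2b⟩ : ∃ j : ℕ, j < 2 ∧ (τ ^ j)⁻¹ * g₁ * psi a * ((τ ^ j)⁻¹ * g₁)⁻¹ = psi a ∧
      (τ ^ j)⁻¹ * g₁ * psi b * ((τ ^ j)⁻¹ * g₁)⁻¹ = psi b := by
    obtain ⟨z', hz', e⟩ := NV_apply hg₁N (right_mem hP)
    rcases hz' with rfl | rfl | rfl | rfl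
    · exfalso
      rw [map_one, conj_eq_one_iff] at e
      exact hψb1 e
    · exfalso
      apply hψab
      have h3 : g₁ * psi a * g₁⁻¹ = g₁ * psi b * g₁⁻¹ := by rw [hg1, e]
      exact mul_left_cancel (mul_right_cancel h3)
    · refine ⟨0, by norm_num, ?_, ?_⟩
      · rw [pow_zero, inv_one, one_mul]
        exact hg1
      · rw [pow_zero, inv_one, one_mul]
        exact e
    · refine ⟨1, by norm_num, ?_, ?_⟩
      · have : (τ ^ 1)⁻¹ * g₁ * psi a * ((τ ^ 1)⁻¹ * g₁)⁻¹ = τ⁻¹ * (g₁ * psi a * g₁⁻¹) * τ := by group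
        rw [this, hg1]
        nth_rw 1 [← τa]
        group
      · have : (τ ^ 1)⁻¹ * g₁ * psi b * ((τ ^ 1)⁻¹ * g₁)⁻¹ = τ⁻¹ * (g₁ * psi b * g₁⁻¹) * τ := by group
        rw [this, e, ← τb]
        group
  generalize hg₂ : (τ ^ j)⁻¹ * g₁ = g₂ at hg2a hg2b
  -- Step C
  obtain ⟨X, rfl⟩ := Matrix.ProjGenLinGroup.mk_surjective g₂
  have hcA : cj X A = A ∨ cj X A = -A := by
    have h3 : psi (mkP (cj X A)) = psi (mkP A) := by
      rw [← conj_psi]
      exact hg2a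
    have h4 := psi_injective h3
    rcases mkP_eq_iff.1 h4 with h5 | h5
    · left; exact h5.symm
    · right
      calc cj X A = - -cj X A := (neg_neg _).symm
        _ = -A := by rw [← h5]
  have hcB : cj X B = B ∨ cj X B = -B := by
    have h3 : psi (mkP (cj X B)) = psi (mkP B) := by
      rw [← conj_psi]
      exact hg2b
    have h4 := psi_injective h3
    rcases mkP_eq_iff.1 h4 with h5 | h5
    · left; exact h5.symm
    · right
      calc cj X B = - -cj X B := (neg_neg _).symm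
        _ = -B := by rw [← h5]
  have hAB : A * B * A⁻¹ = -B := by
    rw [hq.anti, neg_mul, mul_inv_cancel_right]
  have hBA : B * A * B⁻¹ = -A := by
    have : B * A = -(A * B) := by rw [hq.anti, neg_neg]
    rw [this, neg_mul, mul_inv_cancel_right]
  have hAA : A * A * A⁻¹ = A := by rw [mul_inv_cancel_right]
  have hBB : B * B * B⁻¹ = B := by rw [mul_inv_cancel_right]
  obtain ⟨z₀, hz₀, hz₀A, hz₀B⟩ : ∃ z₀ : SL(2, F), mkP z₀ ∈ fourOf a b hP ∧ cj (X * toGL z₀) A = A ∧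
      cj (X * toGL z₀) B = B := by
    rcases hcA with hcA | hcA <;> rcases hcB with hcB | hcB
    · refine ⟨1, Or.inl (map_one _), ?_, ?_⟩
      · rw [map_one, mul_one, hcA]
      · rw [map_one, mul_one, hcB]
    · refine ⟨A, left_mem hP, ?_, ?_⟩
      · rw [← cj_cj, cj_toGL, hAA, hcA]
      · rw [← cj_cj, cj_toGL, hAB, cj_neg, hcB, neg_neg]
    · refine ⟨B, right_mem hP, ?_, ?_⟩
      · rw [← cj_cj, cj_toGL, hBA, cj_neg, hcA, neg_neg]
      · rw [← cj_cj, cj_toGL, hBB, hcB]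
    · refine ⟨A * B, Or.inr (Or.inr (Or.inr (map_mul _ _ _))), ?_, ?_⟩
      · rw [← cj_cj, cj_toGL]
        have : A * B * A * (A * B)⁻¹ = A * (B * A * B⁻¹) * A⁻¹ := by group
        rw [this, hBA, mul_neg, neg_mul, hAA, cj_neg, hcA, neg_neg]
      · rw [← cj_cj, cj_toGL]
        have : A * B * B * (A * B)⁻¹ = A * (B * B * B⁻¹) * A⁻¹ := by group
        rw [this, hBB, hAB, cj_neg, hcB, neg_neg]
  have hc := mem_center_of_fix h2 hq hz₀A hz₀B
  have h5 := Matrix.ProjGenLinGroup.mk_eq_one.2 hc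
  rw [map_mul] at h5
  have h6 : mkG X = psi ((mkP z₀)⁻¹) := by
    rw [map_inv]
    exact eq_inv_of_mul_eq_one_left h5
  refine ⟨i, j, hi, hj, (mkP z₀)⁻¹, (fourOf a b hP).inv_mem hz₀, ?_⟩
  rw [← h6, ← hg₂, ← hg₁]
  group

theorem card_NV_le (h2 : (2 : F) ≠ 0) {A B : SL(2, F)} (hq : IsQ A B) :
    Nat.card (NV (isPP_of_isQ h2 hq)) ≤ 24 := by
  obtain ⟨f, hf0, hf1, hf2⟩ := exists_order_three h2 (isPP_of_isQ h2 hq)
  let V := fourOf (mkP A) (mkP B) (isPP_of_isQ h2 hq)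
  let φ : Fin 3 × Fin 2 × V → PG F := fun d =>
    psi f ^ (d.1 : ℕ) * mkG (onePlus h2 A hq.tra) ^ (d.2.1 : ℕ) * psi (d.2.2 : PSL(2, F))
  have hsub : ((NV (isPP_of_isQ h2 hq) : Subgroup (PG F)) : Set (PG F)) ⊆ Set.range φ := by
    intro g hg
    obtain ⟨i, j, hi, hj, z, hz, e⟩ := NV_form h2 hq hf0 hf1 hf2 hg
    exact ⟨(⟨i, hi⟩, ⟨j, hj⟩, ⟨z, hz⟩), e.symm⟩
  have h1 : Nat.card (NV (isPP_of_isQ h2 hq)) =
      Set.ncard ((NV (isPP_of_isQ h2 hq) : Subgroup (PG F)) : Set (PG F)) :=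
    Nat.card_coe_set_eq _
  have hV : Nat.card V = 4 := card_fourOf _
  have h3 : Set.ncard (Set.range φ) ≤ Nat.card (Fin 3 × Fin 2 × V) := by
    rw [← Set.image_univ]
    refine (Set.ncard_image_le (Set.toFinite _)).trans ?_
    rw [Set.ncard_univ]
  have h4 : Nat.card (Fin 3 × Fin 2 × V) = 24 := by
    rw [Nat.card_prod, Nat.card_prod, hV]
    simp
  rw [h1]
  calc _ ≤ Set.ncard (Set.range φ) := Set.ncard_le_ncard hsub (Set.toFinite _)
    _ ≤ 24 := by omega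

lemma LL_ne_top (hodd : Odd (Fintype.card F)) : LL F ≠ ⊤ := by
  intro h
  have h1 := index_LL (F := F) hodd
  rw [h, Subgroup.index_top] at h1
  omega

lemma not_le_LL (hodd : Odd (Fintype.card F)) {M : Subgroup (PG F)} (hM : IsCoatom M) (hML : ¬ LL F ≤ M) :
    ¬ M ≤ LL F := by
  intro h
  exact hML (eq_of_coatom_le hM h (LL_ne_top hodd)).symm.le

lemma le_NV_of_char {M : Subgroup (PG F)} {a b : PSL(2, F)} {hP : IsPP a b}
    (h : ∀ X : GL (Fin 2) F, mkG X ∈ M → ∀ z ∈ fourOf a b hP, ∃ z' ∈ fourOf a b hP, mkG X * psi z * (mkG X)⁻¹ = psi z') :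
    M ≤ NV hP := by
  intro g hg
  obtain ⟨X, rfl⟩ := Matrix.ProjGenLinGroup.mk_surjective g
  exact mem_NV_of_forall (h X hg)

lemma psi_f_mem_NV {a b f : PSL(2, F)} (hP : IsPP a b) (hf1 : f * a * f⁻¹ = b) (hf2 : f * b * f⁻¹ = a * b) :
    psi f ∈ NV hP := by
  apply mem_NV_of_forall
  intro z hz
  rcases hz with h | h | h | h <;> rw [h]
  · exact ⟨1, Or.inl rfl, by simp⟩
  · exact ⟨b, right_mem hP, by rw [← map_inv, ← map_mul, ← map_mul, hf1]⟩
  · exact ⟨a * b, Or.inr (Or.inr (Or.inr rfl)), by rw [← map_inv, ← map_mul, ← map_mul, hf2]⟩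
  · refine ⟨a, left_mem hP, ?_⟩
    have h1 : f * (a * b) * f⁻¹ = a := by
      have : f * (a * b) * f⁻¹ = (f * a * f⁻¹) * (f * b * f⁻¹) := by group
      rw [this, hf1, hf2, ← mul_assoc, hP.comm.symm, mul_assoc, hP.bb, mul_one]
    rw [← map_inv, ← map_mul, ← map_mul, h1]

theorem no_klein (hodd : Odd (Fintype.card F)) (h5 : 5 ≤ Fintype.card F) {M : Subgroup (PG F)} (hM : IsCoatom M)
    (hc : Nat.card (M0 M) = 4) (hexp : ∀ x ∈ M0 M, x * x = 1) : False := by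
  have h2F : (2 : F) ≠ 0 := Cfsg.Agent.Lib.PSL2.TorusCore.two_ne_zero_of_odd_card hodd
  haveI := isSimple_psl h5
  obtain ⟨a, b, hP, hV⟩ := exists_pair_of_isKleinFour (M0 M) (Order168.isKleinFour_of_exponent hc hexp)
  have hle : M ≤ NV hP := by
    apply le_NV_of_char
    intro X hX z hz
    rw [← hV] at hz ⊢
    obtain ⟨S, rfl⟩ := mkP_surjective z
    exact ⟨_, cj_mem_M0 hX hz, conj_psi X S⟩
  have heq := eq_of_coatom_le hM hle (NV_ne_top h5 hP)
  obtain ⟨f, hf0, hf1, hf2⟩ := exists_order_three h2F hP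
  have h1 : psi f ∈ M := by
    rw [heq]
    exact psi_f_mem_NV hP hf1 hf2
  have h2 : f * f = 1 := hexp f h1
  rw [h2, one_mul] at hf0
  subst hf0
  apply hP.ab
  simpa using hf1

end Klein

section Sub

variable {K F : Type*} [Field K] [Fintype K] [Field F] [Fintype F]

/-- The natural map of projective general linear groups. -/
def pglMap (ι : K →+* F) : PG K →* PG F := Matrix.ProjGenLinGroup.map ι

/-- The standard copy of `PGL(2, K)`. -/
def pgl (ι : K →+* F) : Subgroup (PG F) := (pglMap ι).range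

lemma pglMap_mk (ι : K →+* F) (Y : GL (Fin 2) K) :
    pglMap ι (mkG Y) = mkG (Matrix.GeneralLinearGroup.map ι Y) := rfl

lemma pglMap_injective (ι : K →+* F) : Function.Injective (pglMap ι) := by
  rw [injective_iff_map_eq_one]
  intro a ha
  obtain ⟨Y, rfl⟩ := Matrix.ProjGenLinGroup.mk_surjective a
  rw [pglMap_mk, Matrix.ProjGenLinGroup.mk_eq_one, Matrix.GeneralLinearGroup.mem_center_iff_val_mem_range_scalar] at ha
  obtain ⟨c, hc⟩ := ha
  have e : ∀ i j, ι (Y.val i j) = Matrix.scalar (Fin 2) c i j := by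
    intro i j
    rw [hc]
    rfl
  rw [Matrix.ProjGenLinGroup.mk_eq_one, Matrix.GeneralLinearGroup.mem_center_iff_val_mem_range_scalar]
  refine ⟨Y.val 1 1, ?_⟩
  have e00 := e 0 0
  have e01 := e 0 1
  have e10 := e 1 0
  have e11 := e 1 1
  simp [Matrix.scalar_apply, Matrix.diagonal_apply] at e00 e01 e10 e11
  have e3 : Y.val 0 0 = Y.val 1 1 := ι.injective (by rw [e00, e11])
  ext i j
  fin_cases i <;> fin_cases j <;> simp [Matrix.scalar_apply, Matrix.diagonal_apply, e01, e10, e3]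

lemma card_pgl (ι : K →+* F) : Nat.card (pgl ι) = Fintype.card K * (Fintype.card K ^ 2 - 1) := by
  rw [← card_PGL K]
  exact (Nat.card_congr (MonoidHom.ofInjective (pglMap_injective ι)).toEquiv).symm

lemma psi_pslMap (ι : K →+* F) (u : PSL(2, K)) : psi (pslMap ι u) = pglMap ι (psi u) := by
  obtain ⟨S, rfl⟩ := mkP_surjective u
  rw [pslMap_mk, psi_mkP, psi_mkP, pglMap_mk]
  congr 1
  apply Units.ext
  ext i j
  rfl

lemma stdPsl_le_pgl (ι : K →+* F) : stdPsl ι ≤ M0 (pgl ι) := by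
  rintro _ ⟨u, rfl⟩
  show psi (pslMap ι u) ∈ pgl ι
  rw [psi_pslMap]
  exact ⟨_, rfl⟩

lemma pgl_comp {L : Type*} [Field L] (j : K →+* L) (ι : L →+* F) : pgl (ι.comp j) ≤ pgl ι := by
  rintro _ ⟨a, rfl⟩
  refine ⟨pglMap j a, ?_⟩
  obtain ⟨Y, rfl⟩ := Matrix.ProjGenLinGroup.mk_surjective a
  rfl

theorem NV_le_pgl (ι : K →+* F) (h2K : (2 : K) ≠ 0) (h2F : (2 : F) ≠ 0) {A₀ B₀ : SL(2, K)} (h₀ : IsQ A₀ B₀) :
    NV (isPP_of_isQ h2F (IsQ.mapι' ι h₀)) ≤ pgl ι := by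
  obtain ⟨f₀, hf0, hf1, hf2⟩ := exists_order_three h2K (isPP_of_isQ h2K h₀)
  have hf0' : pslMap ι f₀ * pslMap ι f₀ * pslMap ι f₀ = 1 := by
    rw [← map_mul, ← map_mul, hf0, map_one]
  have hf1' : pslMap ι f₀ * mkP (mapι ι A₀) * (pslMap ι f₀)⁻¹ = mkP (mapι ι B₀) := by
    rw [← pslMap_mk, ← pslMap_mk, ← map_inv, ← map_mul, ← map_mul, hf1]
  have hf2' : pslMap ι f₀ * mkP (mapι ι B₀) * (pslMap ι f₀)⁻¹ = mkP (mapι ι A₀) * mkP (mapι ι B₀) := by
    rw [← pslMap_mk, ← pslMap_mk, ← map_inv, ← map_mul, ← map_mul, hf2, map_mul]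
  have hstd : ∀ u : PSL(2, K), psi (pslMap ι u) ∈ pgl ι := fun u => stdPsl_le_pgl ι ⟨u, rfl⟩
  intro g hg
  obtain ⟨i, j, hi, hj, z, hz, e⟩ := NV_form h2F (IsQ.mapι' ι h₀) hf0' hf1' hf2' hg
  rw [e]
  refine (pgl ι).mul_mem ((pgl ι).mul_mem ((pgl ι).pow_mem (hstd f₀) i) ((pgl ι).pow_mem ?_ j)) ?_
  · refine ⟨mkG (onePlus h2K A₀ h₀.tra), ?_⟩
    rw [pglMap_mk]
    congr 1
    apply Units.ext
    ext a b
    fin_cases a <;> fin_cases b <;> simp [onePlus_val, Matrix.GeneralLinearGroup.map]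
  · rcases hz with rfl | rfl | rfl | rfl
    · rw [map_one]
      exact one_mem _
    · rw [← pslMap_mk]
      exact hstd _
    · rw [← pslMap_mk]
      exact hstd _
    · rw [← pslMap_mk, ← pslMap_mk, ← map_mul]
      exact hstd _

end Sub

end Cfsg.Agent.Lib.PSL2.MaxPgl
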