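import Cfsg.Agent.Lib.PSL2.MaxPgl2

/-!
# Maximal subgroups of `PGL(2, F)`: subfield subgroups
-/

set_option autoImplicit false
set_option linter.unusedSectionVars false
set_option linter.unusedSimpArgs false
set_option linter.unusedVariables false
set_option linter.style.haveILetI false

namespace Cfsg.Agent.Lib.PSL2.MaxPgl

open Matrix Matrix.SpecialLinearGroup Subgroup
open scoped MatrixGroups
open Cfsg.Agent.Lib.PSL2.Basic Cfsg.Agent.Lib.PSL2.Conj Cfsg.Agent.Lib.PSL2.Members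
open Cfsg.Agent.Lib.PSL2.FourGroup Cfsg.Agent.Lib.PSL2.KleinPairs Cfsg.Agent.Lib.PSL2.Icosian
open Cfsg.Agent.Lib.PSL2.A5Gen Cfsg.Agent.Lib.PSL2.FieldEmbed
open Cfsg.Agent.Lib.PSL2.DicksonCor Cfsg.Agent.Lib.PSL2.Overgroups Cfsg.Agent.Lib.PSL2.Position
open Cfsg.Agent.Lib.PSL2.MinimalSimple Cfsg.Agent.Lib.PSL2.DihedralMax Cfsg.Agent.Lib.PSL2.Solubilizer
open Cfsg.Agent.Lib.PSL2.BorelMax Cfsg.Agent.Lib.PSL2.Reduction Cfsg.Agent.Lib.PSL2.MaxOdd
open Cfsg.Agent.Lib.PSL2.KleinAut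

section Sub

variable {K F : Type*} [Field K] [Fintype K] [Field F] [Fintype F]

lemma gl_inv_val (Y : GL (Fin 2) F) :
    (Y⁻¹).val = (Y.val 0 0 * Y.val 1 1 - Y.val 0 1 * Y.val 1 0)⁻¹ • !![Y.val 1 1, -Y.val 0 1; -Y.val 1 0, Y.val 0 0] := by
  rw [Matrix.coe_units_inv, Matrix.inv_def, Matrix.adjugate_fin_two, Matrix.det_fin_two, Ring.inverse_eq_inv']

lemma entries_of_mem_stdPsl (ι : K →+* F) {Z : SL(2, F)} (hZ : mkP Z ∈ stdPsl ι) (i j : Fin 2) :
    Z.1 i j ∈ ι.range := by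
  obtain ⟨u, hu⟩ := hZ
  obtain ⟨S, rfl⟩ := mkP_surjective u
  rw [pslMap_mk] at hu
  rcases mkP_eq_iff.1 hu with h | h
  · rw [h]
    exact ⟨S.1 i j, rfl⟩
  · rw [h]
    exact ⟨-S.1 i j, by rw [map_neg]; rfl⟩

theorem mem_pgl_of_conj (ι : K →+* F) (Y : GL (Fin 2) F) (h1 : mkP (cj Y (x 1)) ∈ stdPsl ι)
    (h2 : mkP (cj Y (y 1)) ∈ stdPsl ι) : mkG Y ∈ pgl ι := by
  classical
  have h3 : mkP (cj Y (x 1 * y 1)) ∈ stdPsl ι := by
    rw [cj_mul, map_mul]
    exact (stdPsl ι).mul_mem h1 h2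
  have hinv := gl_inv_val Y
  set a := Y.val 0 0 with ha
  set b := Y.val 0 1 with hb
  set c := Y.val 1 0 with hc
  set e := Y.val 1 1 with he
  set D := a * e - b * c with hD
  have hD0 : D ≠ 0 := by
    have := (Matrix.GeneralLinearGroup.det Y).ne_zero
    rwa [val_det_gl] at this
  set t := D⁻¹ with ht
  have hDt : D * t = 1 := mul_inv_cancel₀ hD0
  have ev : ∀ (S : SL(2, F)) (i j : Fin 2), (cj Y S).1 i j = (Y.val * S.1 * (Y⁻¹).val) i j := fun _ _ _ => rfl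
  have m100 := entries_of_mem_stdPsl ι h1 0 0
  have m101 := entries_of_mem_stdPsl ι h1 0 1
  have m110 := entries_of_mem_stdPsl ι h1 1 0
  have m200 := entries_of_mem_stdPsl ι h2 0 0
  have m201 := entries_of_mem_stdPsl ι h2 0 1
  have m210 := entries_of_mem_stdPsl ι h2 1 0
  have m300 := entries_of_mem_stdPsl ι h3 0 0
  have m301 := entries_of_mem_stdPsl ι h3 0 1
  have m310 := entries_of_mem_stdPsl ι h3 1 0
  simp only [ev, hinv] at m100 m101 m110 m200 m201 m210 m300 m301 m310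
  simp [Matrix.mul_apply, Fin.sum_univ_two, ← ha, ← hb, ← hc, ← he, ← hD, ← ht] at m100 m101 m110 m200 m201 m210 m300 m301 m310
  rw [hD] at hDt
  obtain ⟨r100, h100⟩ := m100
  obtain ⟨r101, h101⟩ := m101
  obtain ⟨r110, h110⟩ := m110
  obtain ⟨r200, h200⟩ := m200
  obtain ⟨r201, h201⟩ := m201
  obtain ⟨r210, h210⟩ := m210
  obtain ⟨r300, h300⟩ := m300
  obtain ⟨r301, h301⟩ := m301
  obtain ⟨r310, h310⟩ := m310
  have Rac : ∃ s, a * c * t = ι s := ⟨1 - r100, by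
    rw [map_sub, map_one, h100]; linear_combination hDt⟩
  have Raa : ∃ s, a * a * t = ι s := ⟨r101, by rw [h101]; ring⟩
  have Rcc : ∃ s, c * c * t = ι s := ⟨-r110, by rw [map_neg, h110]; ring⟩
  have Rbe : ∃ s, b * e * t = ι s := ⟨r200 - 1, by
    rw [map_sub, map_one, h200]; linear_combination -hDt⟩
  have Rbb : ∃ s, b * b * t = ι s := ⟨-r201, by rw [map_neg, h201]; ring⟩
  have Ree : ∃ s, e * e * t = ι s := ⟨r210, by rw [h210]; ring⟩
  obtain ⟨sac, hac⟩ := Rac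
  obtain ⟨sbe, hbe⟩ := Rbe
  obtain ⟨saa, haa⟩ := Raa
  obtain ⟨sbb, hbb⟩ := Rbb
  obtain ⟨scc, hcc⟩ := Rcc
  obtain ⟨see, hee⟩ := Ree
  have Rae : ∃ s, a * e * t = ι s := ⟨r300 - 1 - sbe + sac, by
    rw [map_add, map_sub, map_sub, map_one, h300, ← hbe, ← hac]; linear_combination -hDt⟩
  have Rab : ∃ s, a * b * t = ι s := ⟨saa - sbb - r301, by
    rw [map_sub, map_sub, h301, ← haa, ← hbb]; ring⟩
  have Rce : ∃ s, c * e * t = ι s := ⟨r310 - see + scc, by
    rw [map_add, map_sub, h310, ← hee, ← hcc]; ring⟩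
  obtain ⟨sae, hae⟩ := Rae
  have Rbc : ∃ s, b * c * t = ι s := ⟨sae - 1, by
    rw [map_sub, map_one, ← hae]; linear_combination -hDt⟩
  have comm : ∀ u v : F, (∃ s, u * v * t = ι s) → ∃ s, v * u * t = ι s := by
    rintro u v ⟨s, h⟩
    exact ⟨s, by rw [mul_comm v u]; exact h⟩
  have key : ∀ i j k l, ∃ s, Y.val i j * Y.val k l * t = ι s := by
    simp only [Fin.forall_fin_two, ← ha, ← hb, ← hc, ← he]
    exact ⟨⟨⟨⟨⟨saa, haa⟩, Rab⟩, ⟨⟨sac, hac⟩, ⟨sae, hae⟩⟩⟩, ⟨⟨comm _ _ Rab, ⟨sbb, hbb⟩⟩, ⟨Rbc, ⟨sbe, hbe⟩⟩⟩⟩,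
      ⟨⟨⟨comm _ _ ⟨sac, hac⟩, comm _ _ Rbc⟩, ⟨⟨scc, hcc⟩, Rce⟩⟩, ⟨⟨comm _ _ ⟨sae, hae⟩, comm _ _ ⟨sbe, hbe⟩⟩, ⟨comm _ _ Rce, ⟨see, hee⟩⟩⟩⟩⟩
  obtain ⟨i₀, j₀, hij⟩ : ∃ i₀ j₀, Y.val i₀ j₀ ≠ 0 := by
    by_contra hcon
    push Not at hcon
    apply hD0
    rw [hD, ha, hb, hc, he, hcon 0 0, hcon 0 1]
    ring
  have ht0 : t ≠ 0 := inv_ne_zero hD0
  set r := Y.val i₀ j₀ * t with hr
  have hr0 : r ≠ 0 := mul_ne_zero hij ht0
  have key2 : ∀ i j, ∃ s, r * Y.val i j = ι s := by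
    intro i j
    obtain ⟨s, hs⟩ := key i₀ j₀ i j
    exact ⟨s, by rw [← hs, hr]; ring⟩
  choose s hs using key2
  have hdet : (Matrix.of fun i j => s i j).det ≠ 0 := by
    intro h0
    rw [Matrix.det_fin_two] at h0
    simp only [Matrix.of_apply] at h0
    have h4 := congrArg ι h0
    rw [map_sub, map_mul, map_mul, map_zero, ← hs, ← hs, ← hs, ← hs, ← ha, ← hb, ← hc, ← he] at h4
    have h5 : r * r * (a * e - b * c) = 0 := by linear_combination h4
    rw [← hD] at h5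
    exact (mul_ne_zero (mul_ne_zero hr0 hr0) hD0) h5
  refine ⟨mkG (Matrix.GeneralLinearGroup.mkOfDetNeZero _ hdet), ?_⟩
  rw [pglMap_mk]
  symm
  rw [Matrix.ProjGenLinGroup.mk_eq_mk_iff]
  refine ⟨Units.mk0 r hr0, ?_⟩
  apply Units.ext
  ext i j
  have h6 := hs i j
  show (Y.val * Matrix.scalar (Fin 2) r) i j = ι (s i j)
  rw [← h6]
  simp [Matrix.mul_apply, Fin.sum_univ_two, Matrix.scalar_apply, Matrix.diagonal_apply]
  fin_cases j <;> simp [mul_comm]

lemma mem_of_odd_pow {G : Type*} [Group G] [Finite G] {S H : Subgroup G} (hle : S ≤ H)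
    (hc : 2 * Nat.card S = Nat.card H) {z : G} (hz : z ∈ H) {n : ℕ} (hn : Odd n) (hz1 : z ^ n = 1) : z ∈ S := by
  have hidx : (S.subgroupOf H).index = 2 := by
    have h1 := (S.subgroupOf H).index_mul_card
    have h2 : Nat.card (S.subgroupOf H) = Nat.card S := Nat.card_congr (Subgroup.subgroupOfEquivOfLe hle).toEquiv
    rw [h2, ← hc] at h1
    exact Nat.eq_of_mul_eq_mul_right Nat.card_pos h1
  obtain ⟨k, rfl⟩ := hn
  have h1 : (⟨z, hz⟩ : H) ^ 2 ∈ S.subgroupOf H := Subgroup.sq_mem_of_index_two hidx _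
  have h2 : z ^ 2 ∈ S := h1
  have h3 : z = (z ^ 2) ^ (k + 1) := by
    rw [← pow_mul, show 2 * (k + 1) = (2 * k + 1) + 1 by ring, pow_succ, hz1, one_mul]
  rw [h3]
  exact S.pow_mem h2 _

lemma cj_pow (Y : GL (Fin 2) F) (S : SL(2, F)) (n : ℕ) : cj Y (S ^ n) = (cj Y S) ^ n := by
  induction n with
  | zero => rw [pow_zero, pow_zero, cj_one]
  | succ k ih => rw [pow_succ, pow_succ, cj_mul, ih]

theorem le_pgl_of_pos (p : ℕ) [Fact p.Prime] [CharP F p] (hodd : Odd (Fintype.card F)) {M' : Subgroup (PG F)}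
    (ι : K →+* F) (hle : stdPsl ι ≤ M0 M')
    (h : M0 M' = stdPsl ι ∨ 2 * Nat.card (stdPsl ι) = Nat.card (M0 M')) : M' ≤ pgl ι := by
  intro g hg
  obtain ⟨Y, rfl⟩ := Matrix.ProjGenLinGroup.mk_surjective g
  have key : ∀ S : SL(2, F), mkP S ∈ stdPsl ι → S ^ p = 1 → mkP (cj Y S) ∈ stdPsl ι := by
    intro S hS hSp
    have h1 := cj_mem_M0 hg (hle hS)
    rcases h with h | h
    · rwa [h] at h1
    · refine mem_of_odd_pow hle h h1 (n := p) (Nat.odd_iff.2 (p_odd (F := F) p hodd)) ?_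
      rw [← map_pow, ← cj_pow, hSp, cj_one, map_one]
  apply mem_pgl_of_conj
  · apply key
    · refine ⟨mkP (x 1), ?_⟩
      rw [pslMap_mk, mapι_x, map_one]
    · exact x_pow_char p 1
  · apply key
    · refine ⟨mkP (y 1), ?_⟩
      rw [pslMap_mk, mapι_y, map_one]
    · rw [y_pow, CharP.cast_eq_zero, zero_mul]
      apply ext2 <;> simp [y]

lemma card_mono {k l : ℕ} (hk : 2 ≤ k) (h : k < l) : k * (k ^ 2 - 1) < l * (l ^ 2 - 1) := by
  have h1 : k ^ 2 ≤ l ^ 2 := Nat.pow_le_pow_left h.le 2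
  have h2 : 1 ≤ k ^ 2 := Nat.one_le_pow _ _ (by omega)
  have h3 : 1 ≤ k ^ 2 - 1 := by
    have : 2 ^ 2 ≤ k ^ 2 := Nat.pow_le_pow_left hk 2
    omega
  calc k * (k ^ 2 - 1) < l * (k ^ 2 - 1) := Nat.mul_lt_mul_of_pos_right h h3
    _ ≤ l * (l ^ 2 - 1) := Nat.mul_le_mul_left _ (by omega)

lemma pgl_ne_top' (ι : K →+* F) (h : Fintype.card K < Fintype.card F) : pgl ι ≠ ⊤ := by
  intro e
  have h1 := card_pgl ι
  rw [e, Subgroup.card_top, card_PGL] at h1
  have := card_mono (card_ge_two K) h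
  omega

theorem odd_prime_of_coatom (hoddF : Odd (Fintype.card F)) (ι : K →+* F) {m : ℕ}
    (hm : Fintype.card K ^ m = Fintype.card F) (hc : IsCoatom (pgl ι)) (hL : ¬ LL F ≤ pgl ι) :
    m.Prime ∧ Odd m := by
  classical
  obtain ⟨p, hp, hchar⟩ := exists_char F
  haveI : Fact p.Prime := ⟨hp⟩
  haveI hcK : CharP K p := (RingHom.charP_iff ι ι.injective p).2 hchar
  have hq := card_ge_two K
  have hq' := card_ge_two F
  have hm0 : m ≠ 0 := by
    rintro rfl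
    rw [pow_zero] at hm
    omega
  have hoK : Fintype.card K % 2 = 1 := by
    rcases Nat.even_or_odd (Fintype.card K) with h | h
    · exfalso
      rw [← hm] at hoddF
      exact (Nat.not_odd_iff_even.2 (h.pow_of_ne_zero hm0)) hoddF
    · exact Nat.odd_iff.1 h
  have hm1 : m ≠ 1 := by
    rintro rfl
    rw [pow_one] at hm
    apply hc.1
    apply Subgroup.eq_top_of_card_eq
    rw [card_pgl, card_PGL, hm]
  have hodd : Odd m := by
    rcases Nat.even_or_odd' m with ⟨j, hj | hj⟩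
    · exfalso
      have hj' : (Fintype.card K ^ 2) ^ j = Fintype.card F := by
        rw [← pow_mul, ← hj, hm]
      apply hL
      have hle : pgl ι ≤ LL F := by
        rintro _ ⟨a, rfl⟩
        obtain ⟨Y, rfl⟩ := Matrix.ProjGenLinGroup.mk_surjective a
        rw [pglMap_mk]
        obtain ⟨r, hr0, hr⟩ := exists_sqrt (j := j) ι hj' hoK ((Matrix.GeneralLinearGroup.det Y : Kˣ) : K)
          (Matrix.GeneralLinearGroup.det Y).ne_zero
        rw [val_det_gl] at hr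
        have hdetZ : (r⁻¹ * ι (Y.val 0 0)) * (r⁻¹ * ι (Y.val 1 1)) - (r⁻¹ * ι (Y.val 0 1)) * (r⁻¹ * ι (Y.val 1 0)) = 1 := by
          rw [map_sub, map_mul, map_mul] at hr
          field_simp
          linear_combination -hr
        refine ⟨sl2 _ _ _ _ hdetZ, ?_⟩
        show mkG (toGL (sl2 _ _ _ _ hdetZ)) = _
        rw [Matrix.ProjGenLinGroup.mk_eq_mk_iff]
        refine ⟨Units.mk0 r hr0, ?_⟩
        apply Units.ext
        ext i j
        show ((sl2 _ _ _ _ hdetZ).1 * Matrix.scalar (Fin 2) r) i j = ι (Y.val i j)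
        fin_cases i <;> fin_cases j <;>
          simp [Matrix.mul_apply, Fin.sum_univ_two, Matrix.scalar_apply, Matrix.diagonal_apply, hr0] <;> field_simp
      exact (eq_of_coatom_le hc hle (LL_ne_top hoddF)).symm.le
    · exact ⟨j, hj⟩
  refine ⟨?_, hodd⟩
  by_contra hnp
  set r := m.minFac with hr
  have hrp : r.Prime := Nat.minFac_prime hm1
  obtain ⟨s, hs⟩ := Nat.minFac_dvd m
  rw [← hr] at hs
  have hs2 : 2 ≤ s := by
    by_contra hcon
    have h0 : s = 0 ∨ s = 1 := by omega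
    rcases h0 with rfl | rfl
    · rw [mul_zero] at hs
      exact hm0 hs
    · rw [mul_one] at hs
      rw [hs] at hnp
      exact hnp hrp
  obtain ⟨e, -, he⟩ := FiniteField.card K p
  set Q := Fintype.card K ^ r with hQ
  have hQp : Q = p ^ ((e : ℕ) * r) := by
    rw [hQ, he, pow_mul]
  have hqQ : Fintype.card F = Q ^ s := by
    rw [← hm, hs, pow_mul]
  have hdvd : p ^ ((e : ℕ) * r) - 1 ∣ Fintype.card F - 1 := by
    rw [← hQp, hqQ]
    simpa using Nat.sub_dvd_pow_sub_pow Q 1 s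
  obtain ⟨L, hL', hLc⟩ := exists_subfield p ((e : ℕ) * r) hdvd
  rw [← hQp] at hLc
  letI : Fintype L := Fintype.ofFinite _
  have hLc' : Fintype.card L = Q := by rw [← Nat.card_eq_fintype_card, hLc]
  have hmem : ∀ a : K, ι a ∈ L := by
    intro a
    rw [hL', ← hQp, hQ, ← map_pow, FiniteField.pow_card_pow]
  let j : K →+* L := ι.codRestrict L hmem
  have hcomp : L.subtype.comp j = ι := by
    ext a
    rfl
  have hle : pgl ι ≤ pgl L.subtype := by
    have := pgl_comp j L.subtype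
    rwa [hcomp] at this
  have hQ2 : 2 ≤ Q := by
    rw [← hLc']
    exact card_ge_two L
  have hlt : Fintype.card L < Fintype.card F := by
    rw [hLc', hqQ]
    calc Q = Q ^ 1 := (pow_one _).symm
      _ < Q ^ s := Nat.pow_lt_pow_right (by omega) (by omega)
  have hne : pgl L.subtype ≠ ⊤ := pgl_ne_top' L.subtype hlt
  have heq := eq_of_coatom_le hc hle hne
  have h1 := card_pgl ι
  rw [heq, card_pgl] at h1
  have hlt' : Fintype.card K < Fintype.card L := by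
    rw [hLc', hQ]
    calc Fintype.card K = Fintype.card K ^ 1 := (pow_one _).symm
      _ < Fintype.card K ^ r := Nat.pow_lt_pow_right (by omega) hrp.one_lt
  have := card_mono hq hlt'
  omega

theorem pos_conclusion (p : ℕ) [Fact p.Prime] [CharP F p] (hodd : Odd (Fintype.card F)) {M' : Subgroup (PG F)}
    (hM' : IsCoatom M') (hL' : ¬ LL F ≤ M') (ι : K →+* F) {m : ℕ} (hm : Fintype.card K ^ m = Fintype.card F)
    (hle : stdPsl ι ≤ M0 M') (h : M0 M' = stdPsl ι ∨ 2 * Nat.card (stdPsl ι) = Nat.card (M0 M')) :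
    m.Prime ∧ Odd m ∧ M' = pgl ι := by
  have h1 := le_pgl_of_pos p hodd ι hle h
  have hq := card_ge_two K
  have hq' := card_ge_two F
  have hm0 : m ≠ 0 := by
    rintro rfl
    rw [pow_zero] at hm
    omega
  have hm1 : m ≠ 1 := by
    rintro rfl
    rw [pow_one] at hm
    apply hL'
    have h2 : stdPsl ι = ⊤ := by
      apply Subgroup.eq_top_of_card_eq
      rw [card_stdPsl]
      exact card_PSL2_eq hm
    rw [← range_psi]
    rintro _ ⟨u, rfl⟩
    exact hle (h2 ▸ Subgroup.mem_top u)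
  have hlt : Fintype.card K < Fintype.card F := by
    rw [← hm]
    calc Fintype.card K = Fintype.card K ^ 1 := (pow_one _).symm
      _ < Fintype.card K ^ m := Nat.pow_lt_pow_right (by omega) (by omega)
  have heq := eq_of_coatom_le hM' h1 (pgl_ne_top' ι hlt)
  subst heq
  obtain ⟨h3, h4⟩ := odd_prime_of_coatom hodd ι hm hM' hL'
  exact ⟨h3, h4, rfl⟩

end Sub

end Cfsg.Agent.Lib.PSL2.MaxPgl
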