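import Cfsg.Agent.Lib.PSL2.MaxPgl3
import Cfsg.Agent.S1012

/-!
# Maximal subgroups of `PGL(2, F)`: the cases
-/

set_option autoImplicit false
set_option linter.unusedSectionVars false
set_option linter.unusedSimpArgs false
set_option linter.unusedVariables false
set_option linter.style.haveILetI false

namespace Cfsg.Agent.Lib.PSL2.MaxPgl

open Matrix Matrix.SpecialLinearGroup Subgroup
open scoped MatrixGroups
open Cfsg.Agent.Lib.PSL2.Basic Cfsg.Agent.Lib.PSL2.Conj Cfsg.Agent.Lib.PSL2.Members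
open Cfsg.Agent.Lib.PSL2.FourGroup Cfsg.Agent.Lib.PSL2.KleinPairs Cfsg.Agent.Lib.PSL2.Icosian
open Cfsg.Agent.Lib.PSL2.A5Gen Cfsg.Agent.Lib.PSL2.FieldEmbed
open Cfsg.Agent.Lib.PSL2.DicksonCor Cfsg.Agent.Lib.PSL2.Overgroups Cfsg.Agent.Lib.PSL2.Position
open Cfsg.Agent.Lib.PSL2.MinimalSimple Cfsg.Agent.Lib.PSL2.DihedralMax Cfsg.Agent.Lib.PSL2.Solubilizer
open Cfsg.Agent.Lib.PSL2.BorelMax Cfsg.Agent.Lib.PSL2.Reduction Cfsg.Agent.Lib.PSL2.MaxOdd
open Cfsg.Agent.Lib.PSL2.KleinAut Cfsg.Agent.Lib.PSL2.MemberCyc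

section Frame

open Cfsg.Agent.Lib.PSL2.Subfield Cfsg.Agent.Lib.PSL2.DPart
open Cfsg.Agent.Lib.PSL2.DCount Cfsg.Agent.Lib.PSL2.DClassify Cfsg.Agent.Lib.PSL2.Dickson

variable {F : Type*} [Field F] [Fintype F]

theorem dickson_frame_pos' (p : ℕ) [Fact p.Prime] [CharP F p] (H : Subgroup PSL(2, F)) :
    Nat.card H = 1 ∨
    (∃ A : SL(2, F), NC A ∧ disc A ≠ 0 ∧ H ≤ cbar A) ∨
    (∃ A : SL(2, F), NC A ∧ disc A ≠ 0 ∧ mkP A ∈ H ∧ (member H A).index = 2) ∨
    (∃ (g A : SL(2, F)) (ε : F) (hε : ε ≠ 0) (s : F), mkP A ∈ H ∧ T g A = b ε hε s ∧ s ≠ 0 ∧ ε * ε = 1 ∧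
      ∀ X, mkP X ∈ H → Up g X) ∨
    Nonempty (H ≃* alternatingGroup (Fin 4)) ∨ Nonempty (H ≃* Equiv.Perm (Fin 4)) ∨
    Nonempty (H ≃* alternatingGroup (Fin 5)) ∨ PosCase H := by
  rcases classify (dp H p) with h | h | ⟨M, hM, hS, hidx⟩ | ⟨M, hM, hP, hn⟩ | ⟨h, C, hC, hnn⟩ |
      ⟨h, L, hL, hcore⟩ | ⟨h, L, hL, hcore⟩ | ⟨M, hM, hP, hnn, -, hcard, hk⟩
  · exact Or.inl h
  · obtain ⟨A, hA, hAH, htop⟩ := h
    by_cases hd : disc A = 0
    · right; right; right; left
      obtain ⟨g, ε, hε, s, hg, hs, hε2⟩ := exists_frame hA hd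
      refine ⟨g, A, ε, hε, s, hAH, hg, hs, hε2, fun X hX => ?_⟩
      have h1 : (⟨mkP X, hX⟩ : H) ∈ member H A := by
        rw [← htop]
        trivial
      exact ((mem_member_iff hg hs hε2 rfl).1 h1).1
    · right; left
      refine ⟨A, hA, hd, fun x hx => ?_⟩
      have h1 : (⟨x, hx⟩ : H) ∈ member H A := by
        rw [← htop]
        trivial
      exact h1
  · obtain ⟨A, hA, hAH, rfl⟩ := hM
    right; right; left
    exact ⟨A, hA, disc_ne_zero_of_isS p hA hAH hS, hAH, hidx⟩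
  · obtain ⟨A, hA, hAH, rfl⟩ := hM
    right; right; right; left
    have hd := disc_eq_zero_of_isP p hA hAH hP
    obtain ⟨g, ε, hε, s, hg, hs, hε2⟩ := exists_frame hA hd
    refine ⟨g, A, ε, hε, s, hAH, hg, hs, hε2, fun X hX => ?_⟩
    have h1 : (⟨mkP X, hX⟩ : H) ∈ normalizer (member H A : Set H) := by
      rw [Subgroup.normalizer_eq_top_iff.2 hn]
      trivial
    exact up_of_mem_normalizer hg hs hε2 hAH h1 rfl
  · right; right; right; right; left
    exact CosetIso.nonempty_equiv_A4 C hC hnn h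
  · right; right; right; right; right; left
    have hidx : L.index = 4 := by
      have := L.index_mul_card
      rw [hL, h] at this
      omega
    exact CosetIso.nonempty_equiv_S4 L hidx hcore h
  · right; right; right; right; right; right; left
    have hidx : L.index = 5 := by
      have := L.index_mul_card
      rw [hL, h] at this
      omega
    exact CosetIso.nonempty_equiv_A5 L hidx hcore h
  · obtain ⟨A, hA, hAH, rfl⟩ := hM
    right; right; right; right; right; right; right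
    exact case_last_pos (p := p) hA hAH hP hnn hcard hk

end Frame

section Cases

variable {F : Type*} [Field F] [Fintype F]

theorem no_trivial (hodd : Odd (Fintype.card F)) (h5 : 5 ≤ Fintype.card F) {M : Subgroup (PG F)} (hM : IsCoatom M)
    (hML : ¬ LL F ≤ M) (h : Nat.card (M0 M) = 1) : False := by
  have hnL := not_le_LL hodd hM hML
  have hc := card_eq_two_mul hodd hnL
  rw [h] at hc
  haveI : Fact (Nat.Prime 2) := ⟨Nat.prime_two⟩
  have hpg : IsPGroup 2 M := IsPGroup.of_card (n := 1) (by rw [hc]; norm_num)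
  obtain ⟨Q, hQ⟩ := hpg.exists_le_sylow
  have hG := card_PGL F
  have h8 : 2 ^ 3 ∣ Nat.card (PG F) := by
    rw [hG]
    apply Dvd.dvd.mul_left
    have hq : Fintype.card F % 8 = 1 ∨ Fintype.card F % 8 = 3 ∨ Fintype.card F % 8 = 5 ∨ Fintype.card F % 8 = 7 := by
      have := Nat.odd_iff.1 hodd
      omega
    have h1 : Fintype.card F ^ 2 % 8 = 1 := by
      rw [Nat.pow_mod]
      rcases hq with h | h | h | h <;> rw [h]
    have h2 : 1 ≤ Fintype.card F ^ 2 := Nat.one_le_pow _ _ (by omega)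
    norm_num
    omega
  have hQ8 := Sylow.pow_dvd_card_of_pow_dvd_card Q h8
  have hne : (Q : Subgroup (PG F)) ≠ ⊤ := by
    intro e
    obtain ⟨k, hk⟩ := IsPGroup.iff_card.1 Q.isPGroup'
    have h1 : Nat.card (Q : Subgroup (PG F)) = Nat.card (PG F) := by
      rw [e, Subgroup.card_top]
    have h2 : Fintype.card F ∣ 2 ^ k := by
      rw [← hk]
      show Fintype.card F ∣ Nat.card (Q : Subgroup (PG F))
      rw [h1, hG]
      exact Dvd.intro _ rfl
    obtain ⟨j, -, hj⟩ := (Nat.dvd_prime_pow Nat.prime_two).1 h2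
    rcases j with _ | j
    · rw [pow_zero] at hj
      omega
    · have := Nat.odd_iff.1 hodd
      rw [hj, pow_succ] at this
      omega
  have heq := eq_of_coatom_le hM hQ hne
  have h3 : Nat.card (Q : Subgroup (PG F)) = 2 := by
    rw [← heq]
    exact hc
  have h4 : 2 ^ 3 ∣ 2 := by
    have : 2 ^ 3 ∣ Nat.card (Q : Subgroup (PG F)) := hQ8
    rwa [h3] at this
  norm_num at h4

lemma Nz_ne_top (hodd : Odd (Fintype.card F)) (h5 : 5 ≤ Fintype.card F) {A : SL(2, F)} (hA : NC A) (hd : disc A ≠ 0) :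
    Nz A ≠ ⊤ := by
  have hcb := (MemberCyc.cbar_cyclic hA hd).2
  rw [gcd_two_odd (Nat.odd_iff.1 hodd)] at hcb
  have hcard := two_mul_card hodd
  have hbig2 : Fintype.card F + 1 < Fintype.card F * (Fintype.card F ^ 2 - 1) := by
    have h3 : 4 ≤ Fintype.card F ^ 2 - 1 := by
      have : 5 ^ 2 ≤ Fintype.card F ^ 2 := Nat.pow_le_pow_left h5 2
      omega
    nlinarith
  apply normalizer_ne_top_of_card' h5
  · intro h1
    have h3 : cbar A = ⊥ := (Subgroup.eq_bot_of_card_eq (cbar A) h1)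
    have h4 : mkP A ∈ cbar A := mkP_mem_cbar.2 rfl
    rw [h3, Subgroup.mem_bot] at h4
    exact mkP_ne_one hA h4
  · apply ne_top_of_card
    intro h1
    rw [h1] at hcb
    rcases hcb with h3 | h3 <;> omega

lemma NG_ne_top (hodd : Odd (Fintype.card F)) (h5 : 5 ≤ Fintype.card F) {A : SL(2, F)} (hA : NC A) (hd : disc A ≠ 0) :
    NG A ≠ ⊤ := by
  intro e
  have h1 := comap_NG A
  rw [e, Subgroup.comap_top] at h1
  exact Nz_ne_top hodd h5 hA hd h1.symm

lemma sq_of_not_cbar {A : SL(2, F)} (hA : NC A) (hd : disc A ≠ 0) {y : PSL(2, F)} (hy : y ∈ Nz A)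
    (hn : y ∉ cbar A) : y * y = 1 := by
  obtain ⟨Y, rfl⟩ := mkP_surjective y
  have h1 : mkP Y * mkP A * (mkP Y)⁻¹ ∈ cbar A := (mem_normalizer_iff.1 hy _).1 (mkP_mem_cbar.2 rfl)
  rw [← map_inv, ← map_mul, ← map_mul, mkP_mem_cbar] at h1
  rcases eq_or_eq_inv_of_commute hA hd (tr_conj Y A) (nc_conj hA Y) h1 with h | h
  · exfalso
    apply hn
    rw [mkP_mem_cbar]
    rw [mul_inv_eq_iff_eq_mul] at h
    exact h.symm
  · exact y_sq hA h

theorem le_NG_of_le_cbar {M : Subgroup (PG F)} {A : SL(2, F)} (hA : NC A) (hne : Nat.card (M0 M) ≠ 1)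
    (hle : M0 M ≤ cbar A) : M ≤ NG A := by
  obtain ⟨z, hz⟩ : ∃ z : M0 M, z ≠ 1 := by
    by_contra hcon
    push Not at hcon
    apply hne
    rw [Nat.card_eq_one_iff_unique]
    exact ⟨⟨fun a b => by rw [hcon a, hcon b]⟩, ⟨1⟩⟩
  obtain ⟨Z, hZ⟩ := mkP_surjective z.1
  have hNC : NC Z := nc_of_lift hZ hz
  have hZM : mkP Z ∈ M0 M := hZ ▸ z.2
  intro g hg
  obtain ⟨X, rfl⟩ := Matrix.ProjGenLinGroup.mk_surjective g
  exact mem_NG_of_comm hA hNC (mkP_mem_cbar.1 (hle hZM)) (mkP_mem_cbar.1 (hle (cj_mem_M0 hg hZM)))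

theorem le_NG_of_index_two (hodd : Odd (Fintype.card F)) (h5 : 5 ≤ Fintype.card F) {M : Subgroup (PG F)}
    (hM : IsCoatom M) {A : SL(2, F)} (hA : NC A) (hd : disc A ≠ 0) (hAM : mkP A ∈ M0 M)
    (hidx : (member (M0 M) A).index = 2) : M ≤ NG A := by
  have hleNz := le_Nz_of_index_two hA hd hAM hidx
  by_cases hz : ∃ Z : SL(2, F), mkP Z ∈ M0 M ∧ A * Z = Z * A ∧ mkP Z * mkP Z ≠ 1
  · obtain ⟨Z, hZ, hAZ, hne⟩ := hz
    have hNC : NC Z := nc_of_mkP_ne_one (fun h => hne (by rw [h, mul_one]))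
    intro g hg
    obtain ⟨X, rfl⟩ := Matrix.ProjGenLinGroup.mk_surjective g
    apply mem_NG_of_comm hA hNC hAZ
    by_contra hcon
    have h1 := cj_mem_M0 hg hZ
    have h2 := sq_of_not_cbar hA hd (hleNz h1) (fun h => hcon (mkP_mem_cbar.1 h))
    rw [← map_mul, ← cj_mul] at h2
    have h3 : NC (Z * Z) := nc_of_mkP_ne_one (by rwa [map_mul])
    exact mkP_ne_one (nc_cj h3 X) h2
  · exfalso
    push Not at hz
    obtain ⟨hc, -⟩ := MemberCyc.member_cyclic (M0 M) hA hd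
    obtain ⟨z, hz'⟩ := IsCyclic.exists_generator (α := member (M0 M) A)
    have hord : orderOf z = Nat.card (member (M0 M) A) := orderOf_eq_card_of_forall_mem_zpowers hz'
    obtain ⟨Z, hZ⟩ := mkP_surjective z.1.1
    have hZA : A * Z = Z * A := (mem_member hZ).1 z.2
    have hZM : mkP Z ∈ M0 M := by
      rw [hZ]
      exact z.1.2
    have hsq : z ^ 2 = 1 := by
      apply Subtype.ext
      apply Subtype.ext
      have h1 := hz Z hZM hZA
      rw [hZ] at h1
      rw [pow_two]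
      exact h1
    have h2 : orderOf z ∣ 2 := orderOf_dvd_of_pow_eq_one hsq
    have h3 : Nat.card (member (M0 M) A) ≤ 2 := by
      rw [← hord]
      exact Nat.le_of_dvd (by norm_num) h2
    have h4 : 1 < Nat.card (member (M0 M) A) := by
      rw [Finite.one_lt_card_iff_nontrivial]
      refine ⟨⟨⟨⟨mkP A, hAM⟩, self_mem_member hAM⟩, 1, ?_⟩⟩
      intro e
      apply mkP_ne_one hA
      exact congrArg (fun u : member (M0 M) A => u.1.1) e
    have h6 := Subgroup.index_mul_card (member (M0 M) A)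
    rw [hidx, show Nat.card (member (M0 M) A) = 2 by omega] at h6
    refine no_klein hodd h5 hM (by omega) ?_
    intro x hx
    obtain ⟨X, rfl⟩ := mkP_surjective x
    by_cases h7 : A * X = X * A
    · exact hz X hx h7
    · exact sq_of_not_cbar hA hd (hleNz hx) (fun h => h7 (mkP_mem_cbar.1 h))

end Cases

end Cfsg.Agent.Lib.PSL2.MaxPgl
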