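import Cfsg.Agent.Lib.PSL2.MaxPgl4

/-!
# Maximal subgroups of `PGL(2, F)`: the exceptional cases
-/

set_option autoImplicit false
set_option linter.unusedSectionVars false
set_option linter.unusedSimpArgs false
set_option linter.unusedVariables false
set_option linter.style.haveILetI false

namespace Cfsg.Agent.Lib.PSL2.MaxPgl

open Matrix Matrix.SpecialLinearGroup Subgroup
open scoped MatrixGroups
open Cfsg.Agent.Lib.PSL2.Basic Cfsg.Agent.Lib.PSL2.Conj Cfsg.Agent.Lib.PSL2.Members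
open Cfsg.Agent.Lib.PSL2.FourGroup Cfsg.Agent.Lib.PSL2.KleinPairs Cfsg.Agent.Lib.PSL2.Icosian
open Cfsg.Agent.Lib.PSL2.A5Gen Cfsg.Agent.Lib.PSL2.FieldEmbed
open Cfsg.Agent.Lib.PSL2.DicksonCor Cfsg.Agent.Lib.PSL2.Overgroups Cfsg.Agent.Lib.PSL2.Position
open Cfsg.Agent.Lib.PSL2.MinimalSimple Cfsg.Agent.Lib.PSL2.DihedralMax Cfsg.Agent.Lib.PSL2.Solubilizer
open Cfsg.Agent.Lib.PSL2.BorelMax Cfsg.Agent.Lib.PSL2.Reduction Cfsg.Agent.Lib.PSL2.MaxOdd
open Cfsg.Agent.Lib.PSL2.KleinAut Cfsg.Agent.Lib.PSL2.MemberCyc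

section Concrete

set_option maxRecDepth 100000 in
lemma a4_invol : ∀ x : alternatingGroup (Fin 4), x * x = 1 → x = 1 ∨ x = a4u ∨ x = a4v ∨ x = a4u * a4v := by
  decide

set_option maxRecDepth 100000 in
lemma a4_sq : ∀ x : alternatingGroup (Fin 4), (x = 1 ∨ x = a4u ∨ x = a4v ∨ x = a4u * a4v) → x * x = 1 := by
  decide

set_option maxRecDepth 1000000 in
lemma a4_orbit : ∀ c u w : alternatingGroup (Fin 4), c * c * c = 1 → c ≠ 1 → (u = a4u ∨ u = a4v ∨ u = a4u * a4v) →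
    (w = a4u ∨ w = a4v ∨ w = a4u * a4v) →
    (w = u ∨ w = c * u * c⁻¹ ∨ w = c * c * u * c⁻¹ * c⁻¹) ∧ c * u * c⁻¹ ≠ u ∧ c * c * u * c⁻¹ * c⁻¹ ≠ u := by
  decide

set_option maxRecDepth 100000 in
lemma s4_sq_cases : ∀ y : Equiv.Perm (Fin 4), y ^ 4 = 1 → y * y = 1 ∨ y * y = s4u ∨ y * y = s4v ∨ y * y = s4u * s4v := by
  decide

set_option maxRecDepth 100000 in
lemma s4_exists_sq : ∀ x : Equiv.Perm (Fin 4), (x = 1 ∨ x = s4u ∨ x = s4v ∨ x = s4u * s4v) → ∃ y : Equiv.Perm (Fin 4), y ^ 4 = 1 ∧ y * y = x := by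
  decide

theorem six_aux {G : Type*} [Group G] (π : alternatingGroup (Fin 4) →* G) (hπ : Function.Injective π) {t : G}
    (ht2 : t * t = 1) {c u w : alternatingGroup (Fin 4)} (hc3 : c * c * c = 1) (hc1 : c ≠ 1)
    (hty : t * π c = π c * t) (hu : u = a4u ∨ u = a4v ∨ u = a4u * a4v) (hw : w = a4u ∨ w = a4v ∨ w = a4u * a4v)
    (e : t * π u * t⁻¹ = π w) : w = u := by
  obtain ⟨h1, h2, h3⟩ := a4_orbit c u w hc3 hc1 hu hw
  have hC3 : π c * π c * π c = 1 := by rw [← map_mul, ← map_mul, hc3, map_one]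
  have hcom : ∀ k : G, t * (π c * k * (π c)⁻¹) * t⁻¹ = π c * (t * k * t⁻¹) * (π c)⁻¹ := by
    intro k
    have h4 : t * π c = π c * t := hty
    have h5 : (π c)⁻¹ * t⁻¹ = t⁻¹ * (π c)⁻¹ := by
      rw [← _root_.mul_inv_rev, ← _root_.mul_inv_rev, hty]
    calc t * (π c * k * (π c)⁻¹) * t⁻¹ = (t * π c) * k * ((π c)⁻¹ * t⁻¹) := by group
      _ = (π c * t) * k * (t⁻¹ * (π c)⁻¹) := by rw [h4, h5]
      _ = _ := by group
  have htt : ∀ k : G, t * (t * k * t⁻¹) * t⁻¹ = k := by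
    intro k
    have h4 : t⁻¹ = t := inv_eq_of_mul_eq_one_left ht2
    rw [h4]
    calc t * (t * k * t) * t = (t * t) * k * (t * t) := by group
      _ = k := by rw [ht2]; group
  rcases h1 with h | h | h
  · exact h
  · exfalso
    apply h3
    apply hπ
    have e1 := htt (π u)
    rw [e, h, map_mul, map_mul, map_inv, hcom, e, h, map_mul, map_mul, map_inv] at e1
    rw [map_mul, map_mul, map_mul, map_mul, map_inv]
    have h8 : π c * π c * π u * (π c)⁻¹ * (π c)⁻¹ = π c * (π c * π u * (π c)⁻¹) * (π c)⁻¹ := by group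
    rw [h8]
    exact e1
  · exfalso
    apply h2
    apply hπ
    have e1 := htt (π u)
    have h6 : π w = π c * (π c * π u * (π c)⁻¹) * (π c)⁻¹ := by
      rw [h, map_mul, map_mul, map_mul, map_mul, map_inv]
      group
    have h7 : π c * (π c * π w * (π c)⁻¹) * (π c)⁻¹ = π c * π u * (π c)⁻¹ := by
      rw [h6]
      have h8 : (π c)⁻¹ = π c * π c := by
        rw [eq_comm, ← mul_eq_one_iff_eq_inv]
        exact hC3
      calc π c * (π c * (π c * (π c * π u * (π c)⁻¹) * (π c)⁻¹) * (π c)⁻¹) * (π c)⁻¹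
          = (π c * π c * π c) * (π c * π u * (π c)⁻¹) * (π c * π c * π c)⁻¹ := by group
        _ = _ := by rw [hC3]; group
    rw [e, h6, hcom, hcom, e, h7] at e1
    rw [map_mul, map_mul, map_inv]
    exact e1

end Concrete

section Exc

variable {F : Type*} [Field F] [Fintype F]

lemma conj_psi_aut {Φ : PSL(2, F) ≃* PSL(2, F)} {X : GL (Fin 2) F} (hΦ : ∀ S, Φ (mkP S) = mkP (cj X S)) (z : PSL(2, F)) :
    mkG X * psi z * (mkG X)⁻¹ = psi (Φ z) := by
  obtain ⟨S, rfl⟩ := mkP_surjective z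
  rw [hΦ, conj_psi]

lemma Phi_mem {Φ : PSL(2, F) ≃* PSL(2, F)} {X : GL (Fin 2) F} (hΦ : ∀ S, Φ (mkP S) = mkP (cj X S))
    {M : Subgroup (PG F)} (hX : mkG X ∈ M) {z : PSL(2, F)} (hz : z ∈ M0 M) : Φ z ∈ M0 M := by
  show psi (Φ z) ∈ M
  rw [← conj_psi_aut hΦ]
  exact M.mul_mem (M.mul_mem hX hz) (M.inv_mem hX)

theorem fix_form (h2 : (2 : F) ≠ 0) {A B : SL(2, F)} (hq : IsQ A B) {X : GL (Fin 2) F}
    (hg2a : mkG X * psi (mkP A) * (mkG X)⁻¹ = psi (mkP A)) (hg2b : mkG X * psi (mkP B) * (mkG X)⁻¹ = psi (mkP B)) :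
    ∃ z, mkG X = psi z := by
  have hcA : cj X A = A ∨ cj X A = -A := by
    have h3 : psi (mkP (cj X A)) = psi (mkP A) := by
      rw [← conj_psi]
      exact hg2a
    have h4 := psi_injective h3
    rcases mkP_eq_iff.1 h4 with h5 | h5
    · left; exact h5.symm
    · right
      calc cj X A = - -cj X A := (neg_neg _).symm
        _ = -A := by rw [← h5]
  have hcB : cj X B = B ∨ cj X B = -B := by
    have h3 : psi (mkP (cj X B)) = psi (mkP B) := by
      rw [← conj_psi]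
      exact hg2b
    have h4 := psi_injective h3
    rcases mkP_eq_iff.1 h4 with h5 | h5
    · left; exact h5.symm
    · right
      calc cj X B = - -cj X B := (neg_neg _).symm
        _ = -B := by rw [← h5]
  have hAB : A * B * A⁻¹ = -B := by
    rw [hq.anti, neg_mul, mul_inv_cancel_right]
  have hBA : B * A * B⁻¹ = -A := by
    have : B * A = -(A * B) := by rw [hq.anti, neg_neg]
    rw [this, neg_mul, mul_inv_cancel_right]
  have hAA : A * A * A⁻¹ = A := by rw [mul_inv_cancel_right]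
  have hBB : B * B * B⁻¹ = B := by rw [mul_inv_cancel_right]
  obtain ⟨z₀, hz₀A, hz₀B⟩ : ∃ z₀ : SL(2, F), cj (X * toGL z₀) A = A ∧ cj (X * toGL z₀) B = B := by
    rcases hcA with hcA | hcA <;> rcases hcB with hcB | hcB
    · refine ⟨1, ?_, ?_⟩
      · rw [map_one, mul_one, hcA]
      · rw [map_one, mul_one, hcB]
    · refine ⟨A, ?_, ?_⟩
      · rw [← cj_cj, cj_toGL, hAA, hcA]
      · rw [← cj_cj, cj_toGL, hAB, cj_neg, hcB, neg_neg]
    · refine ⟨B, ?_, ?_⟩
      · rw [← cj_cj, cj_toGL, hBA, cj_neg, hcA, neg_neg]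
      · rw [← cj_cj, cj_toGL, hBB, hcB]
    · refine ⟨A * B, ?_, ?_⟩
      · rw [← cj_cj, cj_toGL]
        have : A * B * A * (A * B)⁻¹ = A * (B * A * B⁻¹) * A⁻¹ := by group
        rw [this, hBA, mul_neg, neg_mul, hAA, cj_neg, hcA, neg_neg]
      · rw [← cj_cj, cj_toGL]
        have : A * B * B * (A * B)⁻¹ = A * (B * B * B⁻¹) * A⁻¹ := by group
        rw [this, hBB, hAB, cj_neg, hcB, neg_neg]
  have hc := mem_center_of_fix h2 hq hz₀A hz₀B
  have h5 := Matrix.ProjGenLinGroup.mk_eq_one.2 hc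
  rw [map_mul] at h5
  refine ⟨(mkP z₀)⁻¹, ?_⟩
  rw [map_inv]
  exact eq_inv_of_mul_eq_one_left h5

/-- Nothing of order six in the normaliser of the four-group, when `M ∩ L` is the alternating group. -/
theorem no_six (h2F : (2 : F) ≠ 0) {M : Subgroup (PG F)} (e : M0 M ≃* alternatingGroup (Fin 4)) {A B : SL(2, F)}
    (hq : IsQ A B) (hu : ((e.symm a4u : M0 M) : PSL(2, F)) = mkP A) (hv : ((e.symm a4v : M0 M) : PSL(2, F)) = mkP B)
    (hle : M ≤ NV (isPP_of_isQ h2F hq)) {x : PG F} (hx : x ∈ M) : orderOf x ≠ 6 := by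
  intro h6
  let ρ : alternatingGroup (Fin 4) →* PSL(2, F) := (M0 M).subtype.comp e.symm.toMonoidHom
  have hρ : Function.Injective ρ := (M0 M).subtype_injective.comp e.symm.injective
  have hρe : ∀ k : M0 M, ρ (e k) = k := by
    intro k
    simp [ρ]
  have hρu : ρ a4u = mkP A := hu
  have hρv : ρ a4v = mkP B := hv
  let π : alternatingGroup (Fin 4) →* PG F := psi.comp ρ
  have hπ : Function.Injective π := psi_injective.comp hρ
  obtain ⟨y₀, hy₀⟩ := exists_sq_pgl x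
  have hy₀' : x ^ 2 = psi y₀ := hy₀
  have hy₀M : y₀ ∈ M0 M := by
    show psi y₀ ∈ M
    rw [← hy₀']
    exact M.pow_mem hx 2
  have hx6 : x ^ 6 = 1 := by
    rw [← h6]
    exact pow_orderOf_eq_one x
  have hn2 : x ^ 2 ≠ 1 := by
    intro h
    have := orderOf_dvd_of_pow_eq_one h
    rw [h6] at this
    norm_num at this
  have hn3 : x ^ 3 ≠ 1 := by
    intro h
    have := orderOf_dvd_of_pow_eq_one h
    rw [h6] at this
    norm_num at this
  set t := x ^ 3 with ht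
  have htM : t ∈ M := M.pow_mem hx 3
  have ht2 : t * t = 1 := by
    rw [ht, ← pow_add]
    exact hx6
  have hty : t * psi y₀ = psi y₀ * t := by
    rw [← hy₀', ht, ← pow_add, ← pow_add]
  have hy3 : y₀ * y₀ * y₀ = 1 := by
    apply psi_injective
    rw [map_mul, map_mul, map_one, ← hy₀', ← pow_add, ← pow_add]
    exact hx6
  have hy1 : y₀ ≠ 1 := by
    rintro rfl
    rw [map_one] at hy₀'
    exact hn2 hy₀'
  -- `t` lies outside `L`
  have htL : ∀ t₀, t ≠ psi t₀ := by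
    intro t₀ h
    have h1 : x = psi (t₀ * y₀⁻¹) := by
      rw [map_mul, map_inv, ← h, ← hy₀', ht]
      group
    have h2 : t₀ * y₀⁻¹ ∈ M0 M := by
      show psi (t₀ * y₀⁻¹) ∈ M
      rw [← h1]
      exact hx
    rcases a4_small (e ⟨_, h2⟩) with h3 | h3
    · have h4 := pow_of_equiv e h2 h3
      apply hn2
      rw [h1, ← map_pow, h4, map_one]
    · have h4 := pow_of_equiv e h2 h3
      apply hn3
      rw [ht, h1, ← map_pow, h4, map_one]
  -- the element of order three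
  set c : alternatingGroup (Fin 4) := e ⟨y₀, hy₀M⟩ with hc
  have hρc : ρ c = y₀ := hρe ⟨y₀, hy₀M⟩
  have hπc : π c = psi y₀ := by
    show psi (ρ c) = _
    rw [hρc]
  have hc3 : c * c * c = 1 := by
    apply hρ
    rw [map_mul, map_mul, hρc, hy3, map_one]
  have hc1 : c ≠ 1 := by
    intro h
    apply hy1
    rw [← hρc, h, map_one]
  have hP := isPP_of_isQ h2F hq
  have hfix : ∀ u : alternatingGroup (Fin 4), (u = a4u ∨ u = a4v) → t * π u * t⁻¹ = π u := by
    intro u hu'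
    have hu4 : u = a4u ∨ u = a4v ∨ u = a4u * a4v := by
      rcases hu' with h | h
      · exact Or.inl h
      · exact Or.inr (Or.inl h)
    have hmem : ρ u ∈ fourOf (mkP A) (mkP B) hP := by
      rcases hu' with h | h
      · rw [h, hρu]
        exact left_mem hP
      · rw [h, hρv]
        exact right_mem hP
    obtain ⟨z', hz', hz'e⟩ := NV_apply (hle htM) hmem
    have hπu1 : π u ≠ 1 := by
      intro h
      have h1 : u = 1 := hπ (by rw [h, map_one])
      subst h1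
      revert hu4
      decide
    rcases hz' with h | h | h | h
    · exfalso
      rw [h, map_one] at hz'e
      have h1 : t * π u * t⁻¹ = 1 := hz'e
      rw [conj_eq_one_iff] at h1
      exact hπu1 h1
    · have h1 : t * π u * t⁻¹ = π a4u := by
        rw [h, ← hρu] at hz'e
        exact hz'e
      rw [six_aux π hπ ht2 hc3 hc1 (by rw [hπc]; exact hty) hu4 (Or.inl rfl) h1] at h1
      exact h1
    · have h1 : t * π u * t⁻¹ = π a4v := by
        rw [h, ← hρv] at hz'e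
        exact hz'e
      rw [six_aux π hπ ht2 hc3 hc1 (by rw [hπc]; exact hty) hu4 (Or.inr (Or.inl rfl)) h1] at h1
      exact h1
    · have h1 : t * π u * t⁻¹ = π (a4u * a4v) := by
        rw [h, ← hρu, ← hρv, ← map_mul] at hz'e
        exact hz'e
      rw [six_aux π hπ ht2 hc3 hc1 (by rw [hπc]; exact hty) hu4 (Or.inr (Or.inr rfl)) h1] at h1
      exact h1
  obtain ⟨T, hT⟩ := Matrix.ProjGenLinGroup.mk_surjective t
  have h1 := hfix a4u (Or.inl rfl)
  have h2 := hfix a4v (Or.inr rfl)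
  have h3 : π a4u = psi (mkP A) := by
    show psi (ρ a4u) = _
    rw [hρu]
  have h4 : π a4v = psi (mkP B) := by
    show psi (ρ a4v) = _
    rw [hρv]
  rw [h3, ← hT] at h1
  rw [h4, ← hT] at h2
  obtain ⟨z, hz⟩ := fix_form h2F hq h1 h2
  exact htL z (hT.symm.trans hz)

theorem exists_pos {Y : Type*} [Group Y] [Finite Y] (h2F : (2 : F) ≠ 0) {M : Subgroup (PG F)} (e : M0 M ≃* Y) {u v : Y}
    (huv : IsPP u v) {A B : SL(2, F)} (hq : IsQ A B) :
    ∃ (X : GL (Fin 2) F) (e' : M0 (M.map (MulAut.conj (mkG X)).toMonoidHom) ≃* Y),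
      ((e'.symm u : M0 (M.map (MulAut.conj (mkG X)).toMonoidHom)) : PSL(2, F)) = mkP A ∧
      ((e'.symm v : M0 (M.map (MulAut.conj (mkG X)).toMonoidHom)) : PSL(2, F)) = mkP B := by
  let ρ : Y →* PSL(2, F) := (M0 M).subtype.comp e.symm.toMonoidHom
  have hρ : Function.Injective ρ := (M0 M).subtype_injective.comp e.symm.injective
  have hp := Order168.IsPP.map' ρ hρ huv
  obtain ⟨A', hA'⟩ := mkP_surjective (ρ u)
  obtain ⟨B', hB'⟩ := mkP_surjective (ρ v)
  have hp' : IsPP (mkP A') (mkP B') := by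
    rw [hA', hB']
    exact hp
  have h1 := isQ_of_isPP h2F hp'
  obtain ⟨X, hX1, hX2⟩ := exists_gl h2F h1 hq
  obtain ⟨Φ, hΦ⟩ := exists_aut X
  have hM := M0_conj hΦ M
  refine ⟨X, (MulEquiv.subgroupCongr hM).trans ((MulEquiv.subgroupMap Φ (M0 M)).symm.trans e), ?_, ?_⟩
  · show Φ (ρ u) = _
    rw [← hA', hΦ, hX1]
  · show Φ (ρ v) = _
    rw [← hB', hΦ, hX2]

theorem A4_main (p : ℕ) [hpf : Fact p.Prime] [CharP F p] (hodd : Odd (Fintype.card F)) (h5 : 5 ≤ Fintype.card F)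
    {M : Subgroup (PG F)} (hM : IsCoatom M) (hML : ¬ LL F ≤ M) (e : M0 M ≃* alternatingGroup (Fin 4))
    {A₀ B₀ : SL(2, ZMod p)} (h₀ : IsQ A₀ B₀)
    (hu : ((e.symm a4u : M0 M) : PSL(2, F)) = mkP (mapι (iotaZ p) A₀))
    (hv : ((e.symm a4v : M0 M) : PSL(2, F)) = mkP (mapι (iotaZ p) B₀)) :
    (Fintype.card F = p ∧ (p % 8 = 3 ∨ p % 8 = 5) ∧ Nonempty (M ≃* Equiv.Perm (Fin 4))) ∨
    ∃ n : ℕ, n.Prime ∧ Odd n ∧ p ^ n = Fintype.card F ∧ M = pgl (iotaZ p) := by
  have h2F : (2 : F) ≠ 0 := Cfsg.Agent.Lib.PSL2.TorusCore.two_ne_zero_of_odd_card hodd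
  have h2K := two_ne_zmod (F := F) p hodd
  set ι : ZMod p →+* F := iotaZ p with hι
  have hq := IsQ.mapι' ι h₀
  have hP := isPP_of_isQ h2F hq
  let ρ : alternatingGroup (Fin 4) →* PSL(2, F) := (M0 M).subtype.comp e.symm.toMonoidHom
  have hρ : Function.Injective ρ := (M0 M).subtype_injective.comp e.symm.injective
  have hρe : ∀ k : M0 M, ρ (e k) = k := by
    intro k
    simp [ρ]
  have hρmem : ∀ w, ρ w ∈ M0 M := fun w => (e.symm w).2
  have hρu : ρ a4u = mkP (mapι ι A₀) := hu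
  have hρv : ρ a4v = mkP (mapι ι B₀) := hv
  have hfour : ∀ w, (w = 1 ∨ w = a4u ∨ w = a4v ∨ w = a4u * a4v) → ρ w ∈ fourOf _ _ hP := by
    rintro w (rfl | rfl | rfl | rfl)
    · rw [map_one]
      exact one_mem _
    · rw [hρu]
      exact left_mem hP
    · rw [hρv]
      exact right_mem hP
    · rw [map_mul, hρu, hρv]
      exact Or.inr (Or.inr (Or.inr rfl))
  have hV : ∀ z ∈ fourOf _ _ hP, ∃ w, (w = 1 ∨ w = a4u ∨ w = a4v ∨ w = a4u * a4v) ∧ ρ w = z := by
    intro z hz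
    rcases hz with h | h | h | h
    · exact ⟨1, Or.inl rfl, by rw [h, map_one]⟩
    · exact ⟨a4u, Or.inr (Or.inl rfl), by rw [h, hρu]⟩
    · exact ⟨a4v, Or.inr (Or.inr (Or.inl rfl)), by rw [h, hρv]⟩
    · exact ⟨a4u * a4v, Or.inr (Or.inr (Or.inr rfl)), by rw [h, map_mul, hρu, hρv]⟩
  have hle : M ≤ NV hP := by
    apply le_NV_of_char
    intro X hX z hz
    obtain ⟨Φ, hΦ⟩ := exists_aut X
    obtain ⟨w, hw, rfl⟩ := hV z hz
    have hk : Φ (ρ w) ∈ M0 M := Phi_mem hΦ hX (hρmem w)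
    have hww := a4_sq w hw
    have hkk : e ⟨_, hk⟩ * e ⟨_, hk⟩ = 1 := by
      apply hρ
      rw [map_mul, hρe, map_one, ← map_mul, ← map_mul, hww, map_one, map_one]
    refine ⟨Φ (ρ w), ?_, conj_psi_aut hΦ _⟩
    have h3 := hfour _ (a4_invol _ hkk)
    rwa [hρe] at h3
  have hMN := eq_of_coatom_le hM hle (NV_ne_top h5 hP)
  have hcM0 : Nat.card (M0 M) = 12 := by
    rw [Nat.card_congr e.toEquiv, Nat.card_eq_fintype_card]
    decide
  have hcM := card_eq_two_mul hodd (not_le_LL hodd hM hML)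
  rw [hcM0] at hcM
  by_cases hqp : Fintype.card F = p
  · left
    refine ⟨hqp, ?_, ?_⟩
    · by_contra hcon
      have hodd8 : Fintype.card F % 8 ≠ 3 ∧ Fintype.card F % 8 ≠ 5 := by
        rw [hqp]
        constructor <;> intro h <;> apply hcon <;> omega
      obtain ⟨r₁, hr₁⟩ := (FiniteField.isSquare_two_iff (F := F)).2 hodd8
      have hr : 2 * (((2 : F)⁻¹ * r₁) * ((2 : F)⁻¹ * r₁)) = 1 := by
        have he : 2 * (2 : F)⁻¹ = 1 := mul_inv_cancel₀ h2F
        calc 2 * (((2 : F)⁻¹ * r₁) * ((2 : F)⁻¹ * r₁)) = (2 * (2 : F)⁻¹) * (2 : F)⁻¹ * (r₁ * r₁) := by ring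
          _ = (2 * (2 : F)⁻¹) * (2 : F)⁻¹ * 2 := by rw [hr₁]
          _ = (2 * (2 : F)⁻¹) * (2 * (2 : F)⁻¹) := by ring
          _ = 1 := by rw [he]; ring
      obtain ⟨t, ht, ht2⟩ := exists_four_elt h2F hq hr
      rw [← comap_NV, Subgroup.mem_comap, ← hMN] at ht
      have hne : mkP (mapι ι A₀) ≠ 1 := hP.a1
      rcases a4_small (e ⟨t, ht⟩) with h | h
      · have h4 := pow_of_equiv e ht h
        rw [pow_two, ht2] at h4
        exact hne h4
      · have h4 := pow_of_equiv e ht h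
        have h6 : t = (t * t)⁻¹ := by
          rw [eq_inv_iff_mul_eq_one]
          rw [pow_three] at h4
          exact h4
        rw [ht2, hP.inv_a] at h6
        apply hne
        rw [← ht2, h6, hP.aa]
    · apply Cfsg.Agent.S1012.result hcM
      intro g
      rw [← Subgroup.orderOf_coe]
      exact no_six h2F e hq hu hv hle g.2
  · right
    obtain ⟨n, hp, hn⟩ := FiniteField.card F p
    have hm : Fintype.card (ZMod p) ^ (n : ℕ) = Fintype.card F := by rw [ZMod.card, hn]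
    have hlt : Fintype.card (ZMod p) < Fintype.card F := by
      rw [ZMod.card]
      have h1 : p ≤ Fintype.card F := by
        rw [hn]
        exact Nat.le_self_pow n.ne_zero p
      omega
    have hle2 : M ≤ pgl ι := by
      rw [hMN]
      exact NV_le_pgl ι h2K h2F h₀
    have heq := eq_of_coatom_le hM hle2 (pgl_ne_top' ι hlt)
    have hc : IsCoatom (pgl ι) := heq ▸ hM
    have hL : ¬ LL F ≤ pgl ι := heq ▸ hML
    obtain ⟨h1, h3⟩ := odd_prime_of_coatom hodd ι hm hc hL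
    exact ⟨n, h1, h3, by rw [← hn], heq⟩

theorem no_S4 (hodd : Odd (Fintype.card F)) (h5 : 5 ≤ Fintype.card F) {M : Subgroup (PG F)} (hM : IsCoatom M)
    (hML : ¬ LL F ≤ M) (e : M0 M ≃* Equiv.Perm (Fin 4)) : False := by
  have h2F : (2 : F) ≠ 0 := Cfsg.Agent.Lib.PSL2.TorusCore.two_ne_zero_of_odd_card hodd
  let ρ : Equiv.Perm (Fin 4) →* PSL(2, F) := (M0 M).subtype.comp e.symm.toMonoidHom
  have hρ : Function.Injective ρ := (M0 M).subtype_injective.comp e.symm.injective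
  have hρe : ∀ k : M0 M, ρ (e k) = k := by
    intro k
    simp [ρ]
  have hρmem : ∀ w, ρ w ∈ M0 M := fun w => (e.symm w).2
  have hp := Order168.IsPP.map' ρ hρ s4_pp
  obtain ⟨A, hA⟩ := mkP_surjective (ρ s4u)
  obtain ⟨B, hB⟩ := mkP_surjective (ρ s4v)
  have hp' : IsPP (mkP A) (mkP B) := by
    rw [hA, hB]
    exact hp
  have hq := isQ_of_isPP h2F hp'
  have hP := isPP_of_isQ h2F hq
  have hfour : ∀ w, (w = 1 ∨ w = s4u ∨ w = s4v ∨ w = s4u * s4v) → ρ w ∈ fourOf _ _ hP := by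
    rintro w (rfl | rfl | rfl | rfl)
    · rw [map_one]
      exact one_mem _
    · rw [← hA]
      exact left_mem hP
    · rw [← hB]
      exact right_mem hP
    · rw [map_mul, ← hA, ← hB]
      exact Or.inr (Or.inr (Or.inr rfl))
  have hV : ∀ z ∈ fourOf _ _ hP, ∃ w, (w = 1 ∨ w = s4u ∨ w = s4v ∨ w = s4u * s4v) ∧ ρ w = z := by
    intro z hz
    rcases hz with h | h | h | h
    · exact ⟨1, Or.inl rfl, by rw [h, map_one]⟩
    · exact ⟨s4u, Or.inr (Or.inl rfl), by rw [h, hA]⟩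
    · exact ⟨s4v, Or.inr (Or.inr (Or.inl rfl)), by rw [h, hB]⟩
    · exact ⟨s4u * s4v, Or.inr (Or.inr (Or.inr rfl)), by rw [h, map_mul, hA, hB]⟩
  have hle : M ≤ NV hP := by
    apply le_NV_of_char
    intro X hX z hz
    obtain ⟨Φ, hΦ⟩ := exists_aut X
    obtain ⟨w, hw, rfl⟩ := hV z hz
    obtain ⟨y, hy4, hyy⟩ := s4_exists_sq w hw
    have hk : Φ (ρ y) ∈ M0 M := Phi_mem hΦ hX (hρmem y)
    have hk4 : e ⟨_, hk⟩ ^ 4 = 1 := by
      apply hρ
      rw [map_pow, hρe, map_one, ← map_pow, ← map_pow, hy4, map_one, map_one]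
    have hkk : ρ (e ⟨_, hk⟩ * e ⟨_, hk⟩) = Φ (ρ w) := by
      rw [map_mul, hρe, ← map_mul, ← map_mul, hyy]
    refine ⟨Φ (ρ w), ?_, conj_psi_aut hΦ _⟩
    rw [← hkk]
    exact hfour _ (s4_sq_cases _ hk4)
  have h1 := Subgroup.card_le_of_le hle
  have h2 := card_NV_le h2F hq
  have hcM := card_eq_two_mul hodd (not_le_LL hodd hM hML)
  have hc : Nat.card (M0 M) = 24 := by
    rw [Nat.card_congr e.toEquiv, Nat.card_perm]
    simp [Nat.factorial]
  omega

lemma arith_120 {k d : ℕ} (hk : 2 ≤ k) (hd : d = 1 ∨ d = 2) (h : 120 * d = k * (k ^ 2 - 1)) : k = 5 ∧ d = 1 := by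
  have hk7 : k < 7 := by
    by_contra hcon
    have h7 : 7 ≤ k := by omega
    have h8 : 7 * (7 ^ 2 - 1) ≤ k * (k ^ 2 - 1) :=
      Nat.mul_le_mul h7 (Nat.sub_le_sub_right (Nat.pow_le_pow_left h7 2) 1)
    rcases hd with rfl | rfl <;> omega
  interval_cases k <;> rcases hd with rfl | rfl <;> simp_all

theorem p_eq_five (p : ℕ) [hpf : Fact p.Prime] [CharP F p] (hodd : Odd (Fintype.card F)) {M : Subgroup (PG F)} (hM : IsCoatom M)
    (hML : ¬ LL F ≤ M) (e : M0 M ≃* alternatingGroup (Fin 5)) : p = 5 := by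
  have hcM := card_eq_two_mul hodd (not_le_LL hodd hM hML)
  have hc0 : Nat.card (M0 M) = 60 := by
    rw [Nat.card_congr e.toEquiv, Nat.card_eq_fintype_card]
    rfl
  rw [hc0] at hcM
  obtain ⟨F', iF, iFt, ι, f, hf, hc, -⟩ := exists_ext_embed (F := F) hodd
  haveI : CharP F' p := charP_of_injective_ringHom ι.injective p
  let e₁ : M ≃* M.map f := M.equivMapOfInjective f hf
  have hcard : Nat.card (M.map f) = 120 := by
    rw [← Nat.card_congr e₁.toEquiv, hcM]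
  have key : ∀ k : ℕ, 5 ^ k = Fintype.card F' → p = 5 := by
    intro k hk
    obtain ⟨n, -, hn⟩ := FiniteField.card F p
    have h1 : p ∣ 5 ^ k := by
      rw [hk, hc, hn]
      exact dvd_pow (dvd_pow_self _ n.ne_zero) (by norm_num)
    exact (Nat.prime_dvd_prime_iff_eq hpf.out (by norm_num)).1 (hpf.out.dvd_of_dvd_pow h1)
  rcases dickson_solv p (M.map f) with hs | ⟨⟨e5⟩⟩ | ⟨K, iK, iKt, m, hm, ⟨⟨e2⟩⟩ | ⟨⟨e2⟩⟩⟩
  · exfalso
    let incl : M0 M →* M := (psi.comp (M0 M).subtype).codRestrict M (fun x => x.2)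
    have hincl : Function.Injective incl := by
      intro a b hab
      apply Subtype.ext
      apply psi_injective
      exact congrArg Subtype.val hab
    let φ : alternatingGroup (Fin 5) →* M.map f := e₁.toMonoidHom.comp (incl.comp e.symm.toMonoidHom)
    have hφ : Function.Injective φ := e₁.injective.comp (hincl.comp e.symm.injective)
    exact not_solvable_a5 (Group.isSolvable_of_isSolvable_injective hφ)
  · exfalso
    have h1 := Nat.card_congr e5.toEquiv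
    rw [hcard, Nat.card_eq_fintype_card] at h1
    have h2 : Fintype.card (alternatingGroup (Fin 5)) = 60 := rfl
    omega
  · exfalso
    have h1 := Nat.card_congr e2.toEquiv
    rw [hcard] at h1
    have h2 := card_PSL2_mul_dd K
    rw [← h1] at h2
    have hd : dd K = 1 ∨ dd K = 2 := by
      have h3 := dd_le_two K
      have h4 := dd_pos K
      omega
    obtain ⟨h5, h6⟩ := arith_120 (card_ge_two K) hd h2
    unfold dd at h6
    rw [h5] at h6
    norm_num at h6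
  · have h1 := Nat.card_congr e2.toEquiv
    rw [hcard, card_PGL] at h1
    obtain ⟨h5, -⟩ := arith_120 (d := 1) (card_ge_two K) (Or.inl rfl) (by rw [mul_one]; exact h1)
    rw [h5] at hm
    exact key m hm

/-- The conclusion of the subfield case. -/
def CaseD (M : Subgroup (PG F)) : Prop :=
  ∃ (X : GL (Fin 2) F) (K : Type) (_ : Field K) (_ : Fintype K) (ι : K →+* F) (r : ℕ), r.Prime ∧ Odd r ∧
    Fintype.card K ^ r = Fintype.card F ∧ M.map (MulAut.conj (mkG X)).toMonoidHom = pgl ι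

theorem A5_case (p : ℕ) [hpf : Fact p.Prime] [CharP F p] (hodd : Odd (Fintype.card F)) {M : Subgroup (PG F)} (hM : IsCoatom M)
    (hML : ¬ LL F ≤ M) (e : M0 M ≃* alternatingGroup (Fin 5)) : CaseD M := by
  obtain rfl := p_eq_five p hodd hM hML e
  have h2F : (2 : F) ≠ 0 := Cfsg.Agent.Lib.PSL2.TorusCore.two_ne_zero_of_odd_card hodd
  have h2K := two_ne_zmod (F := F) 5 hodd
  set ι : ZMod 5 →+* F := iotaZ 5 with hι
  obtain ⟨A₀, B₀, h₀⟩ := exists_isQ h2K
  have hq := IsQ.mapι' ι h₀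
  obtain ⟨X, e', hu, hv⟩ := exists_pos h2F e a5_pp hq
  have hM' := isCoatom_conj (mkG X) hM
  have hL' := not_le_conj hodd (mkG X) hML
  refine ⟨X, ZMod 5, inferInstance, inferInstance, ι, ?_⟩
  generalize M.map (MulAut.conj (mkG X)).toMonoidHom = M' at *
  have hA : mkP (mapι ι A₀) ∈ M0 M' := hu ▸ (e'.symm a5u).2
  have hB : mkP (mapι ι B₀) ∈ M0 M' := hv ▸ (e'.symm a5v).2
  have hφ : (3 : ZMod 5) * 3 = 3 + 1 := by rfl
  have hle : M0 M' ≤ stdPsl ι := le_stdPsl_of_traces ι h2K h₀ hA hB (fun Y hY => tr_mem_of_a5 ι hφ (by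
    rcases Cfsg.Agent.Lib.PSL2.DihedralMax.a5_aux (e' ⟨mkP Y, hY⟩) with h | h | h
    · exact Or.inl (pow_of_equiv e' hY h)
    · exact Or.inr (Or.inl (pow_of_equiv e' hY h))
    · exact Or.inr (Or.inr (pow_of_equiv e' hY h))))
  have hc1 : Nat.card (M0 M') = 60 := by
    rw [Nat.card_congr e'.toEquiv, Nat.card_eq_fintype_card]
    rfl
  have hc2 : Nat.card (stdPsl ι) = 60 := by
    rw [card_stdPsl]
    have h3 := card_PSL2_mul_dd (ZMod 5)
    have h4 : Fintype.card (ZMod 5) = 5 := ZMod.card 5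
    have h6 : dd (ZMod 5) = 2 := by
      unfold dd
      rw [h4]
      rfl
    rw [h4, h6] at h3
    omega
  have heq : M0 M' = stdPsl ι := Subgroup.eq_of_le_of_card_ge hle (by rw [hc1, hc2])
  obtain ⟨n, hp, hn⟩ := FiniteField.card F 5
  have hm : Fintype.card (ZMod 5) ^ (n : ℕ) = Fintype.card F := by rw [ZMod.card, hn]
  obtain ⟨h1, h3, h4⟩ := pos_conclusion 5 hodd hM' hL' ι hm heq.ge (Or.inl heq)
  exact ⟨n, h1, h3, hm, h4⟩

theorem Pos_case (p : ℕ) [hpf : Fact p.Prime] [CharP F p] (hodd : Odd (Fintype.card F)) {M : Subgroup (PG F)} (hM : IsCoatom M)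
    (hML : ¬ LL F ≤ M) (hP : PosCase (M0 M)) : CaseD M := by
  obtain ⟨g₁, c₁, hc₁, K, iK, iF, ι, m, hm, hle, h⟩ := hP
  set Φ := frameP g₁ c₁ hc₁ with hΦdef
  let X : GL (Fin 2) F := diagU (Units.mk0 c₁ hc₁) * toGL g₁
  have hΦ : ∀ S, Φ (mkP S) = mkP (cj X S) := by
    intro S
    rw [hΦdef, frameP_mk, frameEquiv_apply]
    congr 1
    have h1 : cj X S = cj (diagU (Units.mk0 c₁ hc₁)) (cj (toGL g₁) S) := by
      rw [cj_cj]
    rw [h1, cj_diagU, cj_toGL]
    apply ext2 <;> simp [T, AutPSL.dg] <;> field_simp <;> ring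
  have hM0 := M0_conj hΦ M
  have hM' := isCoatom_conj (mkG X) hM
  have hL' := not_le_conj hodd (mkG X) hML
  have hq2 := card_ge_two K
  have hm0 : m ≠ 0 := by
    rintro rfl
    rw [pow_zero] at hm
    have := card_ge_two F
    omega
  have hoddK : Odd (Fintype.card K) := by
    rcases Nat.even_or_odd (Fintype.card K) with h' | h'
    · exfalso
      rw [← hm] at hodd
      exact (Nat.not_odd_iff_even.2 (h'.pow_of_ne_zero hm0)) hodd
    · exact h'
  rw [← hM0] at hle h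
  have hcard : Nat.card (M0 M) = Nat.card (M0 (M.map (MulAut.conj (mkG X)).toMonoidHom)) := by
    rw [hM0]
    exact Nat.card_congr (MulEquiv.subgroupMap Φ (M0 M)).toEquiv
  refine ⟨X, K, iK, iF, ι, ?_⟩
  have h' : M0 (M.map (MulAut.conj (mkG X)).toMonoidHom) = stdPsl ι ∨
      2 * Nat.card (stdPsl ι) = Nat.card (M0 (M.map (MulAut.conj (mkG X)).toMonoidHom)) := by
    rcases h with h | ⟨-, hc⟩
    · exact Or.inl h
    · right
      rw [← hcard, hc, card_stdPsl, mul_comm]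
      exact two_mul_card hoddK
  obtain ⟨h1, h3, h4⟩ := pos_conclusion p hodd hM' hL' ι hm hle h'
  exact ⟨m, h1, h3, hm, h4⟩

/-- The classification of maximal subgroups of `PGL(2, F)` not containing `L`. -/
theorem pgl_cases (p : ℕ) [hpf : Fact p.Prime] [CharP F p] (hodd : Odd (Fintype.card F)) (h5 : 5 ≤ Fintype.card F)
    {M : Subgroup (PG F)} (hM : IsCoatom M) (hML : ¬ LL F ≤ M) :
    (∃ A : SL(2, F), NC A ∧ disc A ≠ 0 ∧ M = NG A) ∨ (∃ g : SL(2, F), M = BG g) ∨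
    (Fintype.card F = p ∧ (p % 8 = 3 ∨ p % 8 = 5) ∧ Nonempty (M0 M ≃* alternatingGroup (Fin 4)) ∧
      Nonempty (M ≃* Equiv.Perm (Fin 4))) ∨ CaseD M := by
  have h2F : (2 : F) ≠ 0 := Cfsg.Agent.Lib.PSL2.TorusCore.two_ne_zero_of_odd_card hodd
  rcases dickson_frame_pos' p (M0 M) with h | ⟨A, hA, hd, hle⟩ | ⟨A, hA, hd, hAM, hidx⟩ |
      ⟨g, A, ε, hε, s, hAM, hg, hs, hε2, hup⟩ | ⟨⟨e⟩⟩ | ⟨⟨e⟩⟩ | ⟨⟨e⟩⟩ | h
  · exact (no_trivial hodd h5 hM hML h).elim
  · left
    have hne : Nat.card (M0 M) ≠ 1 := fun h => no_trivial hodd h5 hM hML h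
    exact ⟨A, hA, hd, eq_of_coatom_le hM (le_NG_of_le_cbar hA hne hle) (NG_ne_top hodd h5 hA hd)⟩
  · left
    exact ⟨A, hA, hd, eq_of_coatom_le hM (le_NG_of_index_two hodd h5 hM hA hd hAM hidx) (NG_ne_top hodd h5 hA hd)⟩
  · right; left
    exact ⟨g, eq_of_coatom_le hM (le_BG hg hs hε2 hAM hup) (BG_ne_top g)⟩
  · have h2K := two_ne_zmod (F := F) p hodd
    obtain ⟨A₀, B₀, h₀⟩ := exists_isQ h2K
    have hq := IsQ.mapι' (iotaZ p : ZMod p →+* F) h₀
    obtain ⟨X, e', hu, hv⟩ := exists_pos h2F e a4_pp hq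
    rcases A4_main p hodd h5 (isCoatom_conj (mkG X) hM) (not_le_conj hodd (mkG X) hML) e' h₀ hu hv with
      ⟨h1, h3, ⟨e2⟩⟩ | ⟨n, h1, h3, h4, h6⟩
    · right; right; left
      exact ⟨h1, h3, ⟨e⟩, ⟨(MulEquiv.subgroupMap (MulAut.conj (mkG X)) M).trans e2⟩⟩
    · right; right; right
      refine ⟨X, ZMod p, inferInstance, inferInstance, iotaZ p, n, h1, h3, ?_, h6⟩
      rw [ZMod.card, h4]
  · exact (no_S4 hodd h5 hM hML e).elim
  · right; right; right
    exact A5_case p hodd hM hML e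
  · right; right; right
    exact Pos_case p hodd hM hML h

end Exc

end Cfsg.Agent.Lib.PSL2.MaxPgl
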