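import Cfsg.Agent.Lib.PSL2.DicksonCor
import Cfsg.Agent.Lib.PSL2.MemberCyc
import Cfsg.Agent.Lib.PSL2.TorusCore

/-!
# Maximality of subgroups of `PSL(2, F)` containing `A₄`, via Dickson's theorem
-/

set_option autoImplicit false
set_option linter.unusedSectionVars false

namespace Cfsg.Agent.Lib.PSL2.PolyMax

open Matrix Matrix.SpecialLinearGroup Subgroup
open scoped MatrixGroups
open Cfsg.Agent.Lib.PSL2.Basic Cfsg.Agent.Lib.PSL2.Conj Cfsg.Agent.Lib.PSL2.Members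
open Cfsg.Agent.Lib.PSL2.Dickson Cfsg.Agent.Lib.PSL2.DicksonCor

/-- Elements witnessing that a group is not cyclic, dihedral or a Borel subgroup. -/
def HasW (G : Type*) [Group G] : Prop :=
  ∃ a b x y : G, (a * b * a⁻¹ * b⁻¹) * (a * b * a⁻¹ * b⁻¹) = 1 ∧ a * b * a⁻¹ * b⁻¹ ≠ 1 ∧
    (x * x) * (y * y) ≠ (y * y) * (x * x)

lemma hasW_alt4 : HasW (alternatingGroup (Fin 4)) :=
  ⟨⟨Equiv.swap 0 1 * Equiv.swap 1 2, Equiv.Perm.mem_alternatingGroup.2 (by decide)⟩,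
    ⟨Equiv.swap 0 1 * Equiv.swap 2 3, Equiv.Perm.mem_alternatingGroup.2 (by decide)⟩,
    ⟨Equiv.swap 0 1 * Equiv.swap 1 2, Equiv.Perm.mem_alternatingGroup.2 (by decide)⟩,
    ⟨Equiv.swap 1 2 * Equiv.swap 2 3, Equiv.Perm.mem_alternatingGroup.2 (by decide)⟩,
    by decide, by decide, by decide⟩

lemma hasW_perm4 : HasW (Equiv.Perm (Fin 4)) :=
  ⟨Equiv.swap 0 1 * Equiv.swap 1 2, Equiv.swap 0 1 * Equiv.swap 2 3,
    Equiv.swap 0 1 * Equiv.swap 1 2, Equiv.swap 1 2 * Equiv.swap 2 3,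
    by decide, by decide, by decide⟩

lemma hasW_alt5 : HasW (alternatingGroup (Fin 5)) :=
  ⟨⟨Equiv.swap 0 1 * Equiv.swap 1 2, Equiv.Perm.mem_alternatingGroup.2 (by decide)⟩,
    ⟨Equiv.swap 0 1 * Equiv.swap 2 3, Equiv.Perm.mem_alternatingGroup.2 (by decide)⟩,
    ⟨Equiv.swap 0 1 * Equiv.swap 1 2, Equiv.Perm.mem_alternatingGroup.2 (by decide)⟩,
    ⟨Equiv.swap 1 2 * Equiv.swap 2 3, Equiv.Perm.mem_alternatingGroup.2 (by decide)⟩,
    by decide, by decide, by decide⟩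

/-- Transport along an injective homomorphism. -/
lemma HasW.of_injective {G G' : Type*} [Group G] [Group G'] (f : G →* G')
    (hf : Function.Injective f) (h : HasW G) : HasW G' := by
  obtain ⟨a, b, x, y, h1, h2, h3⟩ := h
  refine ⟨f a, f b, f x, f y, ?_, ?_, ?_⟩
  · simp only [← map_mul, ← map_inv]
    rw [h1, map_one]
  · simp only [← map_mul, ← map_inv]
    rw [Ne, (map_eq_one_iff f hf)]
    exact h2
  · simp only [← map_mul]
    exact fun e => h3 (hf e)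

lemma HasW.of_le {G : Type*} [Group G] {H K : Subgroup G} (hle : H ≤ K) (h : HasW H) : HasW K :=
  HasW.of_injective (Subgroup.inclusion hle) (Subgroup.inclusion_injective hle) h

lemma HasW.of_equiv {G G' : Type*} [Group G] [Group G'] (e : G ≃* G') (h : HasW G') : HasW G :=
  HasW.of_injective e.symm.toMonoidHom e.symm.injective h

variable {F : Type*} [Field F] [Fintype F]

lemma HasW.elts {H : Subgroup PSL(2, F)} (h : HasW H) : ∃ a ∈ H, ∃ b ∈ H, ∃ x ∈ H, ∃ y ∈ H,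
    (a * b * a⁻¹ * b⁻¹) * (a * b * a⁻¹ * b⁻¹) = 1 ∧ a * b * a⁻¹ * b⁻¹ ≠ 1 ∧
    (x * x) * (y * y) ≠ (y * y) * (x * x) := by
  obtain ⟨a, b, x, y, h1, h2, h3⟩ := h
  refine ⟨a.1, a.2, b.1, b.2, x.1, x.2, y.1, y.2, ?_, ?_, ?_⟩
  · exact congrArg Subtype.val h1
  · intro e
    exact h2 (Subtype.ext e)
  · intro e
    exact h3 (Subtype.ext e)

lemma not_le_cbar {H : Subgroup PSL(2, F)} (hW : HasW H) {A : SL(2, F)} (hA : NC A)
    (hd : disc A ≠ 0) : ¬ H ≤ cbar A := by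
  intro hle
  obtain ⟨a, ha, b, hb, x, hx, y, hy, h1, h2, h3⟩ := hW.elts
  obtain ⟨hc, -⟩ := MemberCyc.cbar_cyclic hA hd
  have hcomm : ∀ u v : cbar A, u * v = v * u := fun u v => hc.isMulCommutative.is_comm.comm u v
  have e := hcomm (⟨x * x, mul_mem (hle hx) (hle hx)⟩ : cbar A)
    (⟨y * y, mul_mem (hle hy) (hle hy)⟩ : cbar A)
  exact h3 (congrArg Subtype.val e)

lemma not_index_two {H : Subgroup PSL(2, F)} (hW : HasW H) {A : SL(2, F)} (hA : NC A)
    (hd : disc A ≠ 0) : (member H A).index ≠ 2 := by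
  intro hi
  obtain ⟨a, ha, b, hb, x, hx, y, hy, h1, h2, h3⟩ := hW.elts
  obtain ⟨hc, -⟩ := MemberCyc.member_cyclic H hA hd
  have hcomm : ∀ u v : member H A, u * v = v * u := fun u v => hc.isMulCommutative.is_comm.comm u v
  have hx2 : (⟨x, hx⟩ : H) * ⟨x, hx⟩ ∈ member H A := Subgroup.mul_self_mem_of_index_two hi _
  have hy2 : (⟨y, hy⟩ : H) * ⟨y, hy⟩ ∈ member H A := Subgroup.mul_self_mem_of_index_two hi _
  have e := hcomm ⟨_, hx2⟩ ⟨_, hy2⟩
  have e2 := congrArg Subtype.val (congrArg Subtype.val e)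
  exact h3 e2

lemma not_up (h2 : (2 : F) ≠ 0) {H : Subgroup PSL(2, F)} (hW : HasW H) (g : SL(2, F)) :
    ¬ ∀ X, mkP X ∈ H → Up g X := by
  intro hU
  obtain ⟨a, ha, b, hb, x, hx, y, hy, h1, h3, h4⟩ := hW.elts
  obtain ⟨X, rfl⟩ := mkP_surjective a
  obtain ⟨Y, rfl⟩ := mkP_surjective b
  have hX := hU X ha
  have hY := hU Y hb
  set C := X * Y * X⁻¹ * Y⁻¹ with hC
  have hCm : mkP X * mkP Y * (mkP X)⁻¹ * (mkP Y)⁻¹ = mkP C := by
    rw [hC, map_mul, map_mul, map_mul, map_inv, map_inv]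
  rw [hCm] at h1 h3
  have hUC : Up g C := up_mul (up_mul (up_mul hX hY) (up_inv hX)) (up_inv hY)
  have hch : ch g C = 1 := by
    rw [hC, ch_mul (up_inv hY), ch_mul (up_inv hX), ch_mul hY, ch_inv hX, ch_inv hY]
    have h5 := ch_ne_zero hX
    have h6 := ch_ne_zero hY
    field_simp
  have h11 : (T g C).1 1 1 = 1 := by
    rw [T_11 hUC, hch, inv_one]
  rw [← map_mul, mkP_eq_one_iff] at h1
  rw [Ne, mkP_eq_one_iff] at h3
  have hsq : T g (C * C) = T g C * T g C := T_mul g C C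
  unfold Up at hUC
  unfold ch at hch
  set D := T g C with hD
  have d00 : D.1 0 0 = 1 := hch
  have hDD : (D * D).1 0 1 = 2 * D.1 0 1 := by
    rw [mul_01, d00, h11]
    ring
  have hDD00 : (D * D).1 0 0 = 1 := by
    rw [mul_00, d00, hUC]
    ring
  rcases h1 with h1 | h1
  · rw [h1, T_one] at hsq
    have h5 : (D * D).1 0 1 = 0 := by
      rw [← hsq]
      simp
    rw [hDD] at h5
    have h6 : D.1 0 1 = 0 := (mul_eq_zero.1 h5).resolve_left h2
    have hD1 : D = 1 := by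
      apply ext2
      · simpa using d00
      · simpa using h6
      · simpa using hUC
      · simpa using h11
    apply h3
    left
    have : T g C = T g 1 := by rw [T_one, ← hD, hD1]
    exact T_inj g this
  · rw [h1, T_neg, T_one] at hsq
    have h5 : (D * D).1 0 0 = -1 := by
      rw [← hsq]
      simp
    rw [hDD00] at h5
    apply h2
    linear_combination h5

/-- Equal field sizes give the whole group. -/
lemma eq_top_of_card_eq {K₀ : Type*} [Field K₀] [Fintype K₀] {H : Subgroup PSL(2, F)}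
    (hm : Fintype.card K₀ = Fintype.card F)
    (h : Nonempty (H ≃* PSL(2, K₀)) ∨ Nonempty (H ≃* Matrix.ProjGenLinGroup (Fin 2) K₀)) :
    H = ⊤ := by
  have hGG := card_PSL2_mul_dd F
  have hdd : dd K₀ = dd F := by
    unfold dd
    rw [hm]
  have h3 : 0 < Nat.card PSL(2, F) := Nat.card_pos
  rcases h with ⟨⟨e⟩⟩ | ⟨⟨e⟩⟩
  · apply Subgroup.eq_top_of_card_eq
    rw [Nat.card_congr e.toEquiv]
    have h1 := card_PSL2_mul_dd K₀
    rw [hm, ← hGG, hdd] at h1
    exact Nat.eq_of_mul_eq_mul_right (dd_pos F) h1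
  · apply Subgroup.eq_top_of_card_eq
    have h1 : Nat.card H = Nat.card PSL(2, F) * dd F := by
      rw [Nat.card_congr e.toEquiv, FieldEmbed.card_PGL, hm, hGG]
    have h2 : Nat.card H ≤ Nat.card PSL(2, F) := Subgroup.card_le_card_group _
    have h4 : dd F = 1 := by
      have h5 := dd_pos F
      rw [h1] at h2
      by_contra hne
      have : 2 ≤ dd F := by omega
      nlinarith
    rw [h1, h4, mul_one]

/-- A criterion for maximality. -/
theorem isCoatom_of (p : ℕ) [Fact p.Prime] [CharP F p] (h2 : (2 : F) ≠ 0) {H : Subgroup PSL(2, F)}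
    (hW : HasW H) (hne : H ≠ ⊤)
    (hA4 : ∀ K : Subgroup PSL(2, F), H < K → Nonempty (K ≃* alternatingGroup (Fin 4)) → K = ⊤)
    (hS4 : ∀ K : Subgroup PSL(2, F), H < K → Nonempty (K ≃* Equiv.Perm (Fin 4)) → K = ⊤)
    (hA5 : ∀ K : Subgroup PSL(2, F), H < K → Nonempty (K ≃* alternatingGroup (Fin 5)) → K = ⊤)
    (hK : ∀ K : Subgroup PSL(2, F), H < K → ∀ (K₀ : Type) (_ : Field K₀) (_ : Fintype K₀) (m : ℕ),
      Fintype.card K₀ ^ m = Fintype.card F →
      (Nonempty (K ≃* PSL(2, K₀)) ∨ Nonempty (K ≃* Matrix.ProjGenLinGroup (Fin 2) K₀)) → K = ⊤) :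
    IsCoatom H := by
  refine ⟨hne, fun K hlt => ?_⟩
  have hWK := hW.of_le hlt.le
  rcases dickson_frame p K with h | ⟨A, hA, hd, hle⟩ | ⟨A, hA, hd, hAH, hidx⟩ | ⟨g, hg⟩ |
    h | h | h | ⟨K₀, _, _, m, hm, h⟩
  · exfalso
    obtain ⟨a, b, x, y, h1, h3, h4⟩ := hWK
    have : Subsingleton K := (Nat.card_eq_one_iff_unique.1 h).1
    exact h3 (Subsingleton.elim _ _)
  · exact (not_le_cbar hWK hA hd hle).elim
  · exact (not_index_two hWK hA hd hidx).elim
  · exact (not_up h2 hWK g hg).elim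
  · exact hA4 K hlt h
  · exact hS4 K hlt h
  · exact hA5 K hlt h
  · exact hK K hlt K₀ _ _ m hm h

/-- A field of prime order has that characteristic. -/
lemma charP_of_card_prime {p : ℕ} (hp : p.Prime) (hF : Fintype.card F = p) : CharP F p := by
  obtain ⟨r, hr, hchar⟩ := exists_char F
  obtain ⟨n, -, hn⟩ := @FiniteField.card F _ _ r hchar
  rw [hF] at hn
  obtain ⟨h1, -⟩ := (Nat.Prime.pow_eq_iff hp).1 hn.symm
  rw [← h1]
  exact hchar

lemma two_ne_zero_of_card_odd {q : ℕ} (hF : Fintype.card F = q) (hq : q % 2 = 1) : (2 : F) ≠ 0 :=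
  TorusCore.two_ne_zero_of_odd_card (by rw [hF]; exact Nat.odd_iff.2 hq)

/-- A large group: the order is at least `X`. -/
lemma card_PSL2_ge {q X : ℕ} (hF : Fintype.card F = q) (hq : q % 2 = 1) (hq3 : 2 * X ≤ q * (q ^ 2 - 1)) :
    X ≤ Nat.card PSL(2, F) := by
  have h := card_PSL2_of_two_ne_zero (two_ne_zero_of_card_odd hF hq)
  rw [hF] at h
  omega

lemma card_eq_of_lt_equiv {H K : Subgroup PSL(2, F)} (hlt : H < K) : Nat.card H ∣ Nat.card K ∧
    Nat.card H < Nat.card K := by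
  refine ⟨Subgroup.card_dvd_of_le hlt.le, ?_⟩
  apply lt_of_le_of_ne (Subgroup.card_le_of_le hlt.le)
  intro e
  exact hlt.ne (Subgroup.eq_of_le_of_card_ge hlt.le e.ge)

lemma card_dvd_of_equiv {K₀ : Type*} [Field K₀] [Fintype K₀] {H : Subgroup PSL(2, F)}
    (h : Nonempty (H ≃* PSL(2, K₀)) ∨ Nonempty (H ≃* Matrix.ProjGenLinGroup (Fin 2) K₀)) :
    Nat.card H ∣ Fintype.card K₀ * (Fintype.card K₀ ^ 2 - 1) := by
  rcases h with ⟨⟨e⟩⟩ | ⟨⟨e⟩⟩
  · rw [Nat.card_congr e.toEquiv, ← card_PSL2_mul_dd K₀]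
    exact Dvd.intro _ rfl
  · rw [Nat.card_congr e.toEquiv, FieldEmbed.card_PGL]

end Cfsg.Agent.Lib.PSL2.PolyMax
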