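import Cfsg.Agent.Lib.PSL2.EvenMax
import Cfsg.Agent.Lib.Transfer.SelfNorm3

/-!
# Non-abelian subgroups of `PSL(2, q)`, `q` even and `q - 1` prime, are self-normalizing
-/

set_option autoImplicit false
set_option linter.unusedSectionVars false
set_option linter.unusedSimpArgs false
set_option linter.unusedVariables false
set_option linter.style.haveILetI false

namespace Cfsg.Agent.Lib.PSL2.SelfNormBack

open Matrix Matrix.SpecialLinearGroup Subgroup
open scoped MatrixGroups
open Cfsg.Agent.Lib.PSL2.Basic Cfsg.Agent.Lib.PSL2.Conj Cfsg.Agent.Lib.PSL2.Members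
open Cfsg.Agent.Lib.PSL2.DPart Cfsg.Agent.Lib.PSL2.Reduction
open Cfsg.Agent.Lib.PSL2.Dickson Cfsg.Agent.Lib.PSL2.DicksonCor Cfsg.Agent.Lib.PSL2.DihedralMax
open Cfsg.Agent.Lib.PSL2.Overgroups Cfsg.Agent.Lib.PSL2.MinimalSimple
open Cfsg.Agent.Lib.PSL2.Solubilizer Cfsg.Agent.Lib.PSL2.BorelMax Cfsg.Agent.Lib.PSL2.Position
open Cfsg.Agent.Lib.PSL2.EvenMax Cfsg.Agent.Lib.PSL2.MemberCyc
open Cfsg.Agent.Lib.Transfer.SelfNorm

variable {F : Type*} [Field F] [Fintype F]

/-- Elements of the image of the centralizer of a semisimple element have odd order, when the field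
has even order. -/
lemma odd_orderOf_of_cbar (h2 : (2 : F) = 0) {A : SL(2, F)} (hA : NC A) (hd : disc A ≠ 0)
    {c : PSL(2, F)} (hc : c ∈ cbar A) : Odd (orderOf c) := by
  haveI := char_two_of h2
  have heven : Even (Fintype.card F) :=
    Nat.even_iff.mpr (FiniteField.even_card_of_char_two (ringChar.eq F 2))
  have hq : 1 < Fintype.card F := Fintype.one_lt_card
  have hg : Nat.gcd 2 (Fintype.card F - 1) = 1 := by
    have : Odd (Fintype.card F - 1) := Nat.Even.sub_odd hq.le heven odd_one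
    exact Nat.coprime_two_left.mpr this
  have hodd : Odd (Nat.card (cbar A)) := by
    rcases (cbar_cyclic hA hd).2 with h | h
    · rw [h, hg, Nat.div_one]
      exact heven.add_one
    · rw [h, hg, Nat.div_one]
      exact Nat.Even.sub_odd hq.le heven odd_one
  have h1 : orderOf c ∣ Nat.card (cbar A) := by
    have := orderOf_dvd_natCard (⟨c, hc⟩ : cbar A)
    simpa using this
  exact Odd.of_dvd_nat hodd h1

/-- An element of odd order is the square of one of its powers. -/
lemma exists_pow_sq {G : Type*} [Group G] {c : G} (h : Odd (orderOf c)) :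
    ∃ k : ℕ, (c ^ k) * (c ^ k) = c := by
  obtain ⟨m, hm⟩ := h
  refine ⟨m + 1, ?_⟩
  rw [← pow_add]
  have : m + 1 + (m + 1) = orderOf c + 1 := by omega
  rw [this, pow_succ, pow_orderOf_eq_one, one_mul]

/-- The dihedral case. -/
theorem self_norm_dih (h2 : (2 : F) = 0) {H : Subgroup PSL(2, F)} {A : SL(2, F)} (hA : NC A)
    (hd : disc A ≠ 0) (hAH : mkP A ∈ H) (hidx : (member H A).index = 2) :
    normalizer (H : Set PSL(2, F)) ≤ H := by
  classical
  -- conjugates of `A` by elements normalizing `H` commute with `A`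
  have hoddA : Odd (orderOf (mkP A)) := odd_orderOf_of_cbar h2 hA hd (mkP_mem_cbar.2 rfl)
  obtain ⟨k, hk⟩ := exists_pow_sq hoddA
  have hconj : ∀ Z : SL(2, F), mkP Z ∈ normalizer (H : Set PSL(2, F)) →
      A * (Z * A * Z⁻¹) = (Z * A * Z⁻¹) * A := by
    intro Z hZ
    set β := mkP A ^ k with hβ
    have hβH : β ∈ H := pow_mem hAH k
    have hw : mkP Z * β * (mkP Z)⁻¹ ∈ H := (Subgroup.mem_normalizer_iff.mp hZ β).mp hβH
    have hsq := Subgroup.mul_self_mem_of_index_two hidx (⟨_, hw⟩ : H)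
    have e : mkP (Z * A * Z⁻¹) = (((⟨_, hw⟩ : H) * ⟨_, hw⟩ : H) : PSL(2, F)) := by
      change mkP (Z * A * Z⁻¹) = (mkP Z * β * (mkP Z)⁻¹) * (mkP Z * β * (mkP Z)⁻¹)
      rw [map_mul, map_mul, map_inv]
      nth_rewrite 1 [← hk]
      group
    exact (mem_member e).1 hsq
  have hcase : ∀ Z : SL(2, F), mkP Z ∈ normalizer (H : Set PSL(2, F)) →
      Z * A * Z⁻¹ = A ∨ Z * A * Z⁻¹ = A⁻¹ := fun Z hZ =>
    eq_or_eq_inv_of_commute hA hd (tr_conj Z A) (nc_conj hA Z) (hconj Z hZ)
  -- an element outside the member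
  obtain ⟨y, hyM⟩ : ∃ y : H, y ∉ member H A := by
    by_contra hall
    push Not at hall
    have : member H A = ⊤ := by
      rw [eq_top_iff]
      intro y _
      exact hall y
    rw [this, Subgroup.index_top] at hidx
    omega
  obtain ⟨Y, hY⟩ := exists_lift y
  have hYnc : ¬ A * Y = Y * A := fun h => hyM ((mem_member hY).2 h)
  have hYN : mkP Y ∈ normalizer (H : Set PSL(2, F)) := by
    rw [hY]
    exact Subgroup.le_normalizer y.2
  have hYH : mkP Y ∈ H := by
    rw [hY]
    exact y.2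
  have hYA : Y * A * Y⁻¹ = A⁻¹ := by
    rcases hcase Y hYN with h | h
    · exfalso
      apply hYnc
      calc A * Y = (Y * A * Y⁻¹) * Y := by rw [h]
        _ = Y * A := by group
    · exact h
  -- case (a)
  have ha : ∀ Z : SL(2, F), mkP Z ∈ normalizer (H : Set PSL(2, F)) → A * Z = Z * A → mkP Z ∈ H := by
    intro Z hZ hZA
    by_cases hz1 : mkP Z = 1
    · rw [hz1]; exact one_mem _
    have hZnc : NC Z := nc_of_mkP_ne_one hz1
    have hdZ : disc Z ≠ 0 := fun h => hd ((disc_eq_zero_iff hA hZnc hZA).1 h)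
    set B := Y * Z * Y⁻¹ with hB
    have hAB : A * B = B * A := by
      have e1 : A = Y * A⁻¹ * Y⁻¹ := by
        have : Y * A⁻¹ * Y⁻¹ = (Y * A * Y⁻¹)⁻¹ := by group
        rw [this, hYA, inv_inv]
      have e2 : A⁻¹ * Z = Z * A⁻¹ := by
        calc A⁻¹ * Z = A⁻¹ * (Z * A) * A⁻¹ := by group
          _ = A⁻¹ * (A * Z) * A⁻¹ := by rw [hZA]
          _ = Z * A⁻¹ := by group
      calc A * B = (Y * A⁻¹ * Y⁻¹) * (Y * Z * Y⁻¹) := by rw [← e1]
        _ = Y * (A⁻¹ * Z) * Y⁻¹ := by group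
        _ = Y * (Z * A⁻¹) * Y⁻¹ := by rw [e2]
        _ = (Y * Z * Y⁻¹) * (Y * A⁻¹ * Y⁻¹) := by group
        _ = B * A := by rw [← e1]
    have hZB : Z * B = B * Z := commute_of_commute hA hZA hAB
    have hBZ : B = Z⁻¹ := by
      rcases eq_or_eq_inv_of_commute hZnc hdZ (tr_conj Y Z) (nc_conj hZnc Y) hZB with h | h
      · exfalso
        apply hYnc
        have h1 : Z * Y = Y * Z := by
          have h' : B = Z := h
          calc Z * Y = B * Y := by rw [h']
            _ = Y * Z := by rw [hB]; group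
        exact commute_of_commute hZnc hZA.symm h1
      · exact h
    have h1 : mkP Z * mkP Y * (mkP Z)⁻¹ ∈ H := (Subgroup.mem_normalizer_iff.mp hZ _).mp hYH
    have h3 : mkP Z * mkP Z ∈ H := by
      have e : mkP Z * mkP Z = (mkP Z * mkP Y * (mkP Z)⁻¹) * (mkP Y)⁻¹ := by
        have e1 : mkP Y * (mkP Z)⁻¹ * (mkP Y)⁻¹ = mkP Z := by
          have e2 : (mkP Y) * (mkP Z) * (mkP Y)⁻¹ = (mkP Z)⁻¹ := by
            rw [← map_mul, ← map_inv, ← map_mul, ← hB, hBZ, map_inv]
          have e3 : mkP Y * (mkP Z)⁻¹ * (mkP Y)⁻¹ = ((mkP Y) * (mkP Z) * (mkP Y)⁻¹)⁻¹ := by group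
          rw [e3, e2, inv_inv]
        calc mkP Z * mkP Z = mkP Z * (mkP Y * (mkP Z)⁻¹ * (mkP Y)⁻¹) := by rw [e1]
          _ = _ := by group
      rw [e]
      exact mul_mem h1 (inv_mem hYH)
    have hoddZ : Odd (orderOf (mkP Z)) := odd_orderOf_of_cbar h2 hA hd (mkP_mem_cbar.2 hZA)
    obtain ⟨m, hm⟩ := hoddZ
    have e : mkP Z = (mkP Z * mkP Z) ^ (m + 1) := by
      rw [← pow_two, ← pow_mul]
      have : 2 * (m + 1) = orderOf (mkP Z) + 1 := by omega
      rw [this, pow_succ, pow_orderOf_eq_one, one_mul]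
    rw [e]
    exact pow_mem h3 _
  -- conclusion
  intro z hz
  obtain ⟨Z, rfl⟩ := mkP_surjective z
  rcases hcase Z hz with h | h
  · apply ha Z hz
    calc A * Z = (Z * A * Z⁻¹) * Z := by rw [h]
      _ = Z * A := by group
  · have hW : mkP (Z * Y⁻¹) ∈ normalizer (H : Set PSL(2, F)) := by
      rw [map_mul, map_inv]
      exact mul_mem hz (inv_mem hYN)
    have hYi : Y⁻¹ * A * Y = A⁻¹ := by
      have : Y⁻¹ * A⁻¹ * Y = A := by
        rw [← hYA]; group
      calc Y⁻¹ * A * Y = (Y⁻¹ * A⁻¹ * Y)⁻¹ := by group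
        _ = A⁻¹ := by rw [this]
    have hWA : A * (Z * Y⁻¹) = (Z * Y⁻¹) * A := by
      have : (Z * Y⁻¹) * A * (Z * Y⁻¹)⁻¹ = A := by
        calc (Z * Y⁻¹) * A * (Z * Y⁻¹)⁻¹ = Z * (Y⁻¹ * A * Y) * Z⁻¹ := by group
          _ = Z * A⁻¹ * Z⁻¹ := by rw [hYi]
          _ = (Z * A * Z⁻¹)⁻¹ := by group
          _ = A := by rw [h, inv_inv]
      calc A * (Z * Y⁻¹) = ((Z * Y⁻¹) * A * (Z * Y⁻¹)⁻¹) * (Z * Y⁻¹) := by rw [this]
        _ = (Z * Y⁻¹) * A := by group
    have h3 := ha _ hW hWA
    have e : mkP Z = mkP (Z * Y⁻¹) * mkP Y := by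
      rw [← map_mul]; congr 1; group
    rw [e]
    exact mul_mem h3 hYH

omit [Fintype F] in
/-- Unipotent elements of the Borel subgroup. -/
lemma T_eq_x {g X : SL(2, F)} (hX : Up g X) (hc : ch g X = 1) : T g X = x ((T g X).1 0 1) := by
  apply ext2
  · simpa [ch] using hc
  · simp
  · simpa [Up] using hX
  · rw [T_11 hX, hc]; simp

omit [Fintype F] in
lemma T_x (g : SL(2, F)) (b : F) : T g (g⁻¹ * x b * g) = x b := by
  simp only [T]; group

omit [Fintype F] in
lemma eq_of_T_x {g X : SL(2, F)} {b : F} (h : T g X = x b) : X = g⁻¹ * x b * g := by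
  rw [← h]; simp only [T]; group

omit [Fintype F] in
/-- Conjugation action of the Borel subgroup on its radical. -/
lemma conj_x_of_up {g X : SL(2, F)} (hX : Up g X) (b : F) :
    T g X * x b * (T g X)⁻¹ = x ((ch g X) ^ 2 * b) := by
  have h0 : (T g X).1 1 0 = 0 := hX
  have h1 := T_11 hX
  have h2 : (T g X).1 0 0 = ch g X := rfl
  have h3 := ch_ne_zero hX
  apply ext2
  · simp only [mul_00, mul_01, x_00, x_01, x_10, x_11, inv_00, inv_01, inv_10, inv_11, h0, h1, h2]
    field_simp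
    ring
  · simp only [mul_00, mul_01, x_00, x_01, x_10, x_11, inv_00, inv_01, inv_10, inv_11, h0, h1, h2]
    field_simp
    ring
  · simp only [mul_10, mul_11, x_00, x_01, x_10, x_11, inv_00, inv_01, inv_10, inv_11, h0, h1, h2]
    ring
  · simp only [mul_10, mul_11, x_00, x_01, x_10, x_11, inv_00, inv_01, inv_10, inv_11, h0, h1, h2]
    field_simp
    ring

omit [Fintype F] in
lemma up_pow {g X : SL(2, F)} (hX : Up g X) (k : ℕ) : Up g (X ^ k) ∧ ch g (X ^ k) = ch g X ^ k := by
  induction k with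
  | zero =>
    refine ⟨?_, ?_⟩
    · simp [Up, T_one]
    · simp [ch, T_one]
  | succ k ih =>
    rw [pow_succ, pow_succ]
    exact ⟨up_mul ih.1 hX, by rw [ch_mul hX, ih.2]⟩

/-- Generators of the multiplicative group of a field with `q - 1` prime. -/
lemma exists_pow_eq_units (hprime : (Fintype.card F - 1).Prime) {v : Fˣ} (hv : v ≠ 1) (u : Fˣ) :
    ∃ k : ℕ, v ^ k = u := by
  classical
  have hc : Nat.card Fˣ = Fintype.card F - 1 := by
    rw [Nat.card_eq_fintype_card, Fintype.card_units]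
  have h1 : orderOf v ∣ Fintype.card F - 1 := by
    rw [← hc]
    exact orderOf_dvd_natCard v
  have h3 : orderOf v = Fintype.card F - 1 := by
    rcases (Nat.dvd_prime hprime).mp h1 with h | h
    · exact absurd (orderOf_eq_one_iff.mp h) hv
    · exact h
  have h4 : zpowers v = ⊤ := by
    apply Subgroup.eq_top_of_card_eq
    rw [Nat.card_zpowers, h3, hc]
  have h5 : u ∈ zpowers v := by rw [h4]; trivial
  have h6 : u ∈ Submonoid.powers v := (mem_powers_iff_mem_zpowers).mpr h5
  obtain ⟨k, hk⟩ := h6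
  exact ⟨k, hk⟩

/-- The Borel case. -/
theorem self_norm_borel (h2 : (2 : F) = 0) (hprime : (Fintype.card F - 1).Prime)
    {H : Subgroup PSL(2, F)} {g : SL(2, F)} (hU : ∀ X, mkP X ∈ H → Up g X)
    (hn : ¬ IsMulCommutative H) : normalizer (H : Set PSL(2, F)) ≤ H := by
  classical
  have hcommH : (∀ X Y : SL(2, F), mkP X ∈ H → mkP Y ∈ H → X * Y = Y * X) → False := by
    intro h
    apply hn
    rw [isComm_iff]
    intro a ha b hb
    obtain ⟨A, rfl⟩ := mkP_surjective a
    obtain ⟨B, rfl⟩ := mkP_surjective b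
    rw [← map_mul, ← map_mul, h A B ha hb]
  -- a non-unipotent element
  obtain ⟨X₀, hX₀, hlam1⟩ : ∃ X₀ : SL(2, F), mkP X₀ ∈ H ∧ ch g X₀ ≠ 1 := by
    by_contra hall
    push Not at hall
    apply hcommH
    intro X Y hX hY
    apply T_inj g
    rw [T_mul, T_mul, T_eq_x (hU X hX) (hall X hX), T_eq_x (hU Y hY) (hall Y hY), ← x_add, ← x_add,
      add_comm]
  have hUX₀ := hU X₀ hX₀
  set lam : F := ch g X₀ with hlam
  have hlam0 : lam ≠ 0 := ch_ne_zero hUX₀
  let lu : Fˣ := Units.mk0 lam hlam0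
  have hlu : lu ≠ 1 := by
    intro h
    apply hlam1
    have := congrArg Units.val h
    simpa [lu] using this
  have heven : Even (Fintype.card F) := by
    haveI := char_two_of h2
    exact Nat.even_iff.mpr (FiniteField.even_card_of_char_two (ringChar.eq F 2))
  have hlu2 : lu ^ 2 ≠ 1 := by
    intro h
    have h3 : (lam - 1) ^ 2 = 0 := by
      have h4 := congrArg Units.val h
      have h5 : lam ^ 2 = 1 := by simpa [lu] using h4
      have : (lam - 1) ^ 2 = lam ^ 2 - 2 * lam + 1 := by ring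
      rw [this, h5, h2]
      have e2 : (1 : F) - 0 * lam + 1 = 2 := by ring
      rw [e2, h2]
    have h6 : lam - 1 = 0 := pow_eq_zero_iff (two_ne_zero) |>.mp h3
    exact hlam1 (sub_eq_zero.mp h6)
  -- the radical
  let vv : F → Prop := fun b => mkP (g⁻¹ * x b * g) ∈ H
  have hv0 : vv 0 := by
    change mkP (g⁻¹ * x (0 : F) * g) ∈ H
    rw [x_zero]
    simp
  have hvadd : ∀ a b, vv a → vv b → vv (a + b) := by
    intro a b ha hb
    change mkP (g⁻¹ * x (a + b) * g) ∈ H
    have e : g⁻¹ * x (a + b) * g = (g⁻¹ * x a * g) * (g⁻¹ * x b * g) := by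
      rw [x_add]; group
    rw [e, map_mul]
    exact mul_mem ha hb
  have hvlam : ∀ b, vv b → vv (lam ^ 2 * b) := by
    intro b hb
    change mkP (g⁻¹ * x (lam ^ 2 * b) * g) ∈ H
    have e : g⁻¹ * x (lam ^ 2 * b) * g = X₀ * (g⁻¹ * x b * g) * X₀⁻¹ := by
      rw [hlam, ← conj_x_of_up hUX₀ b]
      simp only [T]
      group
    rw [e, map_mul, map_mul, map_inv]
    exact mul_mem (mul_mem hX₀ hb) (inv_mem hX₀)
  have hvpow : ∀ (k : ℕ) (b : F), vv b → vv ((lam ^ 2) ^ k * b) := by
    intro k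
    induction k with
    | zero => intro b hb; simpa using hb
    | succ k ih =>
      intro b hb
      have := hvlam _ (ih b hb)
      have e : (lam ^ 2) ^ (k + 1) * b = lam ^ 2 * ((lam ^ 2) ^ k * b) := by ring
      rw [e]
      exact this
  -- a nonzero element of the radical
  obtain ⟨b₀, hb₀, hvb₀⟩ : ∃ b₀ : F, b₀ ≠ 0 ∧ vv b₀ := by
    by_contra hall
    push Not at hall
    apply hcommH
    intro X Y hX hY
    have hUX := hU X hX
    have hUY := hU Y hY
    set W := X * Y * X⁻¹ * Y⁻¹ with hW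
    have hWH : mkP W ∈ H := by
      rw [hW, map_mul, map_mul, map_mul, map_inv, map_inv]
      exact mul_mem (mul_mem (mul_mem hX hY) (inv_mem hX)) (inv_mem hY)
    have hUW := hU W hWH
    have hcW : ch g W = 1 := by
      rw [hW, ch_mul (up_inv hUY), ch_mul (up_inv hUX), ch_mul hUY, ch_inv hUX, ch_inv hUY]
      have h3 := ch_ne_zero hUX
      have h4 := ch_ne_zero hUY
      field_simp
    have h3 := T_eq_x hUW hcW
    have h4 := eq_of_T_x h3
    have h5 : vv ((T g W).1 0 1) := by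
      change mkP (g⁻¹ * x ((T g W).1 0 1) * g) ∈ H
      rw [← h4]
      exact hWH
    have h6 : (T g W).1 0 1 = 0 := by
      by_contra h7
      exact hall _ h7 h5
    rw [h6, x_zero] at h4
    have h7 : W = 1 := by rw [h4]; group
    rw [hW] at h7
    have h8 : X * Y * X⁻¹ = Y := by
      calc X * Y * X⁻¹ = (X * Y * X⁻¹ * Y⁻¹) * Y := by group
        _ = Y := by rw [h7, one_mul]
    calc X * Y = (X * Y * X⁻¹) * X := by group
      _ = Y * X := by rw [h8]
  have hvall : ∀ t : F, vv t := by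
    intro t
    by_cases ht : t = 0
    · rw [ht]; exact hv0
    have ht' : t / b₀ ≠ 0 := div_ne_zero ht hb₀
    obtain ⟨k, hk⟩ := exists_pow_eq_units hprime hlu2 (Units.mk0 (t / b₀) ht')
    have h3 := hvpow k b₀ hvb₀
    have h4 : (lam ^ 2) ^ k = t / b₀ := by
      have := congrArg Units.val hk
      simpa [lu] using this
    rw [h4] at h3
    have e : t / b₀ * b₀ = t := by field_simp
    rwa [e] at h3
  -- the whole Borel subgroup
  have hall : ∀ Y : SL(2, F), Up g Y → mkP Y ∈ H := by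
    intro Y hY
    have hY0 : ch g Y ≠ 0 := ch_ne_zero hY
    obtain ⟨k, hk⟩ := exists_pow_eq_units hprime hlu (Units.mk0 (ch g Y) hY0)
    have h3 : lam ^ k = ch g Y := by
      have := congrArg Units.val hk
      simpa [lu] using this
    obtain ⟨h4, h5⟩ := up_pow hUX₀ k
    have h6 : mkP (X₀ ^ k) ∈ H := by
      rw [map_pow]
      exact pow_mem hX₀ k
    set X := X₀ ^ k with hX
    have hUW : Up g (Y * X⁻¹) := up_mul hY (up_inv h4)
    have hcW : ch g (Y * X⁻¹) = 1 := by
      rw [ch_mul (up_inv h4), ch_inv h4, h5, ← hlam, h3]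
      field_simp
    have h7 := eq_of_T_x (T_eq_x hUW hcW)
    have h8 : mkP (Y * X⁻¹) ∈ H := by
      rw [h7]
      exact hvall _
    have e : Y = (Y * X⁻¹) * X := by group
    rw [e, map_mul]
    exact mul_mem h8 h6
  -- the normalizer
  intro z hz
  obtain ⟨Z, rfl⟩ := mkP_surjective z
  set A := g⁻¹ * x (1 : F) * g with hA
  have hAH : mkP A ∈ H := hvall 1
  have hTA : T g A = b (1 : F) one_ne_zero 1 := by
    rw [hA, T_x]
    apply ext2 <;> simp
  have hAA : A * A = 1 := by
    have e : A * A = g⁻¹ * (x (1 : F) * x 1) * g := by rw [hA]; group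
    rw [e, ← x_add]
    have : (1 : F) + 1 = 0 := by
      have h3 : (1 : F) + 1 = 2 := by norm_num
      rw [h3, h2]
    rw [this, x_zero]
    group
  set B := Z * A * Z⁻¹ with hB
  have hBH : mkP B ∈ H := by
    have := (Subgroup.mem_normalizer_iff.mp hz (mkP A)).mp hAH
    rw [hB, map_mul, map_mul, map_inv]
    exact this
  have hUB := hU B hBH
  have hBB : B * B = 1 := by
    have e : B * B = Z * (A * A) * Z⁻¹ := by rw [hB]; group
    rw [e, hAA]
    group
  have hcB : ch g B = 1 := by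
    have h3 := ch_mul (X := B) hUB
    rw [hBB] at h3
    have h4 : ch g (1 : SL(2, F)) = 1 := by simp [ch, T_one]
    rw [h4] at h3
    have h5 : (ch g B - 1) * (ch g B - 1) = 0 := by
      have : (ch g B - 1) * (ch g B - 1) = ch g B * ch g B - 2 * ch g B + 1 := by ring
      rw [this, ← h3, h2]
      have e2 : (1 : F) - 0 * ch g B + 1 = 2 := by ring
      rw [e2, h2]
    have h6 := mul_self_eq_zero.mp h5
    exact sub_eq_zero.mp h6
  have hcomm : A * (Z * A * Z⁻¹) = (Z * A * Z⁻¹) * A := by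
    apply T_inj g
    have hTA' : T g A = x (1 : F) := by rw [hA, T_x]
    obtain ⟨s, hs⟩ : ∃ s : F, T g B = x s := ⟨_, T_eq_x hUB hcB⟩
    change T g (A * B) = T g (B * A)
    rw [T_mul g A B, T_mul g B A, hTA', hs, ← x_add, ← x_add, add_comm]
  exact hall Z (up_of_conj_commute hTA one_ne_zero (by ring) hcomm)

/-- A subgroup with a central-type involution in a normal four-group lies in a Borel subgroup. -/
lemma frame_of_commuting (h2 : (2 : F) = 0) {H : Subgroup PSL(2, F)} {Q : Type*} [Group Q]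
    (e : H ≃* Q) (v₀ : Q) (hv₀ : v₀ ≠ 1) (hv2 : v₀ * v₀ = 1)
    (hc : ∀ z : Q, v₀ * (z * v₀ * z⁻¹) = (z * v₀ * z⁻¹) * v₀) :
    ∃ g : SL(2, F), ∀ X, mkP X ∈ H → Up g X := by
  classical
  haveI := char_two_of h2
  haveI : Fact (Nat.Prime 2) := ⟨Nat.prime_two⟩
  have hinj := mkP_injective_of_two_eq_zero h2
  let v : H := e.symm v₀
  have hv1 : v ≠ 1 := by
    simp only [v, Ne, map_eq_one_iff _ e.symm.injective]
    exact hv₀
  obtain ⟨A, hA'⟩ := exists_lift v
  have hA : NC A := nc_of_lift hA' hv1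
  have hAA : A * A = 1 := by
    apply hinj
    rw [map_mul, hA', map_one]
    have : v * v = 1 := by
      simp only [v]
      rw [← map_mul, hv2, map_one]
    exact congrArg Subtype.val this
  have hd : disc A = 0 := by
    have h4 := Torus.tr_mul_self A
    rw [hAA, tr_one] at h4
    unfold disc
    linear_combination -h4
  obtain ⟨g, ε, hε, s, hg, hs, hε2⟩ := exists_frame hA hd
  refine ⟨g, fun X hX => up_of_conj_commute hg hs hε2 ?_⟩
  apply hinj
  let y : H := ⟨mkP X, hX⟩
  have h3 : v * (y * v * y⁻¹) = (y * v * y⁻¹) * v := by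
    apply e.injective
    simpa [v] using hc (e y)
  have h4 := congrArg Subtype.val h3
  simp only [map_mul, map_inv, hA']
  exact h4

/-- Order six. -/
lemma self_norm_six (h2 : (2 : F) = 0) {H : Subgroup PSL(2, F)} (hn : ¬ IsMulCommutative H)
    (h6 : Nat.card H = 6) : normalizer (H : Set PSL(2, F)) ≤ H := by
  classical
  haveI := char_two_of h2
  haveI : Fact (Nat.Prime 2) := ⟨Nat.prime_two⟩
  haveI : Fact (Nat.Prime 3) := ⟨Nat.prime_three⟩
  haveI : Finite H := inferInstance
  obtain ⟨a, ha⟩ := exists_prime_orderOf_dvd_card' (G := H) 3 (by rw [h6]; norm_num)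
  obtain ⟨A, hA'⟩ := exists_lift a
  have ha1 : a ≠ 1 := by
    rintro rfl
    rw [orderOf_one] at ha
    omega
  have hA := nc_of_lift hA' ha1
  have hAH : mkP A ∈ H := by
    rw [hA']
    exact a.2
  have hd : disc A ≠ 0 := by
    intro h
    have h3 := mkP_pow_of_disc 2 h
    rw [hA'] at h3
    have h4 : a ^ 2 = 1 := Subtype.ext h3
    have h5 := orderOf_dvd_of_pow_eq_one h4
    rw [ha] at h5
    omega
  have hmem : a ∈ member H A := (mem_member hA').2 rfl
  have h3 : 3 ∣ Nat.card (member H A) := by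
    have := orderOf_dvd_natCard (⟨a, hmem⟩ : member H A)
    rwa [Subgroup.orderOf_mk, ha] at this
  have h4 := Subgroup.card_mul_index (member H A)
  rw [h6] at h4
  obtain ⟨c, hc⟩ := h3
  rw [hc] at h4
  have h5 : c * (member H A).index = 2 := by
    have : 3 * (c * (member H A).index) = 3 * 2 := by
      rw [← mul_assoc, h4]
    omega
  have h7 : (member H A).index ∣ 2 := Dvd.intro_left c h5
  rcases (Nat.dvd_prime Nat.prime_two).mp h7 with h8 | h8
  · exfalso
    apply hn
    rw [Subgroup.index_eq_one] at h8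
    have hle : ∀ z : H, (z : PSL(2, F)) ∈ cbar A := by
      intro z
      have : z ∈ member H A := by rw [h8]; trivial
      exact this
    haveI hcyc : IsCyclic (cbar A) := (cbar_cyclic hA hd).1
    rw [isComm_iff]
    intro u hu w hw
    have := (IsCyclic.commGroup : CommGroup (cbar A)).mul_comm ⟨u, hle ⟨u, hu⟩⟩ ⟨w, hle ⟨w, hw⟩⟩
    exact congrArg Subtype.val this
  · exact self_norm_dih h2 hA hd hAH h8

/-- The double transposition in `A₄`. -/
def a4v : alternatingGroup (Fin 4) :=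
  ⟨Equiv.swap (0 : Fin 4) 1 * Equiv.swap 2 3, by
    rw [Equiv.Perm.mem_alternatingGroup]
    decide⟩

lemma a4v_ne : a4v ≠ 1 := by decide

lemma a4v_sq : a4v * a4v = 1 := by decide

set_option maxRecDepth 100000 in
lemma a4v_comm : ∀ z : alternatingGroup (Fin 4), a4v * (z * a4v * z⁻¹) = (z * a4v * z⁻¹) * a4v := by
  decide

/-- The double transposition in `S₄`. -/
def s4v : Equiv.Perm (Fin 4) := Equiv.swap (0 : Fin 4) 1 * Equiv.swap 2 3

lemma s4v_ne : s4v ≠ 1 := by decide

lemma s4v_sq : s4v * s4v = 1 := by decide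

set_option maxRecDepth 100000 in
lemma s4v_comm : ∀ z : Equiv.Perm (Fin 4), s4v * (z * s4v * z⁻¹) = (z * s4v * z⁻¹) * s4v := by
  decide

/-- **Non-abelian subgroups of `PSL(2, q)` are self-normalizing** when `q` is even and `q - 1` is
prime. -/
theorem SN_psl (h2 : (2 : F) = 0) (hprime : (Fintype.card F - 1).Prime) : SN PSL(2, F) := by
  classical
  intro H hn
  haveI := char_two_of h2
  haveI : Fact (Nat.Prime 2) := ⟨Nat.prime_two⟩
  apply le_antisymm _ Subgroup.le_normalizer
  have hpos : PosCase H → normalizer (H : Set PSL(2, F)) ≤ H := by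
    intro hP
    obtain ⟨Φ, K, iK, fK, ι, m, hm, hmap⟩ := pos_eq h2 hP
    have h2K : (2 : K) = 0 := by
      rw [← map_eq_zero_iff ι ι.injective, map_ofNat]
      exact h2
    have hd : Fintype.card K - 1 ∣ Fintype.card F - 1 := by
      have := Nat.sub_dvd_pow_sub_pow (Fintype.card K) 1 m
      rwa [one_pow, hm] at this
    have hcH : Nat.card H = Nat.card PSL(2, K) := by
      rw [← card_stdPsl ι, ← hmap]
      exact Nat.card_congr (Φ.subgroupMap H).toEquiv
    rw [card_PSL2_of_two_eq_zero h2K] at hcH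
    have hK1 : 1 < Fintype.card K := Fintype.one_lt_card
    have hF1 : 1 < Fintype.card F := Fintype.one_lt_card
    rcases (Nat.dvd_prime hprime).mp hd with h | h
    · have hK2 : Fintype.card K = 2 := by omega
      rw [hK2] at hcH
      exact self_norm_six h2 hn (by rw [hcH]; norm_num)
    · have hKF : Fintype.card K = Fintype.card F := by omega
      have htop : H = ⊤ := by
        apply Subgroup.eq_top_of_card_eq
        rw [hcH, hKF, card_PSL2_of_two_eq_zero h2]
      rw [htop]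
      exact le_top
  rcases dickson_frame_pos 2 H with h | ⟨A, hA, hd, hle⟩ | ⟨A, hA, hd, hAH, hidx⟩ | ⟨g, hU⟩ |
      ⟨⟨e⟩⟩ | ⟨⟨e⟩⟩ | ⟨⟨e⟩⟩ | hP
  · exfalso
    apply hn
    have hb := Subgroup.eq_bot_of_card_eq _ h
    rw [isComm_iff, hb]
    intro a ha b hb
    rw [Subgroup.mem_bot] at ha hb
    rw [ha, hb]
  · exfalso
    apply hn
    haveI hcyc : IsCyclic (cbar A) := (cbar_cyclic hA hd).1
    rw [isComm_iff]
    intro u hu w hw
    have := (IsCyclic.commGroup : CommGroup (cbar A)).mul_comm ⟨u, hle hu⟩ ⟨w, hle hw⟩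
    exact congrArg Subtype.val this
  · exact self_norm_dih h2 hA hd hAH hidx
  · exact self_norm_borel h2 hprime hU hn
  · obtain ⟨g, hU⟩ := frame_of_commuting h2 e a4v a4v_ne a4v_sq a4v_comm
    exact self_norm_borel h2 hprime hU hn
  · obtain ⟨g, hU⟩ := frame_of_commuting h2 e s4v s4v_ne s4v_sq s4v_comm
    exact self_norm_borel h2 hprime hU hn
  · exact hpos (a5_pos h2 e)
  · exact hpos hP

end Cfsg.Agent.Lib.PSL2.SelfNormBack
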