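import Mathlib
import Cfsg.Agent.S0731
import Cfsg.Agent.Lib.SmallCen.SylowZass
import Cfsg.Agent.Lib.SmallCen.SmallOrder
import Cfsg.Agent.Lib.Compute.SmallField
import Cfsg.Agent.Lib.PSL2.Basic

set_option autoImplicit false
set_option linter.style.haveILetI false
set_option linter.unusedVariables false

namespace Cfsg.Agent.Lib.PSL2.SimpleOrder

open Cfsg.Agent.Lib.SmallCen.SylowZass Cfsg.Agent.Lib.SmallCen.SmallOrder

/-- A simple group of order `p(p²-1)/2` all of whose Sylow `p`-numbers dividing the index are `1`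
or `p+1` is `PSL(2, p)`. -/
theorem iso_of_card {G : Type*} [Group G] [Finite G] [IsSimpleGroup G] {p m : ℕ} (hp : p.Prime)
    (hp3 : 3 < p) (hm : 2 * m = p ^ 2 - 1) (h : Nat.card G = p * m)
    (hdiv : ∀ n, n ∣ m → n % p = 1 → n = 1 ∨ n = p + 1)
    {F : Type*} [Field F] [Fintype F] (hF : Fintype.card F = p) :
    Nonempty (G ≃* Matrix.ProjectiveSpecialLinearGroup (Fin 2) F) := by
  classical
  haveI : Fact p.Prime := ⟨hp⟩
  have hpm : ¬ p ∣ m := by
    intro hd
    have h1 : p ∣ 2 * m := hd.mul_left 2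
    rw [hm] at h1
    have h2 : p ∣ p ^ 2 := dvd_pow_self p (by norm_num)
    have h3 : p ^ 2 - (p ^ 2 - 1) = 1 := by
      have : 1 ≤ p ^ 2 := Nat.one_le_pow _ _ hp.pos
      omega
    have h4 := Nat.dvd_sub h2 h1
    rw [h3] at h4
    exact hp.one_lt.ne' (Nat.dvd_one.1 h4)
  have hm0 : 0 < m := by
    rcases Nat.eq_zero_or_pos m with h0 | h0
    · subst h0; exact absurd (dvd_zero p) hpm
    · exact h0
  obtain ⟨P⟩ : Nonempty (Sylow p G) := inferInstance
  have hpc : ∀ Q : Sylow p G, Nat.card (Q : Subgroup G) = p := fun Q => by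
    simpa using card_sylow_eq (a := 1) (m := m) (by rw [h]; simp) hpm Q
  have hidx : (P : Subgroup G).index = m := by
    have := Subgroup.card_mul_index (P : Subgroup G)
    rw [hpc P, h] at this
    exact Nat.eq_of_mul_eq_mul_left hp.pos this
  have hmod := card_sylow_modEq_one p G
  have hdvd := P.card_dvd_index
  rw [hidx] at hdvd
  have hn8 : Nat.card (Sylow p G) = 1 ∨ Nat.card (Sylow p G) = p + 1 := by
    apply hdiv _ hdvd
    rw [hmod, Nat.mod_eq_of_lt hp.one_lt]
  have hmgt : p + 1 < m := by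
    have h1 : (p + 1) * (p - 3) + 1 + 2 * (p + 1) = p ^ 2 - 1 + 1 := by
      obtain ⟨k, rfl⟩ : ∃ k, p = k + 4 := ⟨p - 4, by omega⟩
      have : (k + 4) ^ 2 - 1 + 1 = (k + 4) ^ 2 := Nat.sub_add_cancel (Nat.one_le_pow _ _ (by omega))
      rw [this]
      simp only [show k + 4 - 3 = k + 1 by omega]
      ring
    have h2 : 1 ≤ (p + 1) * (p - 3) := Nat.mul_pos (by omega) (by omega)
    omega
  have hntop := normalizer_ne_top P (by rw [hpc P]; exact hp.one_lt.ne')
    (by
      rw [hpc P, h]
      intro h1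
      have : p * 1 = p * m := by rw [mul_one]; exact h1
      have := Nat.eq_of_mul_eq_mul_left hp.pos this
      omega)
  have hnidx := P.card_eq_index_normalizer
  have hn : Nat.card (Sylow p G) = p + 1 := by
    rcases hn8 with h1 | h1
    · exfalso
      rw [h1] at hnidx
      exact hntop (Subgroup.index_eq_one.1 hnidx.symm)
    · exact h1
  have hcard : ∀ Q : Sylow p G, Nat.card (Sylow p G) = Nat.card (Q : Subgroup G) + 1 := fun Q => by
    rw [hn, hpc Q]
  have hTI := ti_of_prime hpc
  have hNgt : p < Nat.card (Subgroup.normalizer (P : Set G)) := by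
    have := Subgroup.card_mul_index (Subgroup.normalizer (P : Set G))
    rw [← hnidx, hn, h] at this
    by_contra hle
    push Not at hle
    have h1 : Nat.card (Subgroup.normalizer (P : Set G)) * (p + 1) ≤ p * (p + 1) :=
      Nat.mul_le_mul_right _ hle
    rw [this] at h1
    have := Nat.le_of_mul_le_mul_left h1 hp.pos
    omega
  obtain ⟨Q, hQ⟩ : ∃ Q : Sylow p G, P ≠ Q := by
    haveI : Nontrivial (Sylow p G) := by
      apply Finite.one_lt_card_iff_nontrivial.1
      rw [hn]; have := hp.pos; omega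
    obtain ⟨Q, hQ⟩ := exists_ne P
    exact ⟨Q, hQ.symm⟩
  have htwo := two_of_card hcard P Q hQ (by rw [hpc P]; exact hNgt)
  haveI hfaith : FaithfulSMul G (Sylow p G) := faithful hQ
  have hthree := three_of_prime hcard hTI hpc
  have hZ := isZassenhaus hcard hTI hthree htwo
  have hFle : (P : Subgroup G) ≤ MulAction.stabilizer G P := fun v hv =>
    smul_self_of_mem P hv
  have hFn : ((P : Subgroup G).subgroupOf (MulAction.stabilizer G P)).Normal := by
    constructor
    intro n hn' g
    have hg : (g : G) ∈ Subgroup.normalizer (P : Set G) := Sylow.smul_eq_iff_mem_normalizer.1 g.2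
    rw [Subgroup.mem_subgroupOf] at hn' ⊢
    exact (Subgroup.mem_normalizer_iff.1 hg _).1 hn'
  have hFab : IsMulCommutative (P : Subgroup G) := by
    haveI : Fact (Nat.card (P : Subgroup G)).Prime := ⟨by rw [hpc P]; exact hp⟩
    haveI := isCyclic_of_prime_card (α := (P : Subgroup G)) rfl
    exact IsCyclic.commutative
  have hreg := regular hcard hTI P
  rcases Cfsg.Agent.S0731.result hZ P (P : Subgroup G) hFle hFn hFab hreg with
    ⟨h3, hs⟩ | ⟨K, _, _, hK, ⟨eK⟩⟩
  · exfalso
    haveI : Fintype (Sylow p G) := Fintype.ofFinite _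
    have hc3 : 3 ≤ Fintype.card (Sylow p G) := by
      rw [← Nat.card_eq_fintype_card, hn]; omega
    obtain ⟨t₀⟩ : Nonempty (Fin 3 ↪ Sylow p G) :=
      Function.Embedding.nonempty_of_card_le (by simpa using hc3)
    have := card_of_sharp h3 hs t₀
    rw [← Nat.card_eq_fintype_card, hn, h] at this
    obtain ⟨k, rfl⟩ : ∃ k, p = k + 4 := ⟨p - 4, by omega⟩
    simp only [Nat.descFactorial] at this
    have hk : (k + 4) ^ 2 - 1 = (k + 4) ^ 2 - 1 := rfl
    have hm' : 2 * m + 1 = (k + 4) ^ 2 := by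
      have : 1 ≤ (k + 4) ^ 2 := Nat.one_le_pow _ _ (by omega)
      omega
    have h5 : k + 4 + 1 - 2 = k + 3 := by omega
    have h6 : k + 4 + 1 - 1 = k + 4 := by omega
    have h7 : k + 4 + 1 - 0 = k + 5 := by omega
    simp only [h5, h6, h7, Nat.sub_zero] at this
    nlinarith
  · have h2K : (2 : K) ≠ 0 := Ring.two_ne_zero hK
    have hcK := Cfsg.Agent.Lib.PSL2.Basic.card_PSL2_of_two_ne_zero h2K
    rw [← Nat.card_congr eK.toEquiv, h] at hcK
    have hq : Fintype.card K = p := by
      generalize Fintype.card K = q at hcK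
      have hmono : ∀ a b : ℕ, a < b → 2 ≤ b → a * (a ^ 2 - 1) < b * (b ^ 2 - 1) := by
        intro a b hab hb
        have h1 : a ^ 2 - 1 ≤ b ^ 2 - 1 := Nat.sub_le_sub_right (Nat.pow_le_pow_left hab.le 2) 1
        have h2 : 0 < b ^ 2 - 1 := by
          have h3 : 1 < b ^ 2 := by nlinarith
          omega
        calc a * (a ^ 2 - 1) ≤ a * (b ^ 2 - 1) := Nat.mul_le_mul_left _ h1
          _ < b * (b ^ 2 - 1) := Nat.mul_lt_mul_of_pos_right hab h2
      have h2m : 2 * (p * m) = p * (p ^ 2 - 1) := by rw [← hm]; ring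
      rw [h2m] at hcK
      rcases lt_trichotomy q p with hlt | heq | hgt
      · exact absurd hcK (hmono q p hlt (by omega)).ne'
      · exact heq
      · exact absurd hcK (hmono p q hgt (by omega)).ne
    exact ⟨eK.trans (Cfsg.Agent.Lib.Compute.SmallField.pslCongr
      (FiniteField.ringEquivOfCardEq (hq.trans hF.symm)))⟩

end Cfsg.Agent.Lib.PSL2.SimpleOrder
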