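import Cfsg.Agent.Lib.PSL2.Solubilizer

/-!
# Solubilizers in `PSL(2, 3 ^ r)`, `r` an odd prime
-/

set_option autoImplicit false
set_option linter.unusedSectionVars false
set_option linter.unusedSimpArgs false
set_option linter.unusedVariables false
set_option linter.style.haveILetI false

namespace Cfsg.Agent.Lib.PSL2.Solubilizer3

open Matrix Matrix.SpecialLinearGroup Subgroup
open scoped MatrixGroups
open Cfsg.Agent.Lib.PSL2.Basic Cfsg.Agent.Lib.PSL2.Conj Cfsg.Agent.Lib.PSL2.Members
open Cfsg.Agent.Lib.PSL2.DicksonCor Cfsg.Agent.Lib.PSL2.Dickson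
open Cfsg.Agent.Lib.PSL2.FieldEmbed Cfsg.Agent.Lib.PSL2.DihedralMax
open Cfsg.Agent.Lib.PSL2.Overgroups Cfsg.Agent.Lib.PSL2.MinimalSimple
open Cfsg.Agent.Lib.PSL2.Solubilizer

section Abstract

variable {G : Type*} [Group G] [Finite G]

lemma mem_norm_of_conj {Q : Subgroup G} {x : G}
    (h : ∀ y ∈ Q, x * y * x⁻¹ ∈ Q) : x ∈ normalizer (Q : Set G) := by
  rw [Subgroup.mem_normalizer_iff]
  intro y
  refine ⟨h y, fun hy => ?_⟩
  let f : Q → Q := fun q => ⟨x * q.1 * x⁻¹, h q.1 q.2⟩
  have hf : Function.Injective f := by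
    intro a b hab
    have h1 : x * a.1 * x⁻¹ = x * b.1 * x⁻¹ := congrArg Subtype.val hab
    exact Subtype.ext (mul_left_cancel (mul_right_cancel h1))
  obtain ⟨q, hq⟩ := (Finite.injective_iff_surjective.1 hf) ⟨_, hy⟩
  have h1 : x * q.1 * x⁻¹ = x * y * x⁻¹ := congrArg Subtype.val hq
  have h2 : q.1 = y := mul_left_cancel (mul_right_cancel h1)
  rw [← h2]
  exact q.2

lemma conj_closure_mem {k : Set G} {x : G} (h : ∀ y ∈ k, x * y * x⁻¹ ∈ closure k) :
    ∀ y ∈ closure k, x * y * x⁻¹ ∈ closure k := by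
  intro y hy
  induction hy using Subgroup.closure_induction with
  | mem y hy => exact h y hy
  | one => simp [(closure k).one_mem]
  | mul a b _ _ ha hb =>
    have : x * (a * b) * x⁻¹ = (x * a * x⁻¹) * (x * b * x⁻¹) := by group
    rw [this]
    exact (closure k).mul_mem ha hb
  | inv a _ ha =>
    have : x * a⁻¹ * x⁻¹ = (x * a * x⁻¹)⁻¹ := by group
    rw [this]
    exact (closure k).inv_mem ha

/-- A simple non commutative group: what we use. -/
structure Good (G : Type*) [Group G] : Prop where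
  simple : IsSimpleGroup G
  ncomm : ¬ ∀ a b : G, a * b = b * a
  solv : ∀ H : Subgroup G, H ≠ ⊤ → Group.IsSolvable H

lemma Good.of_le {H M : Subgroup G} (hG : Good G) (h : H ≤ M) (hM : M ≠ ⊤) : Group.IsSolvable H := by
  apply hG.solv
  rintro rfl
  exact hM (top_le_iff.1 h)

lemma Good.zpowers_ne (hG : Good G) (a : G) : zpowers a ≠ ⊤ := by
  intro h
  apply hG.ncomm
  intro x y
  have hx : x ∈ zpowers a := by rw [h]; trivial
  have hy : y ∈ zpowers a := by rw [h]; trivial
  obtain ⟨m, rfl⟩ := hx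
  obtain ⟨n, rfl⟩ := hy
  simp only
  rw [← _root_.zpow_add, ← _root_.zpow_add, add_comm]

lemma Good.normalizer_ne (hG : Good G) {V : Subgroup G} (h1 : V ≠ ⊥) (h2 : V ≠ ⊤) :
    normalizer (V : Set G) ≠ ⊤ := by
  intro h
  haveI : V.Normal := Subgroup.normalizer_eq_top_iff.1 h
  haveI := hG.simple
  rcases (inferInstance : IsSimpleGroup G).eq_bot_or_eq_top_of_normal V inferInstance with h3 | h3
  · exact h1 h3
  · exact h2 h3

lemma Good.pair_of_norm (hG : Good G) {V : Subgroup G} (h1 : V ≠ ⊥) (h2 : V ≠ ⊤) {a b : G}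
    (ha : a ∈ normalizer (V : Set G)) (hb : b ∈ normalizer (V : Set G)) :
    Group.IsSolvable (closure ({a, b} : Set G)) :=
  hG.of_le (closure_pair_le ha hb) (hG.normalizer_ne h1 h2)

/-- If `a` normalizes `⟨b⟩`, the pair generates a solvable group. -/
lemma Good.pair_of_inv (hG : Good G) {a b : G} (h : a * b * a⁻¹ = b⁻¹ ∨ a * b * a⁻¹ = b) :
    Group.IsSolvable (closure ({a, b} : Set G)) := by
  by_cases hb : b = 1
  · subst hb
    apply hG.of_le _ (hG.zpowers_ne a)
    exact closure_pair_le (mem_zpowers a) (one_mem _)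
  · apply hG.pair_of_norm (V := zpowers b) _ (hG.zpowers_ne b)
    · apply mem_norm_of_conj
      rintro y ⟨n, rfl⟩
      simp only
      rw [← MulAut.conj_apply, map_zpow, MulAut.conj_apply]
      rcases h with h | h
      · rw [h]
        exact (zpowers b).zpow_mem ((zpowers b).inv_mem (mem_zpowers b)) n
      · rw [h]
        exact (zpowers b).zpow_mem (mem_zpowers b) n
    · apply mem_norm_of_conj
      rintro y ⟨n, rfl⟩
      simp only
      rw [← MulAut.conj_apply, map_zpow, MulAut.conj_apply]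
      have : b * b * b⁻¹ = b := by group
      rw [this]
      exact (zpowers b).zpow_mem (mem_zpowers b) n
    · rw [Ne, zpowers_eq_bot]
      exact hb

/-- Two involutions generate a solvable group. -/
lemma Good.pair_inv (hG : Good G) {a b : G} (ha : a * a = 1) (hb : b * b = 1) :
    Group.IsSolvable (closure ({a, b} : Set G)) := by
  have hai : a⁻¹ = a := inv_eq_of_mul_eq_one_left ha
  have hbi : b⁻¹ = b := inv_eq_of_mul_eq_one_left hb
  by_cases hab : a * b = 1
  · have : b = a := by
      have : b = a⁻¹ := eq_inv_of_mul_eq_one_right hab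
      rwa [hai] at this
    subst this
    apply hG.of_le _ (hG.zpowers_ne b)
    exact closure_pair_le (mem_zpowers b) (mem_zpowers b)
  · have key : ∀ c : G, (c = a ∨ c = b) → c * (a * b) * c⁻¹ = (a * b)⁻¹ := by
      rintro c (rfl | rfl)
      · rw [hai, _root_.mul_inv_rev, hai, hbi, ← mul_assoc, ha, one_mul]
      · rw [hbi, _root_.mul_inv_rev, hai, hbi, mul_assoc, mul_assoc, hb, mul_one]
    apply hG.pair_of_norm (V := zpowers (a * b)) _ (hG.zpowers_ne _)
    · apply mem_norm_of_conj
      rintro y ⟨n, rfl⟩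
      simp only
      rw [← MulAut.conj_apply, map_zpow, MulAut.conj_apply, key a (Or.inl rfl)]
      exact (zpowers _).zpow_mem ((zpowers _).inv_mem (mem_zpowers _)) n
    · apply mem_norm_of_conj
      rintro y ⟨n, rfl⟩
      simp only
      rw [← MulAut.conj_apply, map_zpow, MulAut.conj_apply, key b (Or.inr rfl)]
      exact (zpowers _).zpow_mem ((zpowers _).inv_mem (mem_zpowers _)) n
    · rw [Ne, zpowers_eq_bot]
      exact hab

/-- The relations of `A₄`. -/
lemma Good.a4 (hG : Good G) {a b : G} (ha : a * a = 1) (hb : b * b * b = 1)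
    (hab : (a * b) * (a * b) * (a * b) = 1) : closure ({a, b} : Set G) ≠ ⊤ := by
  by_cases ha1 : a = 1
  · subst ha1
    intro h
    apply hG.zpowers_ne b
    rw [eq_top_iff, ← h]
    exact closure_pair_le (one_mem _) (mem_zpowers b)
  have hai : a⁻¹ = a := inv_eq_of_mul_eq_one_left ha
  have hbi : b⁻¹ = b * b := inv_eq_of_mul_eq_one_left hb
  -- the three conjugates
  set c := b * a * b⁻¹ with hc
  set e := b⁻¹ * a * b with he
  have hcc : c * c = 1 := by
    rw [hc]
    calc b * a * b⁻¹ * (b * a * b⁻¹) = b * (a * a) * b⁻¹ := by group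
      _ = 1 := by rw [ha]; group
  have hee : e * e = 1 := by
    rw [he]
    calc b⁻¹ * a * b * (b⁻¹ * a * b) = b⁻¹ * (a * a) * b := by group
      _ = 1 := by rw [ha]; group
  have hace : a * c * e = 1 := by
    rw [hc, he, hbi]
    calc a * (b * a * (b * b)) * (b * b * a * b) = a * b * a * (b * b * b) * (b * a * b) := by group
      _ = (a * b) * (a * b) * (a * b) := by rw [hb]; group
      _ = 1 := hab
  have hcai : c⁻¹ = c := inv_eq_of_mul_eq_one_left hcc
  have hee' : e = c * a := by
    have h1 : e = (a * c)⁻¹ := by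
      exact eq_inv_of_mul_eq_one_right hace
    rw [h1, _root_.mul_inv_rev, hai, hcai]
  have hcomm : a * c = c * a := by
    have h1 : (c * a) * (c * a) = 1 := by rw [← hee']; exact hee
    have h2 : c * a = (c * a)⁻¹ := (inv_eq_of_mul_eq_one_left h1).symm
    rw [_root_.mul_inv_rev, hai, hcai] at h2
    exact h2.symm
  let k : Set G := {a, c}
  have hkc : ∀ x ∈ k, ∀ y ∈ k, x * y = y * x := by
    rintro x (rfl | rfl) y (rfl | rfl)
    · rfl
    · exact hcomm
    · exact hcomm.symm
    · rfl
  have hV1 : closure k ≠ ⊥ := by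
    intro h
    have : a ∈ closure k := subset_closure (Or.inl rfl)
    rw [h, Subgroup.mem_bot] at this
    exact ha1 this
  have hV2 : closure k ≠ ⊤ := by
    intro h
    apply hG.ncomm
    haveI := isMulCommutative_closure hkc
    intro u v
    have hx : u ∈ closure k := by rw [h]; trivial
    have hy : v ∈ closure k := by rw [h]; trivial
    have := mul_comm' (⟨u, hx⟩ : closure k) ⟨v, hy⟩
    exact congrArg Subtype.val this
  have hNa : a ∈ normalizer (closure k : Set G) := by
    apply mem_norm_of_conj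
    apply conj_closure_mem
    rintro z (hz | hz)
    · rw [hz, hai]
      have : a * a * a = a := by rw [ha, one_mul]
      rw [this]
      exact subset_closure (Or.inl rfl)
    · have hz' : z = c := hz
      have : a * c * a⁻¹ = c := by
        rw [hcomm, hai, mul_assoc, ha, mul_one]
      rw [hz', this]
      exact subset_closure (Or.inr rfl)
  have hNb : b ∈ normalizer (closure k : Set G) := by
    apply mem_norm_of_conj
    apply conj_closure_mem
    rintro z (hz | hz)
    · rw [hz]
      exact subset_closure (Or.inr rfl)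
    · have hz' : z = c := hz
      rw [hz']
      have : b * c * b⁻¹ = e := by
        rw [hc, he]
        have h3 : b * b = b⁻¹ := hbi.symm
        have hb3 : b⁻¹ * b⁻¹ = b := by
          rw [← h3]
          calc b * b * (b * b) = (b * b * b) * b := by group
            _ = b := by rw [hb, one_mul]
        calc b * (b * a * b⁻¹) * b⁻¹ = (b * b) * a * (b⁻¹ * b⁻¹) := by group
          _ = b⁻¹ * a * b := by rw [h3, hb3]
      rw [this, hee']
      exact (closure k).mul_mem (subset_closure (Or.inr rfl)) (subset_closure (Or.inl rfl))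
  intro h
  apply hG.normalizer_ne hV1 hV2
  rw [eq_top_iff, ← h]
  exact closure_pair_le hNa hNb

end Abstract


section Field

variable {F : Type*} [Field F] [Fintype F]

/-- Our hypotheses on the field. -/
structure Hyp (F : Type*) [Field F] [Fintype F] : Prop where
  h3 : (3 : F) = 0
  card : ∃ r : ℕ, r.Prime ∧ r ≠ 2 ∧ Fintype.card F = 3 ^ r

lemma Hyp.two_ne (hF : Hyp F) : (2 : F) ≠ 0 := by
  intro h
  have : (1 : F) = 0 := by linear_combination hF.h3 - h
  exact one_ne_zero this

lemma Hyp.four (hF : Hyp F) : (4 : F) = 1 := by linear_combination hF.h3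

lemma Hyp.one_ne_neg (hF : Hyp F) : (1 : F) ≠ -1 := by
  intro h
  apply hF.two_ne
  linear_combination h

lemma Hyp.card_mod (hF : Hyp F) : Fintype.card F % 8 = 3 := by
  obtain ⟨r, hr, hr2, h⟩ := hF.card
  obtain ⟨k, rfl⟩ := hr.odd_of_ne_two hr2
  rw [h, pow_succ, pow_mul]
  norm_num [Nat.mul_mod, Nat.pow_mod]

lemma Hyp.card_mod3 (hF : Hyp F) : Fintype.card F % 3 = 0 := by
  obtain ⟨r, hr, hr2, h⟩ := hF.card
  rw [h]
  exact Nat.mod_eq_zero_of_dvd (dvd_pow_self 3 hr.ne_zero)

lemma Hyp.no_sq (hF : Hyp F) (z : F) : z * z ≠ -1 := by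
  intro h
  have h1 : IsSquare (-1 : F) := ⟨z, h.symm⟩
  rw [FiniteField.isSquare_neg_one_iff] at h1
  have := hF.card_mod
  omega

lemma Hyp.charP (hF : Hyp F) : CharP F 3 := by
  obtain ⟨p, hp, hchar⟩ := exists_char F
  have h5 : p ∣ 3 := (CharP.cast_eq_zero_iff F p 3).1 (by exact_mod_cast hF.h3)
  have : p = 3 := (Nat.prime_dvd_prime_iff_eq hp Nat.prime_three).1 h5
  subst this
  exact hchar

lemma Hyp.min (hF : Hyp F) : Cfsg.IsMinimalSimple PSL(2, F) := by
  obtain ⟨r, hr, hr2, h⟩ := hF.card
  exact minimal_of_list (Or.inr (Or.inl ⟨r, hr, hr2, h⟩))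

lemma Hyp.good (hF : Hyp F) : Good PSL(2, F) := by
  have h := hF.min
  exact ⟨h.1, fun hc => h.2.1 ⟨⟨hc⟩⟩, h.2.2⟩

lemma Hyp.four_le (hF : Hyp F) : 4 ≤ Fintype.card F := by
  obtain ⟨r, hr, hr2, h⟩ := hF.card
  rw [h]
  calc 4 ≤ 3 ^ 2 := by norm_num
    _ ≤ 3 ^ r := Nat.pow_le_pow_right (by norm_num) hr.two_le

lemma Hyp.dd_eq (hF : Hyp F) : dd F = 2 := by
  have := hF.card_mod
  exact gcd_two_odd (by omega)

/-- No subgroup of order divisible by `8`. -/
lemma Hyp.not_dvd (hF : Hyp F) : ¬ 8 ∣ Nat.card PSL(2, F) := by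
  rintro ⟨k, hk⟩
  have h := card_PSL2_mul_dd F
  rw [hF.dd_eq, hk] at h
  obtain ⟨m, hm⟩ : ∃ m, Fintype.card F = 8 * m + 3 := ⟨Fintype.card F / 8, by have := hF.card_mod; omega⟩
  rw [hm] at h
  have h1 : (8 * m + 3) ^ 2 - 1 = 64 * m ^ 2 + 48 * m + 8 := by
    have : (8 * m + 3) ^ 2 = 64 * m ^ 2 + 48 * m + 8 + 1 := by ring
    rw [this, Nat.add_sub_cancel]
  rw [h1] at h
  have h2 : 2 * k = 2 * (32 * m ^ 3 + 36 * m ^ 2 + 13 * m + 1) + 1 := by nlinarith
  omega

theorem Hyp.struct3 (hF : Hyp F) (H : Subgroup PSL(2, F)) (hs : Group.IsSolvable H) :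
    Nat.card H = 1 ∨ (∃ g : SL(2, F), ∀ X, mkP X ∈ H → Up g X) ∨
      (∃ A : SL(2, F), NC A ∧ disc A ≠ 0 ∧ H ≤ Nz A) ∨ Nat.card H = 12 := by
  haveI := hF.charP
  haveI : Fact (Nat.Prime 3) := ⟨Nat.prime_three⟩
  obtain ⟨r, hr, hr2, hq⟩ := hF.card
  have hdvdG : ∀ k, Nat.card H = k → k ∣ Nat.card PSL(2, F) := by
    rintro k rfl
    exact Subgroup.card_subgroup_dvd_card H
  rcases dickson_frame 3 H with h | ⟨A, hA, hd, hle⟩ | ⟨A, hA, hd, hAH, hidx⟩ | ⟨g, hg⟩ |
    ⟨⟨e⟩⟩ | ⟨⟨e⟩⟩ | ⟨⟨e⟩⟩ | ⟨K, iK, fK, m, hm, hiso⟩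
  · exact Or.inl h
  · exact Or.inr (Or.inr (Or.inl ⟨A, hA, hd, hle.trans (cbar_le_Nz A)⟩))
  · exact Or.inr (Or.inr (Or.inl ⟨A, hA, hd, le_Nz_of_index_two hA hd hAH hidx⟩))
  · exact Or.inr (Or.inl ⟨g, hg⟩)
  · right; right; right
    rw [Nat.card_congr e.toEquiv, card_alt4]
  · exfalso
    have h1 := hdvdG 24 (by rw [Nat.card_congr e.toEquiv, card_perm4])
    exact hF.not_dvd (Dvd.dvd.trans (by norm_num) h1)
  · exfalso
    exact not_solvable_a5 (Group.isSolvable_of_isSolvable_injective (f := e.symm.toMonoidHom) e.symm.injective)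
  · obtain ⟨ℓ, hℓ, hcharK⟩ := exists_char K
    obtain ⟨f, -, hf⟩ := FiniteField.card K ℓ
    have hm0 : m ≠ 0 := by
      rintro rfl
      rw [pow_zero] at hm
      have := card_ge_two F
      omega
    have hl : ℓ = 3 := by
      have h1 : ℓ ∣ 3 ^ r := by
        rw [← hq, ← hm, hf]
        exact (dvd_pow_self _ f.ne_zero).trans (dvd_pow_self _ hm0)
      exact (Nat.prime_dvd_prime_iff_eq hℓ Nat.prime_three).1 (hℓ.dvd_of_dvd_pow h1)
    subst hl
    have hexp : r = (f : ℕ) * m := by
      have h1 : 3 ^ r = 3 ^ ((f : ℕ) * m) := by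
        rw [pow_mul, ← hf, hm, hq]
      exact Nat.pow_right_injective (by norm_num) h1
    rcases (Nat.dvd_prime hr).1 (Dvd.intro _ hexp.symm) with hf1 | hf1
    · have hK3 : Fintype.card K = 3 := by
        rw [hf, hf1, pow_one]
      rcases hiso with ⟨⟨e⟩⟩ | ⟨⟨e⟩⟩
      · right; right; right
        rw [Nat.card_congr e.toEquiv]
        have h1 := card_PSL2_mul_dd K
        unfold dd at h1
        rw [hK3] at h1
        norm_num at h1
        omega
      · exfalso
        have h1 := hdvdG 24 (by rw [Nat.card_congr e.toEquiv, card_PGL, hK3]; norm_num)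
        exact hF.not_dvd (Dvd.dvd.trans (by norm_num) h1)
    · exfalso
      rw [hf1] at hexp
      have hm1 : m = 1 := by
        have := hr.pos
        exact (Nat.eq_of_mul_eq_mul_left this (by rw [mul_one]; exact hexp.symm))
      subst hm1
      rw [pow_one] at hm
      have htop := eq_top_of_card_K hm hiso
      apply not_solvable_psl hF.four_le
      subst htop
      exact Group.isSolvable_of_isSolvable_injective
        (f := (Subgroup.topEquiv (G := PSL(2, F))).symm.toMonoidHom)
        (Subgroup.topEquiv (G := PSL(2, F))).symm.injective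

/-- Cubes in characteristic three. -/
lemma Hyp.tr_cube (hF : Hyp F) (Z : SL(2, F)) : tr (Z * Z * Z) = tr Z ^ 3 := by
  simp only [tr, mul_00, mul_11, mul_01, mul_10]
  linear_combination (Z.1 0 0 * Z.1 0 1 * Z.1 1 0 + Z.1 0 1 * Z.1 1 0 * Z.1 1 1 - Z.1 0 0 ^ 2 * Z.1 1 1
    - Z.1 0 0 * Z.1 1 1 ^ 2) * hF.h3

lemma Hyp.tr_sq_of_pow3 (hF : Hyp F) {Z : SL(2, F)} (h : mkP Z * mkP Z * mkP Z = 1) :
    tr Z ^ 2 = 1 := by
  rw [← map_mul, ← map_mul, mkP_eq_one_iff] at h
  have h3 := hF.h3
  have h4 := hF.four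
  rcases h with h | h
  · have h1 := hF.tr_cube Z
    rw [h, tr_one] at h1
    have h2 : (tr Z - 2) ^ 3 = 0 := by
      linear_combination -h1 + (-2 * tr Z ^ 2 + 4 * tr Z - 2) * h3
    have h5 : tr Z = 2 := sub_eq_zero.1 (pow_eq_zero_iff (by norm_num) |>.1 h2)
    rw [h5]
    linear_combination h4
  · have h1 := hF.tr_cube Z
    rw [h, tr_neg, tr_one] at h1
    have h2 : (tr Z + 2) ^ 3 = 0 := by
      linear_combination -h1 + (2 * tr Z ^ 2 + 4 * tr Z + 2) * h3
    have h5 : tr Z = -2 := by
      have := pow_eq_zero_iff (n := 3) (by norm_num) |>.1 h2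
      linear_combination this
    rw [h5]
    linear_combination h4

lemma Hyp.pow3_of_tr_sq (hF : Hyp F) {Z : SL(2, F)} (h : tr Z ^ 2 = 1) :
    mkP Z * mkP Z * mkP Z = 1 := by
  rw [← map_mul, ← map_mul, mkP_eq_one_iff]
  have hdet := det_entries Z
  have hu : (Z.1 0 0 + Z.1 1 1) ^ 2 = 1 := h
  have h1 : (tr Z - 1) * (tr Z + 1) = 0 := by linear_combination h
  have o00 : (1 : SL(2, F)).1 0 0 = 1 := by simp
  have o01 : (1 : SL(2, F)).1 0 1 = 0 := by simp
  have o10 : (1 : SL(2, F)).1 1 0 = 0 := by simp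
  have o11 : (1 : SL(2, F)).1 1 1 = 1 := by simp
  rcases mul_eq_zero.1 h1 with h2 | h2
  · right
    have hu1 : Z.1 0 0 + Z.1 1 1 = 1 := sub_eq_zero.1 h2
    apply ext2
    · simp only [mul_00, mul_01, mul_10, mul_11, neg_00, o00]
      linear_combination (Z.1 0 0) * hu - (Z.1 0 0 + (Z.1 0 0 + Z.1 1 1)) * hdet - hu1
    · simp only [mul_00, mul_01, mul_10, mul_11, neg_01, o01]
      linear_combination (Z.1 0 1) * hu - (Z.1 0 1) * hdet
    · simp only [mul_00, mul_01, mul_10, mul_11, neg_10, o10]
      linear_combination (Z.1 1 0) * hu - (Z.1 1 0) * hdet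
    · simp only [mul_00, mul_01, mul_10, mul_11, neg_11, o11]
      linear_combination (Z.1 1 1) * hu - (Z.1 1 1 + (Z.1 0 0 + Z.1 1 1)) * hdet - hu1
  · left
    have hu1 : Z.1 0 0 + Z.1 1 1 = -1 := by
      have : tr Z = Z.1 0 0 + Z.1 1 1 := rfl
      rw [← this]
      linear_combination h2
    apply ext2
    · simp only [mul_00, mul_01, mul_10, mul_11, o00]
      linear_combination (Z.1 0 0) * hu - (Z.1 0 0 + (Z.1 0 0 + Z.1 1 1)) * hdet - hu1
    · simp only [mul_00, mul_01, mul_10, mul_11, o01]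
      linear_combination (Z.1 0 1) * hu - (Z.1 0 1) * hdet
    · simp only [mul_00, mul_01, mul_10, mul_11, o10]
      linear_combination (Z.1 1 0) * hu - (Z.1 1 0) * hdet
    · simp only [mul_00, mul_01, mul_10, mul_11, o11]
      linear_combination (Z.1 1 1) * hu - (Z.1 1 1 + (Z.1 0 0 + Z.1 1 1)) * hdet - hu1

lemma Hyp.tr_zero_of_inv (hF : Hyp F) {Z : SL(2, F)} (h : mkP Z * mkP Z = 1) (h1 : mkP Z ≠ 1) :
    tr Z = 0 := by
  rw [← map_mul, mkP_eq_one_iff] at h
  rcases h with h | h
  · exfalso
    apply h1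
    rw [mkP_eq_one_iff]
    exact (Torus.mul_self_eq_one_iff hF.two_ne Z).1 h
  · exact (Torus.mul_self_eq_neg_one_iff Z).1 h

lemma inv_of_tr_zero {Z : SL(2, F)} (h : tr Z = 0) : mkP Z * mkP Z = 1 := by
  rw [← map_mul, (Torus.mul_self_eq_neg_one_iff Z).2 h, mkP_neg_one]

/-- Orders in a subgroup of order twelve. -/
lemma ord_aux {n k1 k2 : ℕ} (h12 : n ∣ 12) (h1 : k1 % 2 = 1) (h1' : k1 % 3 = 1) (h2 : k2 % 4 = 2)
    (h2' : k2 % 3 = 2) (h : n ∣ 3 ∨ n ∣ k1 ∨ n ∣ k2) : n ∣ 2 ∨ n ∣ 3 := by
  have hle : n ≤ 12 := Nat.le_of_dvd (by norm_num) h12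
  interval_cases n <;> omega

lemma Hyp.elem12 (hF : Hyp F) {H : Subgroup PSL(2, F)} (hc : Nat.card H = 12) {z : PSL(2, F)}
    (hz : z ∈ H) : z * z = 1 ∨ z * z * z = 1 := by
  haveI := hF.charP
  haveI : Fact (Nat.Prime 3) := ⟨Nat.prime_three⟩
  obtain ⟨Z, rfl⟩ := mkP_surjective z
  have h1 : orderOf (mkP Z) ∣ 12 := by
    have := orderOf_dvd_natCard (⟨mkP Z, hz⟩ : H)
    rwa [Subgroup.orderOf_mk, hc] at this
  have h2 := Spectrum.orderOf_cases 3 Z
  have hm8 := hF.card_mod
  have hm3 := hF.card_mod3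
  have hg : Nat.gcd 2 (Fintype.card F - 1) = 2 := gcd_two_odd (by omega)
  rw [hg] at h2
  have h3 := ord_aux (k1 := (Fintype.card F - 1) / 2) (k2 := (Fintype.card F + 1) / 2) h1
    (by omega) (by omega) (by omega) (by omega) h2
  rcases h3 with h3 | h3
  · left
    have := orderOf_dvd_iff_pow_eq_one.1 h3
    rwa [pow_two] at this
  · right
    have := orderOf_dvd_iff_pow_eq_one.1 h3
    rwa [pow_succ, pow_two] at this

lemma Hyp.tr12 (hF : Hyp F) {H : Subgroup PSL(2, F)} (hc : Nat.card H = 12) {Z : SL(2, F)}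
    (hz : mkP Z ∈ H) : tr Z ^ 3 = tr Z := by
  by_cases h1 : mkP Z = 1
  · have h3 := hF.tr_sq_of_pow3 (Z := Z) (by rw [h1]; simp)
    linear_combination tr Z * h3
  · rcases hF.elem12 hc hz with h | h
    · rw [hF.tr_zero_of_inv h h1]
      ring
    · have h3 := hF.tr_sq_of_pow3 h
      linear_combination tr Z * h3


/-- `mkP` is two to one. -/
lemma card_lift (h2 : (2 : F) ≠ 0) (P : PSL(2, F) → Prop) :
    Nat.card {Y : SL(2, F) // P (mkP Y)} = 2 * Nat.card {y : PSL(2, F) // P y} := by
  classical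
  let s : PSL(2, F) → SL(2, F) := Function.surjInv mkP_surjective
  have hs : ∀ y, mkP (s y) = y := Function.surjInv_eq mkP_surjective
  have hne : ∀ Y : SL(2, F), Y ≠ -Y := by
    intro Y h
    have h1 := congrArg (fun M : SL(2, F) => M.1 0 0) h
    have h3 := congrArg (fun M : SL(2, F) => M.1 1 0) h
    have h4 := congrArg (fun M : SL(2, F) => M.1 0 1) h
    have h5 := congrArg (fun M : SL(2, F) => M.1 1 1) h
    simp only [neg_00, neg_01, neg_10, neg_11] at h1 h3 h4 h5
    have e : ∀ z : F, z = -z → z = 0 := by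
      intro z hz
      have : 2 * z = 0 := by linear_combination hz
      exact (mul_eq_zero.1 this).resolve_left h2
    have hdet := det_entries Y
    rw [e _ h1, e _ h4] at hdet
    simp at hdet
  have hm : ∀ Y : SL(2, F), mkP (-Y) = mkP Y := fun Y => (mkP_eq_iff.2 (Or.inr rfl)).symm
  let f : {y : PSL(2, F) // P y} × Bool → {Y : SL(2, F) // P (mkP Y)} := fun u =>
    if u.2 then ⟨s u.1.1, by rw [hs]; exact u.1.2⟩ else ⟨-s u.1.1, by rw [hm, hs]; exact u.1.2⟩
  have hf : Function.Bijective f := by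
    constructor
    · rintro ⟨⟨y, hy⟩, b⟩ ⟨⟨y', hy'⟩, b'⟩ h
      have h1 : (f (⟨y, hy⟩, b)).1 = (f (⟨y', hy'⟩, b')).1 := congrArg Subtype.val h
      have h2' : y = y' := by
        have h3 := congrArg mkP h1
        cases b <;> cases b' <;> simpa [f, hm, hs] using h3
      subst h2'
      cases b <;> cases b'
      · rfl
      · exfalso
        simp [f] at h1
        exact hne _ h1.symm
      · exfalso
        simp [f] at h1
        exact hne _ h1
      · rfl
    · rintro ⟨Y, hY⟩
      rcases mkP_eq_iff.1 (hs (mkP Y)) with h | h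
      · refine ⟨(⟨mkP Y, hY⟩, true), ?_⟩
        apply Subtype.ext
        show s (mkP Y) = Y
        exact h.symm
      · refine ⟨(⟨mkP Y, hY⟩, false), ?_⟩
        apply Subtype.ext
        show -s (mkP Y) = Y
        exact h.symm
  rw [← Nat.card_congr (Equiv.ofBijective f hf), Nat.card_prod, Nat.card_eq_fintype_card (α := Bool),
    Fintype.card_bool, mul_comm]

section Inv

lemma nc_w : NC (w : SL(2, F)) := by
  constructor
  · intro h
    have := congrArg (fun M : SL(2, F) => M.1 0 1) h
    simp at this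
  · intro h
    have := congrArg (fun M : SL(2, F) => M.1 0 1) h
    simp at this

lemma tr_w : tr (w : SL(2, F)) = 0 := by simp [tr]

lemma tr_w_mul (Y : SL(2, F)) : tr (w * Y) = Y.1 1 0 - Y.1 0 1 := by
  simp [tr]
  ring

lemma w_comm_iff (Y : SL(2, F)) : w * Y = Y * w ↔ Y.1 1 1 = Y.1 0 0 ∧ Y.1 1 0 = -Y.1 0 1 := by
  constructor
  · intro h
    have h00 := congrArg (fun M : SL(2, F) => M.1 0 0) h
    have h01 := congrArg (fun M : SL(2, F) => M.1 0 1) h
    simp at h00 h01
    exact ⟨h01, h00⟩
  · rintro ⟨h1, h2⟩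
    apply ext2 <;> simp [h1, h2]

lemma not_up_w (hF : Hyp F) (g : SL(2, F)) : ¬ Up g w := by
  intro h
  unfold Up at h
  rw [T_10] at h
  simp only [w_00, w_01, w_10, w_11] at h
  have hdet := det_entries g
  by_cases h11 : g.1 1 1 = 0
  · rw [h11] at h hdet
    have : g.1 1 0 = 0 := by
      have h3 : g.1 1 0 ^ 2 = 0 := by linear_combination -h
      exact pow_eq_zero_iff (by norm_num) |>.1 h3
    rw [this] at hdet
    simp at hdet
  · apply hF.no_sq (g.1 1 0 / g.1 1 1)
    field_simp
    linear_combination -h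

theorem solv_w_iff (hF : Hyp F) (Y : SL(2, F)) :
    Group.IsSolvable (closure ({mkP w, mkP Y} : Set PSL(2, F))) ↔
      tr Y = 0 ∨ tr (w * Y) = 0 ∨ w * Y = Y * w ∨ (tr Y ^ 2 = 1 ∧ tr (w * Y) ^ 2 = 1) := by
  have hG := hF.good
  constructor
  · intro hs
    have hXm := mem_closure_left (mkP (w : SL(2, F))) (mkP Y)
    have hYm := mem_closure_right (mkP (w : SL(2, F))) (mkP Y)
    rcases hF.struct3 _ hs with h | ⟨g, hg⟩ | ⟨A, hA, hd, hle⟩ | h
    · exfalso
      haveI : Subsingleton (closure ({mkP (w : SL(2, F)), mkP Y} : Set PSL(2, F))) :=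
        (Nat.card_eq_one_iff_unique.1 h).1
      have h1 : (⟨mkP w, hXm⟩ : closure ({mkP (w : SL(2, F)), mkP Y} : Set PSL(2, F))) = 1 :=
        Subsingleton.elim _ _
      exact mkP_ne_one nc_w (congrArg Subtype.val h1)
    · exact absurd (hg _ hXm) (not_up_w hF g)
    · have hXA := commute_or_inverts hA hd (hle hXm)
      have hYA := commute_or_inverts hA hd (hle hYm)
      rcases hYA with hY | hY
      · rcases hXA with hX | hX
        · right; right; left
          exact commute_of_commute hA hX hY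
        · right; left
          have h3 := inverts_of_inverts_commute hA hd hX hY
          have h4 : w * Y = Y⁻¹ * w := by
            rw [← h3]
            group
          have h00 := congrArg (fun M : SL(2, F) => M.1 0 0) h4
          simp at h00
          rw [tr_w_mul, h00]
          ring
      · left
        exact TorusCore.tr_eq_zero_of_inverts hA hY
    · by_cases hu : tr Y = 0
      · exact Or.inl hu
      by_cases hv : tr (w * Y) = 0
      · exact Or.inr (Or.inl hv)
      right; right; right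
      have h1 := hF.tr12 h hYm
      have h3 := hF.tr12 h (Z := w * Y) (by rw [map_mul]; exact Subgroup.mul_mem _ hXm hYm)
      constructor
      · apply mul_left_cancel₀ hu
        linear_combination h1
      · apply mul_left_cancel₀ hv
        linear_combination h3
  · rintro (h | h | h | ⟨h1, h3⟩)
    · exact hG.pair_inv (inv_of_tr_zero tr_w) (inv_of_tr_zero h)
    · apply hG.pair_of_inv
      left
      have h1 := inv_of_tr_zero h
      have h3 := inv_of_tr_zero (tr_w (F := F))
      rw [map_mul] at h1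
      have hi : (mkP (w : SL(2, F)))⁻¹ = mkP w := inv_eq_of_mul_eq_one_left h3
      rw [hi]
      apply eq_inv_of_mul_eq_one_left
      rw [← h1]
      group
    · apply hG.pair_of_inv
      right
      rw [← map_inv, ← map_mul, ← map_mul, h]
      simp
    · apply hG.solv
      apply hG.a4 (inv_of_tr_zero tr_w) (hF.pow3_of_tr_sq h1)
      rw [← map_mul]
      exact hF.pow3_of_tr_sq h3


/-- The circle. -/
lemma card_circle (hF : Hyp F) :
    Nat.card {p : F × F // p.1 ^ 2 + p.2 ^ 2 = 1} = Fintype.card F + 1 := by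
  classical
  have hne : ∀ t : F, 1 + t ^ 2 ≠ 0 := by
    intro t h
    apply hF.no_sq t
    linear_combination h
  let f : Option F → {p : F × F // p.1 ^ 2 + p.2 ^ 2 = 1} := fun o =>
    match o with
    | none => ⟨(-1, 0), by simp⟩
    | some t => ⟨((1 - t ^ 2) / (1 + t ^ 2), 2 * t / (1 + t ^ 2)), by
        have := hne t
        simp only
        field_simp
        ring⟩
  have hf : Function.Bijective f := by
    constructor
    · rintro (_ | a) (_ | b) h
      · rfl
      · exfalso
        have h1 := congrArg (fun p => p.1.1) h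
        simp only [f] at h1
        have := hne b
        field_simp at h1
        apply hF.two_ne
        linear_combination -h1
      · exfalso
        have h1 := congrArg (fun p => p.1.1) h
        simp only [f] at h1
        have := hne a
        field_simp at h1
        apply hF.two_ne
        linear_combination h1
      · have h1 := congrArg (fun p => p.1.1) h
        have h3 := congrArg (fun p => p.1.2) h
        simp only [f] at h1 h3
        have ha := hne a
        have hb := hne b
        field_simp at h1 h3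
        have e1 : a ^ 2 = b ^ 2 := by
          apply mul_left_cancel₀ hF.two_ne
          linear_combination -h1
        rw [← e1] at h3
        have e2 : 2 * (1 + a ^ 2) * (a - b) = 0 := by linear_combination h3
        have e3 : a - b = 0 := by
          rcases mul_eq_zero.1 e2 with h4 | h4
          · rcases mul_eq_zero.1 h4 with h5 | h5
            · exact absurd h5 hF.two_ne
            · exact absurd h5 ha
          · exact h4
        rw [sub_eq_zero.1 e3]
    · rintro ⟨⟨a, b⟩, h⟩
      simp only at h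
      by_cases h1 : a = -1
      · refine ⟨none, ?_⟩
        apply Subtype.ext
        subst h1
        have hb : b = 0 := by
          have : b ^ 2 = 0 := by linear_combination h
          exact pow_eq_zero_iff (by norm_num) |>.1 this
        subst hb
        rfl
      · have ha : 1 + a ≠ 0 := fun h2 => h1 (by linear_combination h2)
        refine ⟨some (b / (1 + a)), ?_⟩
        apply Subtype.ext
        have hd : (1 + a) ^ 2 + b ^ 2 ≠ 0 := by
          have := hne (b / (1 + a))
          intro h2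
          apply this
          field_simp
          linear_combination h2
        have hb2 : b ^ 2 = 1 - a ^ 2 := by linear_combination h
        have hd' : (1 + a) ^ 2 + b ^ 2 = 2 * (1 + a) := by rw [hb2]; ring
        apply Prod.ext
        · simp only [f]
          field_simp
          rw [hb2]
          ring
        · simp only [f]
          field_simp
          rw [hb2]
          ring
  rw [← Nat.card_congr (Equiv.ofBijective f hf), Nat.card_eq_fintype_card, Fintype.card_option]

lemma card_circle' (hF : Hyp F) :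
    Nat.card {p : F × F // p.1 ^ 2 + p.2 ^ 2 = -1} = Fintype.card F + 1 := by
  rw [← card_circle hF]
  have h3 := hF.h3
  apply Nat.card_congr
  refine ⟨fun p => ⟨(-(p.1.1 + p.1.2), -(p.1.1 - p.1.2)), ?_⟩, fun p => ⟨(p.1.1 + p.1.2, p.1.1 - p.1.2), ?_⟩,
    ?_, ?_⟩
  · have := p.2
    simp only at this ⊢
    linear_combination 2 * this - h3
  · have := p.2
    simp only at this ⊢
    linear_combination 2 * this + h3
  · rintro ⟨⟨a, b⟩, h⟩
    apply Subtype.ext
    apply Prod.ext
    · simp only
      linear_combination -a * h3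
    · simp only
      linear_combination -b * h3
  · rintro ⟨⟨a, b⟩, h⟩
    apply Subtype.ext
    apply Prod.ext
    · simp only
      linear_combination -a * h3
    · simp only
      linear_combination -b * h3

/-- Fibres of the two traces. -/
lemma card_fiber (hF : Hyp F) (u v : F) :
    Nat.card {Y : SL(2, F) // tr Y = u ∧ tr (w * Y) = v} =
      Nat.card {p : F × F // p.1 ^ 2 + p.2 ^ 2 = u ^ 2 + v ^ 2 - 4} := by
  have h2 := hF.two_ne
  apply Nat.card_congr
  refine ⟨fun Y => ⟨(Y.1.1 0 0 - Y.1.1 1 1, Y.1.1 0 1 + Y.1.1 1 0), ?_⟩,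
    fun p => ⟨sl2 ((u + p.1.1) / 2) ((p.1.2 - v) / 2) ((p.1.2 + v) / 2) ((u - p.1.1) / 2) ?_, ?_⟩,
    ?_, ?_⟩
  · obtain ⟨Y, h1, h3⟩ := Y
    simp only
    rw [tr_w_mul] at h3
    rw [← h1, ← h3, tr_def]
    have hdet := det_entries Y
    linear_combination -4 * hdet
  · obtain ⟨⟨a, b⟩, h⟩ := p
    simp only at h ⊢
    field_simp
    linear_combination -h
  · obtain ⟨⟨a, b⟩, h⟩ := p
    constructor
    · rw [tr_def]
      simp only [sl2_00, sl2_11]
      field_simp
      ring
    · rw [tr_w_mul]
      simp only [sl2_01, sl2_10]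
      field_simp
      ring
  · rintro ⟨Y, h1, h3⟩
    apply Subtype.ext
    rw [tr_def] at h1
    rw [tr_w_mul] at h3
    apply ext2
    · simp only [sl2_00]
      rw [← h1]
      field_simp
      ring
    · simp only [sl2_01]
      rw [← h3]
      field_simp
      ring
    · simp only [sl2_10]
      rw [← h3]
      field_simp
      ring
    · simp only [sl2_11]
      rw [← h1]
      field_simp
      ring
  · rintro ⟨⟨a, b⟩, h⟩
    apply Subtype.ext
    apply Prod.ext
    · simp only [sl2_00, sl2_11]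
      field_simp
      ring
    · simp only [sl2_01, sl2_10]
      field_simp
      ring

/-- Elements of trace zero. -/
lemma card_A (hF : Hyp F) : Nat.card {Y : SL(2, F) // tr Y = 0} =
    Fintype.card F * (Fintype.card F - 1) := by
  classical
  let f : F × Fˣ → {Y : SL(2, F) // tr Y = 0} := fun u =>
    ⟨sl2 u.1 (u.2 : F) (-(u.1 ^ 2 + 1) / (u.2 : F)) (-u.1) (by
      have := u.2.ne_zero
      field_simp
      ring), by
      rw [tr_def]
      simp only [sl2_00, sl2_11]
      ring⟩
  have hf : Function.Bijective f := by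
    constructor
    · rintro ⟨a, c⟩ ⟨a', c'⟩ h
      have h1 := congrArg (fun Y => Y.1.1 0 0) h
      have h2 := congrArg (fun Y => Y.1.1 0 1) h
      simp only [f, sl2_00, sl2_01] at h1 h2
      rw [h1, Units.ext h2]
    · rintro ⟨Y, h0⟩
      rw [tr_def] at h0
      have hd : Y.1 1 1 = -Y.1 0 0 := by linear_combination h0
      have hdet := det_entries Y
      rw [hd] at hdet
      have hb : Y.1 0 1 ≠ 0 := by
        intro hb
        rw [hb] at hdet
        apply hF.no_sq (Y.1 0 0)
        linear_combination -hdet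
      refine ⟨(Y.1 0 0, Units.mk0 _ hb), ?_⟩
      apply Subtype.ext
      apply ext2
      · rfl
      · rfl
      · simp only [f, sl2_10, Units.val_mk0]
        field_simp
        linear_combination hdet
      · simp only [f, sl2_11]
        exact hd.symm
  rw [← Nat.card_congr (Equiv.ofBijective f hf), Nat.card_prod, Nat.card_eq_fintype_card,
    Nat.card_units, Nat.card_eq_fintype_card]

lemma card_B (hF : Hyp F) : Nat.card {Y : SL(2, F) // tr (w * Y) = 0} =
    Fintype.card F * (Fintype.card F - 1) := by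
  rw [← card_A hF]
  exact Nat.card_congr (Equiv.subtypeEquiv (Equiv.mulLeft w) (fun Y => Iff.rfl))

lemma card_AB (hF : Hyp F) : Nat.card {Y : SL(2, F) // tr Y = 0 ∧ tr (w * Y) = 0} =
    Fintype.card F + 1 := by
  rw [card_fiber hF, ← card_circle' hF]
  apply Nat.card_congr
  apply Equiv.subtypeEquivRight
  intro p
  have h4 := hF.four
  have : (0 : F) ^ 2 + 0 ^ 2 - 4 = -1 := by
    rw [h4]
    ring
  rw [this]

lemma card_D1 (hF : Hyp F) {u v : F} (hu : u ^ 2 = 1) (hv : v ^ 2 = 1) :
    Nat.card {Y : SL(2, F) // tr Y = u ∧ tr (w * Y) = v} = Fintype.card F + 1 := by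
  rw [card_fiber hF, ← card_circle hF]
  apply Nat.card_congr
  apply Equiv.subtypeEquivRight
  intro p
  have h3 := hF.h3
  have : u ^ 2 + v ^ 2 - 4 = 1 := by
    rw [hu, hv]
    linear_combination -h3
  rw [this]

lemma or_eq_of_sq {z : F} (h : z ^ 2 = 1) : z = 1 ∨ z = -1 := by
  have : (z - 1) * (z + 1) = 0 := by linear_combination h
  rcases mul_eq_zero.1 this with h1 | h1
  · exact Or.inl (sub_eq_zero.1 h1)
  · right
    linear_combination h1

lemma card_D (hF : Hyp F) : Nat.card {Y : SL(2, F) // tr Y ^ 2 = 1 ∧ tr (w * Y) ^ 2 = 1} =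
    4 * (Fintype.card F + 1) := by
  have hne := hF.one_ne_neg
  have hcong : Nat.card {Y : SL(2, F) // tr Y ^ 2 = 1 ∧ tr (w * Y) ^ 2 = 1} =
      Nat.card {Y : SL(2, F) // (tr Y = 1 ∧ tr (w * Y) = 1) ∨ ((tr Y = 1 ∧ tr (w * Y) = -1) ∨
        ((tr Y = -1 ∧ tr (w * Y) = 1) ∨ (tr Y = -1 ∧ tr (w * Y) = -1)))} := by
    apply Nat.card_congr
    apply Equiv.subtypeEquivRight
    intro Y
    constructor
    · rintro ⟨h1, h3⟩
      rcases or_eq_of_sq h1 with h4 | h4 <;> rcases or_eq_of_sq h3 with h5 | h5 <;> simp [h4, h5]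
    · rintro (⟨h1, h3⟩ | ⟨h1, h3⟩ | ⟨h1, h3⟩ | ⟨h1, h3⟩) <;> rw [h1, h3] <;> simp
  rw [hcong, card_or_of_disjoint, card_or_of_disjoint, card_or_of_disjoint,
    card_D1 hF (by ring) (by ring), card_D1 hF (by ring) (by ring), card_D1 hF (by ring) (by ring),
    card_D1 hF (by ring) (by ring)]
  · ring
  · rintro Y ⟨-, h1⟩ ⟨-, h3⟩
    rw [h1] at h3
    exact hne h3
  · rintro Y ⟨h1, -⟩ (⟨h3, -⟩ | ⟨h3, -⟩)
    · rw [h1] at h3
      exact hne h3
    · rw [h1] at h3
      exact hne h3
  · rintro Y ⟨h1, h2⟩ (⟨-, h4⟩ | ⟨h3, -⟩ | ⟨h3, -⟩)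
    · rw [h2] at h4
      exact hne h4
    · rw [h1] at h3
      exact hne h3
    · rw [h1] at h3
      exact hne h3


lemma card_C (hF : Hyp F) : Nat.card {Y : SL(2, F) // w * Y = Y * w} = Fintype.card F + 1 := by
  rw [← card_circle hF]
  apply Nat.card_congr
  refine ⟨fun Y => ⟨(Y.1.1 0 0, Y.1.1 1 0), ?_⟩, fun p => ⟨sl2 p.1.1 (-p.1.2) p.1.2 p.1.1 ?_, ?_⟩, ?_, ?_⟩
  · obtain ⟨Y, h⟩ := Y
    obtain ⟨h1, h2⟩ := (w_comm_iff Y).1 h
    have hdet := det_entries Y
    simp only
    rw [h1] at hdet
    have h3 : Y.1 0 1 = -Y.1 1 0 := by linear_combination h2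
    rw [h3] at hdet
    linear_combination hdet
  · show p.1.1 * p.1.1 - -p.1.2 * p.1.2 = 1
    have h5 : p.1.1 ^ 2 + p.1.2 ^ 2 = 1 := p.2
    linear_combination h5
  · rw [w_comm_iff]
    simp only [sl2_00, sl2_01, sl2_10, sl2_11]
    simp
  · rintro ⟨Y, h⟩
    obtain ⟨h1, h2⟩ := (w_comm_iff Y).1 h
    apply Subtype.ext
    apply ext2
    · rfl
    · simp only [sl2_01]
      linear_combination -h2
    · rfl
    · simp only [sl2_11]
      exact h1.symm
  · rintro ⟨⟨a, b⟩, h⟩
    rfl

lemma card_of_two {α : Type*} {a b : α} (hab : a ≠ b) {P : α → Prop} (ha : P a) (hb : P b)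
    (h : ∀ c, P c → c = a ∨ c = b) : Nat.card {c // P c} = 2 := by
  classical
  rw [Nat.card_eq_two_iff]
  refine ⟨⟨a, ha⟩, ⟨b, hb⟩, fun h1 => hab (congrArg Subtype.val h1), ?_⟩
  ext ⟨c, hc⟩
  simp only [Set.mem_insert_iff, Set.mem_singleton_iff, Set.mem_univ, iff_true, Subtype.mk.injEq]
  exact h c hc

lemma self_ne_neg (hF : Hyp F) (Y : SL(2, F)) : Y ≠ -Y := by
  intro h
  have h2 := hF.two_ne
  have h1 := congrArg (fun M : SL(2, F) => M.1 0 0) h
  have h4 := congrArg (fun M : SL(2, F) => M.1 0 1) h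
  simp only [neg_00, neg_01] at h1 h4
  have e : ∀ z : F, z = -z → z = 0 := by
    intro z hz
    have : 2 * z = 0 := by linear_combination hz
    exact (mul_eq_zero.1 this).resolve_left h2
  have hdet := det_entries Y
  rw [e _ h1, e _ h4] at hdet
  simp at hdet

lemma card_CA (hF : Hyp F) : Nat.card {Y : SL(2, F) // w * Y = Y * w ∧ tr Y = 0} = 2 := by
  apply card_of_two (self_ne_neg hF w)
  · exact ⟨rfl, tr_w⟩
  · refine ⟨?_, ?_⟩
    · rw [w_comm_iff]
      simp
    · rw [tr_neg, tr_w, neg_zero]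
  · rintro Y ⟨h, h0⟩
    obtain ⟨h1, h2⟩ := (w_comm_iff Y).1 h
    rw [tr_def, h1] at h0
    have h3 : Y.1 0 0 = 0 := by
      have : 2 * Y.1 0 0 = 0 := by linear_combination h0
      exact (mul_eq_zero.1 this).resolve_left hF.two_ne
    have hdet := det_entries Y
    rw [h1, h3, h2] at hdet
    have h5 : (Y.1 0 1 - 1) * (Y.1 0 1 + 1) = 0 := by linear_combination hdet
    rcases mul_eq_zero.1 h5 with h6 | h6
    · left
      apply ext2
      · simpa using h3
      · simpa using sub_eq_zero.1 h6
      · rw [h2, sub_eq_zero.1 h6]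
        simp
      · rw [h1, h3]
        simp
    · right
      apply ext2
      · simpa using h3
      · simp only [neg_01, w_01]
        linear_combination h6
      · simp only [neg_10, w_10]
        rw [h2]
        linear_combination -h6
      · simp only [neg_11, w_11]
        rw [h1, h3]
        simp

lemma card_CB (hF : Hyp F) : Nat.card {Y : SL(2, F) // w * Y = Y * w ∧ tr (w * Y) = 0} = 2 := by
  apply card_of_two (self_ne_neg hF 1)
  · refine ⟨by simp, ?_⟩
    rw [mul_one, tr_w]
  · refine ⟨?_, ?_⟩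
    · rw [w_comm_iff]
      simp
    · rw [tr_w_mul]
      simp
  · rintro Y ⟨h, h0⟩
    obtain ⟨h1, h2⟩ := (w_comm_iff Y).1 h
    rw [tr_w_mul, h2] at h0
    have h3 : Y.1 0 1 = 0 := by
      have : 2 * Y.1 0 1 = 0 := by linear_combination -h0
      exact (mul_eq_zero.1 this).resolve_left hF.two_ne
    have h4 : Y.1 1 0 = 0 := by rw [h2, h3]; simp
    have hdet := det_entries Y
    rw [h1, h3] at hdet
    have h5 : (Y.1 0 0 - 1) * (Y.1 0 0 + 1) = 0 := by linear_combination hdet
    rcases mul_eq_zero.1 h5 with h6 | h6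
    · left
      apply ext2
      · simpa using sub_eq_zero.1 h6
      · simpa using h3
      · simpa using h4
      · rw [h1, sub_eq_zero.1 h6]
        simp
    · right
      apply ext2
      · simp only [neg_00]
        simp
        linear_combination h6
      · simpa using h3
      · simpa using h4
      · simp only [neg_11]
        rw [h1]
        simp
        linear_combination h6

lemma card_and_not {α : Type*} [Finite α] (p q : α → Prop) :
    Nat.card {a // p a ∧ q a} + Nat.card {a // p a ∧ ¬ q a} = Nat.card {a // p a} := by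
  rw [← card_or_of_disjoint (fun a => p a ∧ q a) (fun a => p a ∧ ¬ q a) (fun a h1 h2 => h2.2 h1.2)]
  apply Nat.card_congr
  apply Equiv.subtypeEquivRight
  intro a
  constructor
  · rintro (h | h) <;> exact h.1
  · intro h
    by_cases h1 : q a
    · exact Or.inl ⟨h, h1⟩
    · exact Or.inr ⟨h, h1⟩

/-- The full count, involution case. -/
theorem card_w_case (hF : Hyp F) :
    Nat.card {Y : SL(2, F) // tr Y = 0 ∨ tr (w * Y) = 0 ∨ w * Y = Y * w ∨
      (tr Y ^ 2 = 1 ∧ tr (w * Y) ^ 2 = 1)} = 2 * (Fintype.card F * (Fintype.card F + 1)) := by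
  have h3 := hF.h3
  have h4q := hF.four_le
  have hcong : Nat.card {Y : SL(2, F) // tr Y = 0 ∨ tr (w * Y) = 0 ∨ w * Y = Y * w ∨
      (tr Y ^ 2 = 1 ∧ tr (w * Y) ^ 2 = 1)} =
      Nat.card {Y : SL(2, F) // tr Y = 0 ∨ ((tr (w * Y) = 0 ∧ ¬ tr Y = 0) ∨
        (((w * Y = Y * w ∧ ¬ tr Y = 0) ∧ ¬ tr (w * Y) = 0) ∨
          (tr Y ^ 2 = 1 ∧ tr (w * Y) ^ 2 = 1)))} := by
    apply Nat.card_congr
    apply Equiv.subtypeEquivRight
    intro Y
    by_cases h1 : tr Y = 0
    · simp [h1]
    · by_cases h2 : tr (w * Y) = 0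
      · simp [h1, h2]
      · simp [h1, h2]
  have hzero : ∀ z : F, z ^ 2 = 1 → z ≠ 0 := by
    rintro z hz rfl
    simp at hz
  have e1 := card_and_not (fun Y : SL(2, F) => tr (w * Y) = 0) (fun Y => tr Y = 0)
  have e2 := card_and_not (fun Y : SL(2, F) => w * Y = Y * w) (fun Y => tr Y = 0)
  have e3 := card_and_not (fun Y : SL(2, F) => w * Y = Y * w ∧ ¬ tr Y = 0) (fun Y => tr (w * Y) = 0)
  have e4 : Nat.card {Y : SL(2, F) // (w * Y = Y * w ∧ ¬ tr Y = 0) ∧ tr (w * Y) = 0} = 2 := by
    refine Eq.trans (Nat.card_congr (Equiv.subtypeEquivRight ?_)) (card_CB hF)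
    intro Y
    constructor
    · rintro ⟨⟨h1, -⟩, h2⟩
      exact ⟨h1, h2⟩
    · rintro ⟨h1, h2⟩
      refine ⟨⟨h1, fun h0 => ?_⟩, h2⟩
      obtain ⟨h5, h6⟩ := (w_comm_iff Y).1 h1
      rw [tr_w_mul, h6] at h2
      rw [tr_def, h5] at h0
      have h7 : Y.1 0 1 = 0 := by
        have : 2 * Y.1 0 1 = 0 := by linear_combination -h2
        exact (mul_eq_zero.1 this).resolve_left hF.two_ne
      have h8 : Y.1 0 0 = 0 := by
        have : 2 * Y.1 0 0 = 0 := by linear_combination h0
        exact (mul_eq_zero.1 this).resolve_left hF.two_ne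
      have hdet := det_entries Y
      rw [h5, h7, h8] at hdet
      simp at hdet
  have e5 : Nat.card {Y : SL(2, F) // tr (w * Y) = 0 ∧ tr Y = 0} = Fintype.card F + 1 := by
    rw [← card_AB hF]
    exact Nat.card_congr (Equiv.subtypeEquivRight (fun Y => and_comm))
  have eB := card_B hF
  have eC := card_C hF
  have eCA := card_CA hF
  have eD := card_D hF
  have eA := card_A hF
  rw [hcong, card_or_of_disjoint, card_or_of_disjoint, card_or_of_disjoint, eA, eD]
  · rw [e5, eB] at e1
    rw [eCA, eC] at e2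
    rw [e4] at e3
    obtain ⟨q, hq⟩ : ∃ q, Fintype.card F = q + 1 := ⟨Fintype.card F - 1, by omega⟩
    rw [hq] at e1 e2 ⊢
    simp only [Nat.add_sub_cancel] at e1 ⊢
    have hq3 : 3 ≤ q := by omega
    obtain ⟨r, rfl⟩ : ∃ r, q = r + 3 := ⟨q - 3, by omega⟩
    nlinarith
  · -- commuting versus the last
    rintro Y ⟨⟨h1, -⟩, -⟩ ⟨h5, h6⟩
    obtain ⟨h7, h8⟩ := (w_comm_iff Y).1 h1
    rw [tr_w_mul, h8] at h6
    rw [tr_def, h7] at h5
    have hdet := det_entries Y
    rw [h7, h8] at hdet
    apply hF.two_ne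
    linear_combination h5 + h6 - 4 * hdet
  · rintro Y ⟨hB, hnA⟩ (⟨⟨-, -⟩, hnB⟩ | ⟨-, hv⟩)
    · exact hnB hB
    · exact hzero _ hv hB
  · rintro Y hA (⟨-, hnA⟩ | ⟨⟨-, hnA⟩, -⟩ | ⟨hu, -⟩)
    · exact hnA hA
    · exact hnA hA
    · exact hzero _ hu hA


end Inv

section Three

lemma tr_x_mul (t : F) (Y : SL(2, F)) : tr (x t * Y) = tr Y + t * Y.1 1 0 := by
  simp [tr]
  ring

lemma x_ne (hF : Hyp F) {t : F} (ht : t ≠ 0) : mkP (x t) ≠ 1 := by
  intro h3
  rcases mkP_eq_one_iff.1 h3 with h4 | h4
  · have := congrArg (fun M : SL(2, F) => M.1 0 1) h4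
    simp at this
    exact ht this
  · have := congrArg (fun M : SL(2, F) => M.1 0 1) h4
    simp at this
    exact ht this

lemma x_cube (hF : Hyp F) (t : F) : mkP (x t) * mkP (x t) * mkP (x t) = 1 :=
  hF.pow3_of_tr_sq (by rw [tr_x]; linear_combination hF.four)

theorem solv_x_iff3 (hF : Hyp F) {t : F} (ht : t ≠ 0) (Y : SL(2, F)) :
    Group.IsSolvable (closure ({mkP (x t), mkP Y} : Set PSL(2, F))) ↔
      Y.1 1 0 = 0 ∨ ((t * Y.1 1 0) ^ 2 = 1 ∧ tr Y ^ 3 = tr Y) := by
  have hG := hF.good
  have h3 := hF.h3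
  constructor
  · intro hs
    have hXm := mem_closure_left (mkP (x t)) (mkP Y)
    have hYm := mem_closure_right (mkP (x t)) (mkP Y)
    rcases hF.struct3 _ hs with h | ⟨g, hg⟩ | ⟨A, hA, hd, hle⟩ | h
    · exfalso
      haveI : Subsingleton (closure ({mkP (x t), mkP Y} : Set PSL(2, F))) :=
        (Nat.card_eq_one_iff_unique.1 h).1
      have h1 : (⟨mkP (x t), hXm⟩ : closure ({mkP (x t), mkP Y} : Set PSL(2, F))) = 1 :=
        Subsingleton.elim _ _
      exact x_ne hF ht (congrArg Subtype.val h1)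
    · left
      have h1 := hg _ hXm
      have h5 := hg _ hYm
      unfold Up at h1 h5
      rw [T_10] at h1 h5
      simp at h1
      have h4 : g.1 1 0 = 0 := by
        rcases h1 with h6 | h6
        · exact h6
        · exact absurd h6 ht
      rw [h4] at h5
      simp at h5
      rcases h5 with h6 | h6
      · exfalso
        have := det_entries g
        rw [h4, h6] at this
        simp at this
      · exact h6
    · exfalso
      have hXA := commute_or_inverts hA hd (hle hXm)
      rcases hXA with h | h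
      · have h00 := congrArg (fun M : SL(2, F) => M.1 0 1) h
        have h10 := congrArg (fun M : SL(2, F) => M.1 1 1) h
        simp at h00 h10
        apply hd
        have h5 : A.1 1 0 = 0 := h10.resolve_right ht
        have h4 : (A.1 0 0 - A.1 1 1) * t = 0 := by linear_combination h00
        have h6 : A.1 0 0 = A.1 1 1 := sub_eq_zero.1 ((mul_eq_zero.1 h4).resolve_right ht)
        have hdet := det_entries A
        rw [h5, h6] at hdet
        unfold disc
        rw [tr_def, h6]
        linear_combination 4 * hdet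
      · have h4 := TorusCore.tr_eq_zero_of_inverts hA h
        rw [tr_x] at h4
        exact hF.two_ne h4
    · by_cases hc : Y.1 1 0 = 0
      · exact Or.inl hc
      right
      have h1 := hF.tr12 h hYm
      have h5 := hF.tr12 h (Z := x t * Y) (by rw [map_mul]; exact Subgroup.mul_mem _ hXm hYm)
      rw [tr_x_mul] at h5
      refine ⟨?_, h1⟩
      have hne : t * Y.1 1 0 ≠ 0 := mul_ne_zero ht hc
      apply mul_left_cancel₀ hne
      linear_combination h5 - h1 - (tr Y ^ 2 * (t * Y.1 1 0) + tr Y * (t * Y.1 1 0) ^ 2) * h3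
  · rintro (h | ⟨h1, h5⟩)
    · apply isSolvable_of_frame (g := 1)
      intro X hX
      have h1 : closure ({mkP (x t), mkP Y} : Set PSL(2, F)) ≤ borelP 1 :=
        closure_pair_le (mem_borelP.2 ((up_one_iff _).2 (by simp))) (mem_borelP.2 ((up_one_iff _).2 h))
      exact mem_borelP.1 (h1 hX)
    · have hcube := x_cube hF t
      by_cases hu : tr Y = 0
      · apply hG.solv
        rw [Set.pair_comm]
        apply hG.a4 (inv_of_tr_zero hu) hcube
        rw [← map_mul]
        apply hF.pow3_of_tr_sq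
        rw [tr_mul_comm, tr_x_mul, hu, zero_add]
        exact h1
      · have hu2 : tr Y ^ 2 = 1 := by
          apply mul_left_cancel₀ hu
          linear_combination h5
        have hyc := hF.pow3_of_tr_sq hu2
        have hfac : (tr Y - t * Y.1 1 0) * (tr Y + t * Y.1 1 0) = 0 := by linear_combination hu2 - h1
        rcases mul_eq_zero.1 hfac with hf | hf
        · -- `x⁻¹ y` is an involution
          have hz : tr ((x t)⁻¹ * Y) = 0 := by
            rw [x_inv, tr_x_mul]
            linear_combination hf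
          have hne := hG.a4 (a := mkP ((x t)⁻¹ * Y)) (b := mkP (x t)) (inv_of_tr_zero hz) hcube (by
            rw [← map_mul]
            apply hF.pow3_of_tr_sq
            have : (x t)⁻¹ * Y * x t = (x t)⁻¹ * Y * ((x t)⁻¹)⁻¹ := by rw [inv_inv]
            rw [this, tr_conj]
            exact hu2)
          apply hG.of_le _ hne
          apply closure_pair_le
          · exact subset_closure (Or.inr rfl)
          · have : mkP Y = mkP (x t) * mkP ((x t)⁻¹ * Y) := by
              rw [← map_mul]
              congr 1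
              group
            rw [this]
            exact Subgroup.mul_mem _ (subset_closure (Or.inr rfl)) (subset_closure (Or.inl rfl))
        · -- `x y` is an involution
          have hz : tr (x t * Y) = 0 := by
            rw [tr_x_mul]
            exact hf
          have hne := hG.a4 (a := mkP (x t * Y)) (b := mkP ((x t)⁻¹)) (inv_of_tr_zero hz)
            (by
              apply hF.pow3_of_tr_sq
              rw [tr_inv, tr_x]
              linear_combination hF.four) (by
            rw [← map_mul]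
            apply hF.pow3_of_tr_sq
            rw [tr_conj]
            exact hu2)
          apply hG.of_le _ hne
          apply closure_pair_le
          · have : mkP (x t) = (mkP ((x t)⁻¹))⁻¹ := by rw [map_inv, inv_inv]
            rw [this]
            exact Subgroup.inv_mem _ (subset_closure (Or.inr rfl))
          · have : mkP Y = mkP ((x t)⁻¹) * mkP (x t * Y) := by
              rw [← map_mul]
              congr 1
              group
            rw [this]
            exact Subgroup.mul_mem _ (subset_closure (Or.inr rfl)) (subset_closure (Or.inl rfl))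

lemma card_R2 (hF : Hyp F) : Nat.card {e : F // e ^ 2 = 1} = 2 := by
  apply card_of_two hF.one_ne_neg
  · ring
  · ring
  · intro c hc
    exact or_eq_of_sq hc

lemma card_R3 (hF : Hyp F) : Nat.card {e : F // e ^ 3 = e} = 3 := by
  have hne := hF.one_ne_neg
  have h2 := hF.two_ne
  have hcong : Nat.card {e : F // e ^ 3 = e} = Nat.card {e : F // e = 0 ∨ (e = 1 ∨ e = -1)} := by
    apply Nat.card_congr
    apply Equiv.subtypeEquivRight
    intro e
    constructor
    · intro h
      have h1 : e * ((e - 1) * (e + 1)) = 0 := by linear_combination h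
      rcases mul_eq_zero.1 h1 with h5 | h5
      · exact Or.inl h5
      · rcases mul_eq_zero.1 h5 with h5 | h5
        · exact Or.inr (Or.inl (sub_eq_zero.1 h5))
        · right; right
          linear_combination h5
    · rintro (rfl | rfl | rfl) <;> ring
  rw [hcong, card_or_of_disjoint, card_or_of_disjoint, Nat.card_unique, Nat.card_unique, Nat.card_unique]
  · rintro e rfl h
    exact hne h
  · rintro e rfl (h | h)
    · exact one_ne_zero h.symm
    · exact one_ne_zero (show (1 : F) = 0 by linear_combination h)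

/-- The non-upper part of the count for root elements. -/
lemma card_x_part (hF : Hyp F) {t : F} (ht : t ≠ 0) :
    Nat.card {Y : SL(2, F) // (t * Y.1 1 0) ^ 2 = 1 ∧ tr Y ^ 3 = tr Y} = 6 * Fintype.card F := by
  classical
  have hε : ∀ e : {e : F // e ^ 2 = 1}, e.1 / t ≠ 0 := by
    rintro ⟨e, he⟩
    apply div_ne_zero _ ht
    rintro rfl
    simp at he
  have hdet0 : ∀ a δ c : F, c ≠ 0 → a * (δ - a) - ((a * (δ - a) - 1) / c) * c = 1 := by
    intro a δ c hc
    rw [div_mul_cancel₀ _ hc]
    ring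
  let f : {e : F // e ^ 2 = 1} × {e : F // e ^ 3 = e} × F →
      {Y : SL(2, F) // (t * Y.1 1 0) ^ 2 = 1 ∧ tr Y ^ 3 = tr Y} := fun u =>
    ⟨sl2 u.2.2 ((u.2.2 * (u.2.1.1 - u.2.2) - 1) / (u.1.1 / t)) (u.1.1 / t) (u.2.1.1 - u.2.2)
      (hdet0 _ _ _ (hε u.1)), by
      simp only [sl2_10]
      have : t * (u.1.1 / t) = u.1.1 := by field_simp
      rw [this]
      exact u.1.2, by
      have : tr (sl2 u.2.2 ((u.2.2 * (u.2.1.1 - u.2.2) - 1) / (u.1.1 / t)) (u.1.1 / t) (u.2.1.1 - u.2.2)
          (hdet0 _ _ _ (hε u.1))) = u.2.1.1 := by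
        rw [tr_def]
        simp only [sl2_00, sl2_11]
        ring
      rw [this]
      exact u.2.1.2⟩
  have hf : Function.Bijective f := by
    constructor
    · rintro ⟨⟨e, he⟩, ⟨δ, hδ⟩, a⟩ ⟨⟨e', he'⟩, ⟨δ', hδ'⟩, a'⟩ h
      have h1 := congrArg (fun Y => Y.1.1 0 0) h
      have h2 := congrArg (fun Y => Y.1.1 1 0) h
      have h5 := congrArg (fun Y => Y.1.1 1 1) h
      simp only [f, sl2_00, sl2_10, sl2_11] at h1 h2 h5
      subst h1
      have e1 : e = e' := by
        field_simp at h2
        exact h2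
      have e2 : δ = δ' := by linear_combination h5
      subst e1
      subst e2
      rfl
    · rintro ⟨Y, h1, h2⟩
      have hc : Y.1 1 0 ≠ 0 := by
        intro h0
        rw [h0] at h1
        simp at h1
      refine ⟨(⟨t * Y.1 1 0, h1⟩, ⟨tr Y, h2⟩, Y.1 0 0), ?_⟩
      apply Subtype.ext
      have hdet := det_entries Y
      apply ext2
      · rfl
      · simp only [f, sl2_01, tr_def]
        field_simp
        linear_combination hdet
      · simp only [f, sl2_10]
        field_simp
      · simp only [f, sl2_11, tr_def]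
        ring
  rw [← Nat.card_congr (Equiv.ofBijective f hf), Nat.card_prod, Nat.card_prod, card_R2 hF, card_R3 hF,
    Nat.card_eq_fintype_card]
  ring

theorem card_x_case3 (hF : Hyp F) {t : F} (ht : t ≠ 0) :
    Nat.card {Y : SL(2, F) // Y.1 1 0 = 0 ∨ ((t * Y.1 1 0) ^ 2 = 1 ∧ tr Y ^ 3 = tr Y)} =
      Fintype.card F * (Fintype.card F + 5) := by
  have hq := card_ge_two F
  rw [card_or_of_disjoint, card_upper, card_x_part hF ht]
  · obtain ⟨u, hu⟩ : ∃ u, Fintype.card F = u + 1 := ⟨Fintype.card F - 1, by omega⟩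
    rw [hu]
    simp only [Nat.add_sub_cancel]
    ring
  · rintro Y h ⟨h1, -⟩
    rw [h] at h1
    simp at h1

end Three

section Split

theorem solv_d_iff3 (hF : Hyp F) {a : F} (ha : a ≠ 0) (hne : a ≠ a⁻¹)
    (hn2 : mkP (d a ha) * mkP (d a ha) ≠ 1) (hn3 : mkP (d a ha) * mkP (d a ha) * mkP (d a ha) ≠ 1)
    (Y : SL(2, F)) :
    Group.IsSolvable (closure ({mkP (d a ha), mkP Y} : Set PSL(2, F))) ↔
      Y.1 1 0 = 0 ∨ Y.1 0 1 = 0 ∨ (Y.1 0 0 = 0 ∧ Y.1 1 1 = 0) := by
  have hne' : a - a⁻¹ ≠ 0 := sub_ne_zero.2 hne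
  have hG := hF.good
  have hNC : NC (d a ha) := by
    constructor
    · intro h
      apply hn2
      rw [h]
      simp
    · intro h
      apply hn2
      rw [h, mkP_neg_one]
      simp
  have hdisc : disc (d a ha) ≠ 0 := by
    unfold disc
    rw [tr_d]
    have : (a + a⁻¹) ^ 2 - 4 = (a - a⁻¹) ^ 2 := by
      field_simp
      ring
    rw [this]
    exact pow_ne_zero 2 hne'
  constructor
  · intro hs
    have hXm := mem_closure_left (mkP (d a ha)) (mkP Y)
    have hYm := mem_closure_right (mkP (d a ha)) (mkP Y)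
    rcases hF.struct3 _ hs with h | ⟨g, hg⟩ | ⟨A, hA, hd, hle⟩ | h
    · exfalso
      haveI : Subsingleton (closure ({mkP (d a ha), mkP Y} : Set PSL(2, F))) :=
        (Nat.card_eq_one_iff_unique.1 h).1
      have h1 : (⟨mkP (d a ha), hXm⟩ : closure ({mkP (d a ha), mkP Y} : Set PSL(2, F))) = 1 :=
        Subsingleton.elim _ _
      exact mkP_ne_one hNC (congrArg Subtype.val h1)
    · have h1 := hg _ hXm
      have h3 := hg _ hYm
      unfold Up at h1 h3
      rw [T_10] at h1 h3
      simp only [d_00, d_01, d_10, d_11] at h1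
      have h4 : g.1 1 0 * g.1 1 1 * (a - a⁻¹) = 0 := by linear_combination h1
      have h5 := (mul_eq_zero.1 h4).resolve_right hne'
      have hdet := det_entries g
      rcases mul_eq_zero.1 h5 with h6 | h6
      · left
        rw [h6] at h3 hdet
        simp at h3 hdet
        rcases h3 with h7 | h7
        · rw [h7] at hdet
          simp at hdet
        · exact h7
      · right; left
        rw [h6] at h3 hdet
        simp at h3 hdet
        rcases h3 with h7 | h7
        · rw [h7] at hdet
          simp at hdet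
        · exact h7
    · have hXA := commute_or_inverts hA hd (hle hXm)
      have hYA := commute_or_inverts hA hd (hle hYm)
      have hXc : A * d a ha = d a ha * A := by
        rcases hXA with h | h
        · exact h
        · exfalso
          have h3 := TorusCore.tr_eq_zero_of_inverts hA h
          rw [tr_d] at h3
          apply hF.no_sq a
          field_simp at h3
          linear_combination h3
      have h01 := congrArg (fun M : SL(2, F) => M.1 0 1) hXc
      have h10 := congrArg (fun M : SL(2, F) => M.1 1 0) hXc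
      simp at h01 h10
      have hA01 : A.1 0 1 = 0 := by
        have h3 : A.1 0 1 * (a - a⁻¹) = 0 := by linear_combination -h01
        exact (mul_eq_zero.1 h3).resolve_right hne'
      have hA10 : A.1 1 0 = 0 := by
        have h3 : A.1 1 0 * (a - a⁻¹) = 0 := by linear_combination h10
        exact (mul_eq_zero.1 h3).resolve_right hne'
      have hA0 : A.1 0 0 - A.1 1 1 ≠ 0 := by
        intro h3
        apply hd
        have hdet := det_entries A
        rw [hA01, sub_eq_zero.1 h3] at hdet
        unfold disc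
        rw [tr_def, sub_eq_zero.1 h3]
        linear_combination 4 * hdet
      rcases hYA with h | h
      · left
        have h3 := congrArg (fun M : SL(2, F) => M.1 1 0) h
        simp [hA01, hA10] at h3
        have h4 : Y.1 1 0 * (A.1 0 0 - A.1 1 1) = 0 := by linear_combination -h3
        exact (mul_eq_zero.1 h4).resolve_right hA0
      · right; right
        have h3 : Y * A = A⁻¹ * Y := by
          rw [← h]
          group
        have h00 := congrArg (fun M : SL(2, F) => M.1 0 0) h3
        have h11 := congrArg (fun M : SL(2, F) => M.1 1 1) h3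
        simp [hA01, hA10] at h00 h11
        constructor
        · have h4 : Y.1 0 0 * (A.1 0 0 - A.1 1 1) = 0 := by linear_combination h00
          exact (mul_eq_zero.1 h4).resolve_right hA0
        · have h4 : Y.1 1 1 * (A.1 0 0 - A.1 1 1) = 0 := by linear_combination -h11
          exact (mul_eq_zero.1 h4).resolve_right hA0
    · exfalso
      rcases hF.elem12 h hXm with h1 | h1
      · exact hn2 h1
      · exact hn3 h1
  · rintro (h | h | ⟨h0, h1⟩)
    · apply isSolvable_of_frame (g := 1)
      intro X hX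
      have h1 : closure ({mkP (d a ha), mkP Y} : Set PSL(2, F)) ≤ borelP 1 :=
        closure_pair_le (mem_borelP.2 ((up_one_iff _).2 (by simp))) (mem_borelP.2 ((up_one_iff _).2 h))
      exact mem_borelP.1 (h1 hX)
    · apply isSolvable_of_frame (g := w)
      intro X hX
      have h1 : closure ({mkP (d a ha), mkP Y} : Set PSL(2, F)) ≤ borelP w := by
        apply closure_pair_le
        · apply mem_borelP.2
          unfold Up
          rw [T_10]
          simp
        · apply mem_borelP.2
          unfold Up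
          rw [T_10]
          simp [h]
      exact mem_borelP.1 (h1 hX)
    · apply isSolvable_of_le_Nz hNC hdisc
      apply closure_pair_le
      · exact self_mem_Nz _
      · apply mkP_mem_Nz (w := Y)
        have hdet := det_entries Y
        rw [h0, h1] at hdet
        simp at hdet
        apply ext2
        · simp [h0, h1, d_inv]
          linear_combination (a⁻¹) * hdet
        · simp [h0, h1, d_inv]
        · simp [h0, h1, d_inv]
        · simp [h0, h1, d_inv]
          linear_combination a * hdet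

theorem solv_nonsplit_iff3 (hF : Hyp F) {X : SL(2, F)} (hX : NC X) (hd : disc X ≠ 0) (hno : ∀ g, ¬ Up g X)
    (hn2 : mkP X * mkP X ≠ 1) (hn3 : mkP X * mkP X * mkP X ≠ 1)
    (Y : SL(2, F)) : Group.IsSolvable (closure ({mkP X, mkP Y} : Set PSL(2, F))) ↔ mkP Y ∈ Nz X := by
  constructor
  · intro hs
    have hXm := mem_closure_left (mkP X) (mkP Y)
    have hYm := mem_closure_right (mkP X) (mkP Y)
    rcases hF.struct3 _ hs with h | ⟨g, hg⟩ | ⟨A, hA, hdA, hle⟩ | h
    · exfalso
      haveI : Subsingleton (closure ({mkP X, mkP Y} : Set PSL(2, F))) :=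
        (Nat.card_eq_one_iff_unique.1 h).1
      have h1 : (⟨mkP X, hXm⟩ : closure ({mkP X, mkP Y} : Set PSL(2, F))) = 1 :=
        Subsingleton.elim _ _
      exact mkP_ne_one hX (congrArg Subtype.val h1)
    · exact absurd (hg _ hXm) (hno g)
    · have hXA := commute_or_inverts hA hdA (hle hXm)
      have hYA := commute_or_inverts hA hdA (hle hYm)
      have hXc : A * X = X * A := by
        rcases hXA with h | h
        · exact h
        · exfalso
          have h3 := TorusCore.tr_eq_zero_of_inverts hA h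
          exact hn2 (inv_of_tr_zero h3)
      rcases hYA with h | h
      · exact cbar_le_Nz X (mkP_mem_cbar.2 (commute_of_commute hA hXc h))
      · exact mkP_mem_Nz (inverts_of_inverts_commute hA hdA h hXc)
    · exfalso
      rcases hF.elem12 h hXm with h1 | h1
      · exact hn2 h1
      · exact hn3 h1
  · intro h
    apply isSolvable_of_le_Nz hX hd
    exact closure_pair_le (self_mem_Nz X) h


end Split

section Final

lemma Hyp.of_card {p : ℕ} (hp : p.Prime) (hodd : Odd p) (hcard : Fintype.card F = 3 ^ p) : Hyp F := by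
  refine ⟨?_, p, hp, ?_, hcard⟩
  · have h := Nat.cast_card_eq_zero F
    rw [hcard] at h
    push_cast at h
    exact (pow_eq_zero_iff hp.ne_zero).1 h
  · rintro rfl
    exact absurd hodd (by decide)

theorem count_inv (hF : Hyp F) (z : PSL(2, F)) (hz : orderOf z = 2) :
    Nat.card {y : PSL(2, F) // Group.IsSolvable (closure ({z, y} : Set PSL(2, F)))} =
      Fintype.card F * (Fintype.card F + 1) := by
  obtain ⟨X, rfl⟩ := mkP_surjective z
  have hzz : mkP X * mkP X = 1 := by
    have := pow_orderOf_eq_one (mkP X)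
    rw [hz, pow_two] at this
    exact this
  have hne : mkP X ≠ 1 := by
    intro h
    rw [h, orderOf_one] at hz
    omega
  have htr := hF.tr_zero_of_inv hzz hne
  obtain ⟨g, hg⟩ := TraceZero.exists_conj_of_tr_eq_zero hF.two_ne X w htr tr_w
  rw [card_sol_conj (mkP g), ← map_inv, ← map_mul, ← map_mul, hg]
  have h1 := card_lift hF.two_ne (fun y => Group.IsSolvable (closure ({mkP (w : SL(2, F)), y} : Set PSL(2, F))))
  have h2 : Nat.card {Y : SL(2, F) // Group.IsSolvable (closure ({mkP (w : SL(2, F)), mkP Y} : Set PSL(2, F)))} =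
      Nat.card {Y : SL(2, F) // tr Y = 0 ∨ tr (w * Y) = 0 ∨ w * Y = Y * w ∨
        (tr Y ^ 2 = 1 ∧ tr (w * Y) ^ 2 = 1)} :=
    Nat.card_congr (Equiv.subtypeEquivRight (solv_w_iff hF))
  rw [h2, card_w_case hF] at h1
  exact (Nat.eq_of_mul_eq_mul_left (by norm_num) h1).symm

lemma conj_helper {G : Type*} [Group G] {a b k : G} (h : k * a * k⁻¹ = b) :
    (b * b = 1 ↔ a * a = 1) ∧ (b * b * b = 1 ↔ a * a * a = 1) := by
  subst h
  constructor
  · have : k * a * k⁻¹ * (k * a * k⁻¹) = k * (a * a) * k⁻¹ := by group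
    rw [this]
    constructor
    · intro h
      have h1 : a * a = k⁻¹ * (k * (a * a) * k⁻¹) * k := by group
      rw [h1, h]
      group
    · intro h
      rw [h]
      group
  · have : k * a * k⁻¹ * (k * a * k⁻¹) * (k * a * k⁻¹) = k * (a * a * a) * k⁻¹ := by group
    rw [this]
    constructor
    · intro h
      have h1 : a * a * a = k⁻¹ * (k * (a * a * a) * k⁻¹) * k := by group
      rw [h1, h]
      group
    · intro h
      rw [h]
      group

lemma mkP_conj_pm {g X : SL(2, F)} {t : F} (hg : g * X * g⁻¹ = x t ∨ g * X * g⁻¹ = -x t) :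
    mkP g * mkP X * (mkP g)⁻¹ = mkP (x t) := by
  rw [← map_inv, ← map_mul, ← map_mul]
  rcases hg with h | h
  · rw [h]
  · rw [h]
    exact (mkP_eq_iff.2 (Or.inr rfl)).symm

theorem count_three (hF : Hyp F) (z : PSL(2, F)) (hz : orderOf z = 3) :
    2 * Nat.card {y : PSL(2, F) // Group.IsSolvable (closure ({z, y} : Set PSL(2, F)))} =
      Fintype.card F * (Fintype.card F + 5) := by
  obtain ⟨X, rfl⟩ := mkP_surjective z
  have hzz : mkP X * mkP X * mkP X = 1 := by
    have := pow_orderOf_eq_one (mkP X)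
    rw [hz, pow_succ, pow_two] at this
    exact this
  have hne : mkP X ≠ 1 := by
    intro h
    rw [h, orderOf_one] at hz
    omega
  have htr := hF.tr_sq_of_pow3 hzz
  have h3 := hF.h3
  rcases trichotomy X with ⟨a, ha, g, hne', hg⟩ | ⟨g, t, hg⟩ | hno
  · exfalso
    have h1 := tr_conj g X
    rw [hg, tr_d] at h1
    apply hne'
    have h4 : (a - a⁻¹) ^ 2 = 0 := by
      have : (a - a⁻¹) ^ 2 = (a + a⁻¹) ^ 2 - 4 := by
        field_simp
        ring
      rw [this, h1, htr]
      linear_combination -h3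
    exact sub_eq_zero.1 (pow_eq_zero_iff (by norm_num) |>.1 h4)
  · have hm := mkP_conj_pm hg
    have ht : t ≠ 0 := by
      rintro rfl
      rw [x_zero, map_one] at hm
      apply hne
      have : mkP X = (mkP g)⁻¹ * (mkP g * mkP X * (mkP g)⁻¹) * mkP g := by group
      rw [this, hm]
      group
    rw [card_sol_conj (mkP g), hm]
    have h1 := card_lift hF.two_ne (fun y => Group.IsSolvable (closure ({mkP (x t), y} : Set PSL(2, F))))
    have h2 : Nat.card {Y : SL(2, F) // Group.IsSolvable (closure ({mkP (x t), mkP Y} : Set PSL(2, F)))} =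
        Nat.card {Y : SL(2, F) // Y.1 1 0 = 0 ∨ ((t * Y.1 1 0) ^ 2 = 1 ∧ tr Y ^ 3 = tr Y)} :=
      Nat.card_congr (Equiv.subtypeEquivRight (solv_x_iff3 hF ht))
    rw [h2, card_x_case3 hF ht] at h1
    exact h1.symm
  · exfalso
    apply hno (-tr X)
    unfold IsEig
    linear_combination 2 * htr + h3

lemma not_sq_of_order {G : Type*} [Group G] {z : G} (hz1 : z ≠ 1) (hz2 : orderOf z ≠ 2) : z * z ≠ 1 := by
  intro h
  have h1 : orderOf z ∣ 2 := orderOf_dvd_of_pow_eq_one (by rw [pow_two, h])
  rcases (Nat.dvd_prime Nat.prime_two).1 h1 with h3 | h3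
  · exact hz1 (orderOf_eq_one_iff.1 h3)
  · exact hz2 h3

lemma not_cube_of_order {G : Type*} [Group G] {z : G} {n : ℕ} (hz1 : z ≠ 1) (hn : n % 3 ≠ 0)
    (hz : orderOf z ∣ n) : z * z * z ≠ 1 := by
  intro h
  have h1 : orderOf z ∣ 3 := orderOf_dvd_of_pow_eq_one (by rw [pow_succ, pow_two, h])
  rcases (Nat.dvd_prime Nat.prime_three).1 h1 with h3 | h3
  · exact hz1 (orderOf_eq_one_iff.1 h3)
  · rw [h3] at hz
    omega

lemma sq_of_dvd_both {G : Type*} [Group G] {z : G} {q : ℕ} (hq : 2 ≤ q) (h1 : orderOf z ∣ q - 1)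
    (h2 : orderOf z ∣ q + 1) : z * z = 1 := by
  have h3 : orderOf z ∣ 2 := by
    have := Nat.dvd_sub h2 h1
    have e : q + 1 - (q - 1) = 2 := by omega
    rwa [e] at this
  rw [← pow_two]
  exact orderOf_dvd_iff_pow_eq_one.1 h3

theorem count_split3 (hF : Hyp F) (z : PSL(2, F)) (hz1 : z ≠ 1) (hz2 : orderOf z ≠ 2)
    (hz : orderOf z ∣ Fintype.card F - 1) :
    Nat.card {y : PSL(2, F) // Group.IsSolvable (closure ({z, y} : Set PSL(2, F)))} =
      Fintype.card F * (Fintype.card F - 1) := by
  obtain ⟨X, rfl⟩ := mkP_surjective z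
  have hm3 := hF.card_mod3
  have hq := hF.four_le
  have hn2 := not_sq_of_order hz1 hz2
  have hn3 := not_cube_of_order hz1 (by omega) hz
  rcases trichotomy X with ⟨a, ha, g, hne', hg⟩ | ⟨g, t, hg⟩ | hno
  · have hm : mkP g * mkP X * (mkP g)⁻¹ = mkP (d a ha) := by
      rw [← map_inv, ← map_mul, ← map_mul, hg]
    obtain ⟨e2, e3⟩ := conj_helper hm
    rw [card_sol_conj (mkP g), hm]
    have h1 := card_lift hF.two_ne (fun y => Group.IsSolvable (closure ({mkP (d a ha), y} : Set PSL(2, F))))
    have h2 : Nat.card {Y : SL(2, F) // Group.IsSolvable (closure ({mkP (d a ha), mkP Y} : Set PSL(2, F)))} =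
        Nat.card {Y : SL(2, F) // Y.1 1 0 = 0 ∨ Y.1 0 1 = 0 ∨ (Y.1 0 0 = 0 ∧ Y.1 1 1 = 0)} :=
      Nat.card_congr (Equiv.subtypeEquivRight (solv_d_iff3 hF ha hne'
        (fun h => hn2 (e2.1 h)) (fun h => hn3 (e3.1 h))))
    rw [h2, card_d_case, mul_assoc] at h1
    exact (Nat.eq_of_mul_eq_mul_left (by norm_num) h1).symm
  · exfalso
    obtain ⟨-, e3⟩ := conj_helper (mkP_conj_pm hg)
    exact hn3 (e3.1 (x_cube hF t))
  · exfalso
    apply hn2
    have h1 : orderOf (mkP X) ∣ Fintype.card F + 1 := by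
      apply orderOf_dvd_of_pow_eq_one
      rw [← map_pow, pow_card_add_one_of_nonsplit hno, map_one]
    exact sq_of_dvd_both (by omega) hz h1

theorem count_nonsplit3 (hF : Hyp F) (z : PSL(2, F)) (hz1 : z ≠ 1) (hz2 : orderOf z ≠ 2)
    (hz : orderOf z ∣ Fintype.card F + 1) :
    Nat.card {y : PSL(2, F) // Group.IsSolvable (closure ({z, y} : Set PSL(2, F)))} =
      Fintype.card F + 1 := by
  obtain ⟨X, rfl⟩ := mkP_surjective z
  have hm3 := hF.card_mod3
  have hm8 := hF.card_mod
  have hq := hF.four_le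
  have hn2 := not_sq_of_order hz1 hz2
  have hn3 := not_cube_of_order hz1 (by omega) hz
  have h3 := hF.h3
  have hsplit : ¬ orderOf (mkP X) ∣ Fintype.card F - 1 := fun h =>
    hn2 (sq_of_dvd_both (by omega) h hz)
  rcases trichotomy X with ⟨a, ha, g, hne', hg⟩ | ⟨g, t, hg⟩ | hno
  · exfalso
    apply hsplit
    have hm : mkP g * mkP X * (mkP g)⁻¹ = mkP (d a ha) := by
      rw [← map_inv, ← map_mul, ← map_mul, hg]
    have h5 := FiniteField.pow_card_sub_one_eq_one a ha
    have h6 : (d a ha) ^ (Fintype.card F - 1) = 1 := by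
      rw [d_pow]
      apply ext2 <;> simp [h5]
    have h7 : (mkP g * mkP X * (mkP g)⁻¹) ^ (Fintype.card F - 1) = 1 := by
      rw [hm, ← map_pow, h6, map_one]
    apply orderOf_dvd_of_pow_eq_one
    rw [conj_pow] at h7
    have h8 : mkP X ^ (Fintype.card F - 1) = (mkP g)⁻¹ * (mkP g * mkP X ^ (Fintype.card F - 1) * (mkP g)⁻¹) * mkP g := by group
    rw [h8, h7]
    group
  · exfalso
    obtain ⟨-, e3⟩ := conj_helper (mkP_conj_pm hg)
    exact hn3 (e3.1 (x_cube hF t))
  · have hNC : NC X := nc_of_mkP_ne_one hz1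
    have hd : disc X ≠ 0 := by
      intro h0
      apply hn3
      apply hF.pow3_of_tr_sq
      unfold disc at h0
      linear_combination h0 + hF.four
    have hnoU : ∀ g, ¬ Up g X := by
      intro g hU
      apply hno ((T g X).1 0 0)
      unfold Up at hU
      have hdet := det_entries (T g X)
      rw [hU] at hdet
      have htr : tr X = tr (T g X) := by
        unfold T
        rw [tr_conj]
      unfold IsEig
      rw [htr, tr_def]
      linear_combination -hdet
    obtain ⟨w', hw'⟩ := exists_inverter hNC hd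
    haveI : Fact (Nat.Prime 3) := ⟨Nat.prime_three⟩
    haveI := hF.charP
    have hcNz := card_Nz 3 hNC hd hw'
    have hg2 : Nat.gcd 2 (Fintype.card F - 1) = 2 := gcd_two_odd (by omega)
    have hcbar : Nat.card (cbar X) = (Fintype.card F + 1) / 2 := by
      obtain ⟨-, h⟩ := MemberCyc.cbar_cyclic hNC hd
      rw [hg2] at h
      rcases h with h | h
      · exact h
      · exfalso
        apply hsplit
        have h6 := orderOf_dvd_natCard (⟨mkP X, mkP_mem_cbar.2 rfl⟩ : cbar X)
        rw [Subgroup.orderOf_mk, h] at h6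
        exact h6.trans (Nat.div_dvd_of_dvd (by omega))
    have e1 : Nat.card {y : PSL(2, F) // Group.IsSolvable (closure ({mkP X, y} : Set PSL(2, F)))} =
        Nat.card (Nz X) := by
      apply Nat.card_congr
      apply Equiv.subtypeEquivRight
      intro y
      obtain ⟨Y, rfl⟩ := mkP_surjective y
      exact solv_nonsplit_iff3 hF hNC hd hnoU hn2 hn3 Y
    rw [e1, hcNz, hcbar]
    omega

end Final

end Field

end Cfsg.Agent.Lib.PSL2.Solubilizer3
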